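/-
S2733, module Inner. CLAIM on forum topic S2733 before working; edit only your sorries; extra helper lemmas fine (prefix names to avoid clashes); statements are exact unless announced.
Paper: conjS S₀ = conj (mk u₀) = conjS (ofE u) (LocalBal.OmMain.conjS_ofE, u = omegaEquiv u₀). conjS_eq_one_iff for (ofE u)⁻¹ * S₀: g = c • u for a scalar c. Q(g x) = c² Q x (u isometry), so l = c² (exists_nonsingular). det g = c^(2m) det u = l^m since det u = 1 (u₀ ∈ Ω = commutator of the isometry group; Matrix.det is a hom to a commutative group). Contradiction with hdet.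
-/
import Mathlib
import Cfsg.Agent.Lib.LocalBal.OmOdd

set_option autoImplicit false
set_option linter.unusedSectionVars false
set_option linter.unusedVariables false
set_option linter.unusedSimpArgs false
set_option linter.style.haveILetI false

namespace Cfsg.Agent.Lib.LocalBalM.Inner

open Module MulAction QuadraticMap Matrix Cfsg.Agent.Lib.Witt.Quadratic Cfsg.Agent.Lib.Orth.Refl
open Cfsg.Agent.Lib.Orth.Gen Cfsg.Agent.Lib.OrthRefl.Eichler Cfsg.Agent.Lib.Classical.QuadEichler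
open Cfsg.Agent.Lib.Classical.QuadEichSimple Cfsg.Agent.Lib.Classical.OmegaHP Cfsg.Agent.Lib.Classical.OmegaLocal
open Cfsg.Agent.Lib.Classical.OmegaRoot Cfsg.Agent.Lib.Classical.OmegaSemi Cfsg.Agent.Lib.Classical.OmegaConj
open Cfsg.Agent.Lib.Classical.OmegaBar Cfsg.Agent.Lib.Classical.OmegaAut Cfsg.Agent.Lib.Classical.OmegaCount
open Cfsg.Agent.Lib.Orth.Forms Cfsg.Agent.Lib.Classical.BinaryForms Cfsg.Agent.Lib.Classical.QuadEichBridge
open Cfsg.Agent.Lib.Classical.OmegaForms Cfsg.Agent.Lib.Classical.OmegaOut Cfsg.Agent.Lib.Orth.Bridge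
open Cfsg.Agent.Lib.Classical.MatrixBridge Cfsg.Agent.Lib.Orth.Closure
open Cfsg.Agent.Lib.Classical.OmegaPGO Cfsg.Agent.Lib.Classical.OmegaPGO2 Cfsg.Agent.Lib.Classical.OmegaFrob
open Cfsg.Agent.Lib.Classical.OmegaOutOdd Cfsg.Agent.Lib.Classical.OmegaDesc Cfsg.Agent.Lib.Classical.OmegaFieldOdd
open Cfsg.Agent.Lib.LocalBal.OmEmb Cfsg.Agent.Lib.LocalBal.OmFix Cfsg.Agent.Lib.LocalBal.Core
open Cfsg.Agent.Lib.LocalBal.OmMain
open scoped commutatorElement

universe u

variable {F : Type u} [Field F] [Fintype F] {ι : Type} [Fintype ι] [DecidableEq ι]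
variable {Q : QuadraticForm F (ι → F)}
variable (hQ : (polarBilin Q).Nondegenerate) (hn : 5 ≤ Fintype.card ι) (r : ℕ) [hr : Fact r.Prime] [hc : CharP F r]

include hQ hn r in
/-- A similarity with `det g ≠ mult^m` does not induce an inner automorphism. -/
theorem not_inner {m : ℕ} (hcard : Fintype.card ι = 2 * m) (S₀ : SemiEl Q) (g : (ι → F) ≃ₗ[F] (ι → F))
    (hS₀ : ∀ x, S₀.1 x = g x) (l : F) (hl : ∀ x, Q (g x) = l * Q x)
    (hdet : LinearMap.det (g : (ι → F) →ₗ[F] (ι → F)) ≠ l ^ m) (k : Cfsg.POmega F ⇑Q) :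
    conjS hQ hn S₀ ≠ MulAut.conj k := by
  classical
  intro hθ
  obtain ⟨u, rfl⟩ := QuotientGroup.mk_surjective k
  rw [← conjS_ofE hQ hn] at hθ
  set t := omegaEquiv Q hQ hn u with ht
  have h1 : conjS hQ hn ((ofE t)⁻¹ * S₀) = 1 := by
    rw [map_mul, map_inv, hθ, inv_mul_cancel]
  obtain ⟨c, hc0, hc'⟩ := (conjS_eq_one_iff hQ hn r).1 h1
  let M : Matrix ι ι F := ((u.1 : Cfsg.isometryGroup F ⇑Q).1 : Matrix ι ι F)
  have h2 : ∀ x : ι → F, g x = c • (M *ᵥ x) := by
    intro x
    have h3 := hc' x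
    have h4 : (ofE t).1.symm (S₀.1 x) = c • x := h3
    have h5 : S₀.1 x = t.1 (c • x) := by
      rw [← h4]
      exact ((ofE t).1.apply_symm_apply _).symm
    rw [← hS₀, h5, map_smul, ht, omegaEquiv_apply]
  -- `l = c²`
  haveI : Nonempty ι := Fintype.card_pos_iff.mp (by omega)
  obtain ⟨v, hv⟩ := Cfsg.Agent.Lib.Orth.Closure.exists_nonsingular (Q := Q) hQ
  have hiso : ∀ x, Q (M *ᵥ x) = Q x := (mem_isometryGroup_iff _ _).1 u.1.2
  have hl2 : l = c ^ 2 := by
    have h5 := hl v
    rw [h2, QuadraticMap.map_smul, smul_eq_mul, hiso] at h5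
    exact (mul_right_cancel₀ hv (by rw [← h5]; ring))
  -- `det M = 1`
  have hdetM : M.det = 1 := by
    let φ : Cfsg.isometryGroup F ⇑Q →* Fˣ :=
      (Matrix.GeneralLinearGroup.det (n := ι) (R := F)).comp (Cfsg.isometryGroup F ⇑Q).subtype
    have hker : commutator (Cfsg.isometryGroup F ⇑Q) ≤ φ.ker := by
      rw [commutator_def, Subgroup.commutator_le]
      intro a _ b _
      rw [MonoidHom.mem_ker, map_commutatorElement, commutatorElement_eq_one_iff_mul_comm, mul_comm]
    have h6 : φ u.1 = 1 := hker u.2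
    have h7 := congrArg Units.val h6
    exact h7
  -- `det g = c^(2m)`
  have hg : (g : (ι → F) →ₗ[F] (ι → F)) = c • Matrix.toLin' M := by
    refine LinearMap.ext fun x => ?_
    change g x = c • (Matrix.toLin' M x)
    rw [h2, Matrix.toLin'_apply]
  apply hdet
  rw [hg, LinearMap.det_smul, Module.finrank_fintype_fun_eq_card, hcard, LinearMap.det_toLin', hdetM, mul_one, hl2,
    ← pow_mul]

end Cfsg.Agent.Lib.LocalBalM.Inner
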