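/-
S2733, module InvCore: the `p = 2` case in abstract form.
`Lt` = a subgroup of the Eichler group, `T₀` a semisimilarity; hypotheses `hD hE hZ hodd hB hinner` give
`O_{2'}(C_A(x)) = 1` for every `Aut`-conjugate `x` of `conjS T₀`, by `LocalBal.Core.core_eq_bot`.
-/
import Mathlib
import Cfsg.Agent.Lib.LocalBal.OmOdd

set_option autoImplicit false
set_option linter.unusedSectionVars false
set_option linter.unusedVariables false
set_option linter.unusedSimpArgs false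
set_option linter.style.haveILetI false

namespace Cfsg.Agent.Lib.LocalBalM.InvCore

open Module MulAction QuadraticMap Matrix Cfsg.Agent.Lib.Witt.Quadratic Cfsg.Agent.Lib.Orth.Refl
open Cfsg.Agent.Lib.Orth.Gen Cfsg.Agent.Lib.OrthRefl.Eichler Cfsg.Agent.Lib.Classical.QuadEichler
open Cfsg.Agent.Lib.Classical.QuadEichSimple Cfsg.Agent.Lib.Classical.OmegaHP Cfsg.Agent.Lib.Classical.OmegaLocal
open Cfsg.Agent.Lib.Classical.OmegaRoot Cfsg.Agent.Lib.Classical.OmegaSemi Cfsg.Agent.Lib.Classical.OmegaConj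
open Cfsg.Agent.Lib.Classical.OmegaBar Cfsg.Agent.Lib.Classical.OmegaAut Cfsg.Agent.Lib.Classical.OmegaCount
open Cfsg.Agent.Lib.Orth.Forms Cfsg.Agent.Lib.Classical.BinaryForms Cfsg.Agent.Lib.Classical.QuadEichBridge
open Cfsg.Agent.Lib.Classical.OmegaForms Cfsg.Agent.Lib.Classical.OmegaOut Cfsg.Agent.Lib.Orth.Bridge
open Cfsg.Agent.Lib.Classical.MatrixBridge Cfsg.Agent.Lib.Orth.Closure
open Cfsg.Agent.Lib.Classical.OmegaPGO Cfsg.Agent.Lib.Classical.OmegaPGO2 Cfsg.Agent.Lib.Classical.OmegaFrob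
open Cfsg.Agent.Lib.Classical.OmegaOutOdd Cfsg.Agent.Lib.Classical.OmegaDesc Cfsg.Agent.Lib.Classical.OmegaFieldOdd
open Cfsg.Agent.Lib.LocalBal.OmEmb Cfsg.Agent.Lib.LocalBal.OmFix Cfsg.Agent.Lib.LocalBal.Core
open Cfsg.Agent.Lib.LocalBal.OmMain
open scoped commutatorElement

universe u

variable {F : Type u} [Field F] [Fintype F] {ι : Type} [Fintype ι] [DecidableEq ι]
variable {Q : QuadraticForm F (ι → F)}
variable (hQ : (polarBilin Q).Nondegenerate) (hn : 5 ≤ Fintype.card ι)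

/-- The image in `PΩ` of a subgroup of the Eichler group. -/
noncomputable def imL (Lt : Subgroup (eGroup Q)) : Subgroup (Cfsg.POmega F ⇑Q) :=
  (Lt.map (pi Q)).map (pOmegaEquiv Q hQ hn).symm.toMonoidHom

theorem mem_imL {Lt : Subgroup (eGroup Q)} {y : Cfsg.POmega F ⇑Q} :
    y ∈ imL hQ hn Lt ↔ ∃ g ∈ Lt, pOmegaEquiv Q hQ hn y = pi Q g := by
  constructor
  · rintro ⟨_, ⟨g, hg, rfl⟩, rfl⟩
    exact ⟨g, hg, MulEquiv.apply_symm_apply _ _⟩
  · rintro ⟨g, hg, he⟩
    refine ⟨pi Q g, ⟨g, hg, rfl⟩, ?_⟩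
    apply (pOmegaEquiv Q hQ hn).injective
    rw [← he]
    exact MulEquiv.apply_symm_apply _ _

include hQ hn in
/-- **The abstract criterion at `p = 2`.** -/
theorem core_of_data (r : ℕ) [hr : Fact r.Prime] [hc : CharP F r] (hn7 : 7 ≤ Fintype.card ι) (h8 : NoSolid Q)
    (T₀ : SemiEl Q) (Lt : Subgroup (eGroup Q))
    (hX2 : (conjS hQ hn T₀) ^ 2 = 1)
    (hinner : ∀ k : Cfsg.POmega F ⇑Q, conjS hQ hn T₀ ≠ MulAut.conj k)
    (hD : ∀ g ∈ Lt, phi Q T₀ (pi Q g) = pi Q g)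
    (hE : ∀ u : eGroup Q, phi Q T₀ (pi Q u) = pi Q u → ∀ g ∈ Lt, u * g * u⁻¹ ∈ Lt)
    (hZ : ∀ g ∈ Lt, pi Q g = 1 → g = 1)
    (hodd : ∀ M : Subgroup (eGroup Q), M ≤ Lt → (∀ l ∈ Lt, ∀ y ∈ M, l * y * l⁻¹ ∈ M) → ¬ 2 ∣ Nat.card M → M = ⊥)
    (hB : ∀ T : SemiEl Q, (∀ g ∈ Lt, phi Q T (pi Q g) = pi Q g) → conjS hQ hn T = 1 ∨ conjS hQ hn T = conjS hQ hn T₀)
    (A : Subgroup (MulAut (Cfsg.POmega F ⇑Q))) (hinn : ∀ k : Cfsg.POmega F ⇑Q, MulAut.conj k ∈ A)
    (h x : MulAut (Cfsg.POmega F ⇑Q)) (hx : x = h * conjS hQ hn T₀ * h⁻¹) :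
    haveI : Fact (Nat.Prime 2) := ⟨Nat.prime_two⟩
    Cfsg.pPrimeCore 2 ↥(A ⊓ Subgroup.centralizer {x}) = ⊥ := by
  classical
  haveI h2p : Fact (Nat.Prime 2) := ⟨Nat.prime_two⟩
  have hcj := conj_injective (Q := Q) hQ hn7
  -- moving a condition on `α` along `pOmegaEquiv`
  have hfixS : ∀ T : SemiEl Q, (∀ l ∈ imL hQ hn Lt, conjS hQ hn T l = l) → ∀ g ∈ Lt, phi Q T (pi Q g) = pi Q g := by
    intro T hT g hg
    have h1 : (pOmegaEquiv Q hQ hn).symm (pi Q g) ∈ imL hQ hn Lt := ⟨pi Q g, ⟨g, hg, rfl⟩, rfl⟩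
    have h3 := congrArg (pOmegaEquiv Q hQ hn) (hT _ h1)
    rw [pOmegaEquiv_conjS, MulEquiv.apply_symm_apply] at h3
    exact h3
  refine core_eq_bot hcj (conjS hQ hn T₀) (imL hQ hn Lt) ?_ ?_ ?_ ?_ ?_ A hinn h x hx
  · -- hLC
    intro l hl
    obtain ⟨g, hg, he⟩ := (mem_imL hQ hn).1 hl
    apply (pOmegaEquiv Q hQ hn).injective
    rw [pOmegaEquiv_conjS, he, hD g hg]
  · -- hnormL
    intro c hc' l hl
    obtain ⟨g, hg, he⟩ := (mem_imL hQ hn).1 hl
    obtain ⟨u, hu⟩ := QuotientGroup.mk'_surjective _ (pOmegaEquiv Q hQ hn c)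
    have hu' : pi Q u = pOmegaEquiv Q hQ hn c := hu
    have h1 : phi Q T₀ (pi Q u) = pi Q u := by
      rw [hu', ← pOmegaEquiv_conjS, hc']
    refine (mem_imL hQ hn).2 ⟨u * g * u⁻¹, hE u h1 g hg, ?_⟩
    rw [map_mul, map_mul, map_inv, map_mul, map_mul, map_inv, he, hu']
  · -- hdich
    intro M hM hnM hcop
    let M' : Subgroup (eGroup Q) := Lt ⊓ (M.map (pOmegaEquiv Q hQ hn).toMonoidHom).comap (pi Q)
    have hM'1 : M' = ⊥ := by
      apply hodd M' inf_le_left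
      · rintro l hl y ⟨hy1, hy2⟩
        refine ⟨Lt.mul_mem (Lt.mul_mem hl hy1) (Lt.inv_mem hl), ?_⟩
        obtain ⟨m, hm, hme⟩ := hy2
        have hl' : (pOmegaEquiv Q hQ hn).symm (pi Q l) ∈ imL hQ hn Lt := ⟨pi Q l, ⟨l, hl, rfl⟩, rfl⟩
        refine ⟨_, hnM _ hl' m hm, ?_⟩
        show pOmegaEquiv Q hQ hn _ = pi Q (l * y * l⁻¹)
        have hme' : pOmegaEquiv Q hQ hn m = pi Q y := hme
        rw [map_mul, map_mul, map_inv, hme', MulEquiv.apply_symm_apply, map_mul, map_mul, map_inv]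
      · intro hdvd
        apply hcop
        -- `M'` injects into `M`
        let f : M' →* M :=
          { toFun := fun y => ⟨(pOmegaEquiv Q hQ hn).symm (pi Q y.1), by
              obtain ⟨m, hm, hme⟩ := y.2.2
              have hme' : pOmegaEquiv Q hQ hn m = pi Q y.1 := hme
              rw [← hme', MulEquiv.symm_apply_apply]
              exact hm⟩
            map_one' := by
              apply Subtype.ext
              simp
            map_mul' := by
              intro a b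
              apply Subtype.ext
              simp }
        have hf : Function.Injective f := by
          rw [injective_iff_map_eq_one]
          intro y hy
          have h1 : (pOmegaEquiv Q hQ hn).symm (pi Q y.1) = 1 := congrArg Subtype.val hy
          have h3 : pi Q y.1 = 1 := by
            have := congrArg (pOmegaEquiv Q hQ hn) h1
            rwa [MulEquiv.apply_symm_apply, map_one] at this
          exact Subtype.ext (hZ y.1 y.2.1 h3)
        exact hdvd.trans (Subgroup.card_dvd_of_injective f hf)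
    rw [Subgroup.eq_bot_iff_forall]
    intro y hy
    obtain ⟨g, hg, he⟩ := (mem_imL hQ hn).1 (hM hy)
    have h1 : g ∈ M' := ⟨hg, ⟨y, hy, he⟩⟩
    rw [hM'1] at h1
    have h3 : g = 1 := h1
    apply (pOmegaEquiv Q hQ hn).injective
    rw [he, h3, map_one, map_one]
  · -- hcent
    intro k hk
    obtain ⟨u₀, rfl⟩ := QuotientGroup.mk_surjective k
    have hT : ∀ l ∈ imL hQ hn Lt, conjS hQ hn (ofE (omegaEquiv Q hQ hn u₀)) l = l := by
      intro l hl
      rw [conjS_ofE hQ hn, MulAut.conj_apply, hk l hl, mul_inv_cancel_right]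
    rcases hB _ (hfixS _ hT) with h1 | h1
    · rw [conjS_ofE hQ hn] at h1
      exact hcj (by rw [h1, map_one])
    · rw [conjS_ofE hQ hn] at h1
      exact absurd h1.symm (hinner _)
  · -- hfield
    intro α hα hcop
    obtain ⟨T, rfl⟩ := conjS_surjective hQ hn r hn7 h8 α
    rcases hB T (hfixS T hα) with h1 | h1
    · exact h1
    · rw [h1] at hcop ⊢
      have h3 : orderOf (conjS hQ hn T₀) ∣ 2 := orderOf_dvd_of_pow_eq_one hX2
      have h4 := Nat.Coprime.eq_one_of_dvd hcop h3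
      exact orderOf_eq_one_iff.1 h4

end Cfsg.Agent.Lib.LocalBalM.InvCore
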