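/-
S2733, module Par. CLAIM on forum topic S2733 before working; edit only your sorries; extra helper lemmas fine (prefix names to avoid clashes); statements are exact unless announced.
Paper: orthogonal basis (u_i) of V (LinearMap.BilinForm.exists_orthogonal_basis, 2 ≠ 0), Q(u_i) ≠ 0 by nondegeneracy. A singular vector a = Σ a_i u_i ≠ 0 has at least two nonzero coordinates (Q a = Σ a_i² Q u_i). i₀(a) = least i with a_i ≠ 0 (depends only on the point). σ(⟨a⟩) = ⟨a - 2 a_{i₀} u_{i₀}⟩ (negate coordinate i₀) is a fixed point free involution of singPts Q (second nonzero coordinate: not proportional). Equiv.Perm.two_dvd_card_support (or Finset involution lemma).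
-/
import Mathlib
import Cfsg.Agent.Lib.LocalBal.OmOdd

set_option autoImplicit false
set_option linter.unusedSectionVars false
set_option linter.unusedVariables false
set_option linter.unusedSimpArgs false
set_option linter.style.haveILetI false

namespace Cfsg.Agent.Lib.LocalBalM.Par

open Module MulAction QuadraticMap Matrix Cfsg.Agent.Lib.Witt.Quadratic Cfsg.Agent.Lib.Orth.Refl
open Cfsg.Agent.Lib.Orth.Gen Cfsg.Agent.Lib.OrthRefl.Eichler Cfsg.Agent.Lib.Classical.QuadEichler
open Cfsg.Agent.Lib.Classical.QuadEichSimple Cfsg.Agent.Lib.Classical.OmegaHP Cfsg.Agent.Lib.Classical.OmegaLocal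
open Cfsg.Agent.Lib.Classical.OmegaRoot Cfsg.Agent.Lib.Classical.OmegaSemi Cfsg.Agent.Lib.Classical.OmegaConj
open Cfsg.Agent.Lib.Classical.OmegaBar Cfsg.Agent.Lib.Classical.OmegaAut Cfsg.Agent.Lib.Classical.OmegaCount
open Cfsg.Agent.Lib.Orth.Forms Cfsg.Agent.Lib.Classical.BinaryForms Cfsg.Agent.Lib.Classical.QuadEichBridge
open Cfsg.Agent.Lib.Classical.OmegaForms Cfsg.Agent.Lib.Classical.OmegaOut Cfsg.Agent.Lib.Orth.Bridge
open Cfsg.Agent.Lib.Classical.MatrixBridge Cfsg.Agent.Lib.Orth.Closure
open Cfsg.Agent.Lib.Classical.OmegaPGO Cfsg.Agent.Lib.Classical.OmegaPGO2 Cfsg.Agent.Lib.Classical.OmegaFrob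
open Cfsg.Agent.Lib.Classical.OmegaOutOdd Cfsg.Agent.Lib.Classical.OmegaDesc Cfsg.Agent.Lib.Classical.OmegaFieldOdd
open Cfsg.Agent.Lib.LocalBal.OmEmb Cfsg.Agent.Lib.LocalBal.OmFix Cfsg.Agent.Lib.LocalBal.Core
open Cfsg.Agent.Lib.LocalBal.OmMain
open scoped commutatorElement

universe u

variable {F : Type u} {V : Type*} [Field F] [Fintype F] [AddCommGroup V] [Module F V] [FiniteDimensional F V]
variable {Q : QuadraticForm F V}

namespace ParAux

variable {ι : Type*} [DecidableEq ι] (v : Basis ι F V) (g : Finset ι → ι)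

/-- Negate the coordinate `g (supp a)`. -/
noncomputable def sg (a : V) : V :=
  a - (2 * v.repr a (g (v.repr a).support)) • v (g (v.repr a).support)

lemma repr_sg (h2 : (2 : F) ≠ 0) (a : V) (j : ι) :
    v.repr (sg v g a) j = if j = g (v.repr a).support then - v.repr a j else v.repr a j := by
  unfold sg
  rw [map_sub, map_smul, Basis.repr_self, Finsupp.sub_apply, Finsupp.smul_apply, smul_eq_mul]
  by_cases hj : j = g (v.repr a).support
  · rw [if_pos hj, ← hj, Finsupp.single_eq_same]
    ring
  · rw [if_neg hj, Finsupp.single_eq_of_ne (by tauto)]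
    ring

lemma supp_sg (h2 : (2 : F) ≠ 0) (a : V) : (v.repr (sg v g a)).support = (v.repr a).support := by
  ext j
  simp only [Finsupp.mem_support_iff, repr_sg v g h2]
  split_ifs <;> simp

lemma sg_sg (h2 : (2 : F) ≠ 0) (a : V) : sg v g (sg v g a) = a := by
  apply v.repr.injective
  ext j
  rw [repr_sg v g h2, supp_sg v g h2, repr_sg v g h2]
  split_ifs <;> simp

lemma sg_smul (h2 : (2 : F) ≠ 0) {c : F} (hc : c ≠ 0) (a : V) : sg v g (c • a) = c • sg v g a := by
  have hs : (v.repr (c • a)).support = (v.repr a).support := by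
    ext j
    simp [hc]
  apply v.repr.injective
  ext j
  rw [repr_sg v g h2, map_smul, map_smul, Finsupp.smul_apply, Finsupp.smul_apply, repr_sg v g h2, ← map_smul, hs]
  simp only [map_smul, Finsupp.smul_apply, smul_eq_mul]
  split_ifs <;> ring

lemma sg_ne (h2 : (2 : F) ≠ 0) {a : V} (ha : a ≠ 0) : sg v g a ≠ 0 := by
  intro h
  have h3 := supp_sg v g h2 a
  rw [h] at h3
  simp only [map_zero, Finsupp.support_zero] at h3
  exact ha (by simpa using h3.symm)

variable [Fintype ι]

lemma polar_basis (hv : ∀ i j, i ≠ j → polar Q (v i) (v j) = 0) (a : V) (i : ι) :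
    polar Q a (v i) = v.repr a i * polar Q (v i) (v i) := by
  conv_lhs => rw [← v.sum_repr a]
  have : polar Q (∑ j, v.repr a j • v j) (v i) = polarBilin Q (∑ j, v.repr a j • v j) (v i) := rfl
  rw [this, map_sum, LinearMap.sum_apply, Finset.sum_eq_single i]
  · simp [polarBilin_apply_apply]
  · intro j _ hj
    simp [polarBilin_apply_apply, hv j i hj]
  · simp

lemma Q_sg (hv : ∀ i j, i ≠ j → polar Q (v i) (v j) = 0) (a : V) : Q (sg v g a) = Q a := by
  unfold sg
  set i := g (v.repr a).support
  set t := v.repr a i with ht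
  have h1 := polar_basis v hv a i
  rw [← ht, polar_self] at h1
  have h3 : polar Q a ((-(2 * t)) • v i) = (-(2 * t)) * polar Q a (v i) := by
    simp [polar_smul_right]
  have h4 : Q (a + (-(2 * t)) • v i) = Q a + Q ((-(2 * t)) • v i) + polar Q a ((-(2 * t)) • v i) := by
    rw [polar]
    ring
  rw [sub_eq_add_neg, ← neg_smul, h4, h3, h1, QuadraticMap.map_smul, smul_eq_mul, nsmul_eq_mul]
  push_cast
  ring

end ParAux

/-- The number of singular points of a non-degenerate form in odd characteristic is even. -/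
theorem even_singPts (hQ : (polarBilin Q).Nondegenerate) (h2 : (2 : F) ≠ 0) : Even (Nat.card (singPts Q)) := by
  classical
  rcases finite_or_infinite (singPts Q) with hfin | hinf
  swap
  · rw [Nat.card_eq_zero_of_infinite]
    exact Even.zero
  haveI : Invertible (2 : F) := invertibleOfNonzero h2
  obtain ⟨v, hv⟩ := LinearMap.BilinForm.exists_orthogonal_basis (B := polarBilin Q) (by
    refine ⟨fun x y => ?_⟩
    simp [polarBilin_apply_apply, polar_comm])
  have hv' : ∀ i j, i ≠ j → polar Q (v i) (v j) = 0 := fun i j hij => hv hij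
  rcases isEmpty_or_nonempty (Fin (finrank F V)) with he | ⟨⟨i₁⟩⟩
  · have hall : ∀ a : V, a = 0 := fun a => by
      apply v.repr.injective
      ext j
      exact he.elim j
    haveI : IsEmpty (singPts Q) := ⟨fun x => x.1.rep_nonzero (hall _)⟩
    rw [Nat.card_of_isEmpty]
    exact Even.zero
  let g : Finset (Fin (finrank F V)) → Fin (finrank F V) := fun s => if h : s.Nonempty then h.choose else i₁
  have hg : ∀ s : Finset (Fin (finrank F V)), s.Nonempty → g s ∈ s := by
    intro s hs
    simp only [g, dif_pos hs]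
    exact hs.choose_spec
  let σ := ParAux.sg v g
  have hQσ : ∀ a, Q (σ a) = Q a := ParAux.Q_sg v g hv'
  let f : singPts Q → singPts Q := fun x =>
    pt (σ x.1.rep) (ParAux.sg_ne v g h2 x.1.rep_nonzero) (by rw [hQσ]; exact x.2)
  have hxpt : ∀ x : singPts Q, x = pt x.1.rep x.1.rep_nonzero x.2 := by
    intro x
    apply Subtype.ext
    exact (Projectivization.mk_rep x.1).symm
  have hff : ∀ x, f (f x) = x := by
    intro x
    obtain ⟨c, hc⟩ := Projectivization.exists_smul_eq_mk_rep F (σ x.1.rep) (ParAux.sg_ne v g h2 x.1.rep_nonzero)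
    have hrep : (f x).1.rep = (c : F) • σ x.1.rep := hc.symm
    conv_rhs => rw [hxpt x]
    refine pt_eq_iff.2 ⟨(c : F), c.ne_zero, ?_⟩
    show _ = σ (f x).1.rep
    have e : σ ((c : F) • σ x.1.rep) = (c : F) • σ (σ x.1.rep) := ParAux.sg_smul v g h2 c.ne_zero _
    have e2 : σ (σ x.1.rep) = x.1.rep := ParAux.sg_sg v g h2 _
    rw [hrep, e, e2]
  have hne : ∀ x, f x ≠ x := by
    intro x hx
    have h1 : f x = pt x.1.rep x.1.rep_nonzero x.2 := by
      rw [hx]
      exact hxpt x
    obtain ⟨c, hc0, hc⟩ := pt_eq_iff.1 h1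
    set r := x.1.rep with hr
    have hr0 : r ≠ 0 := x.1.rep_nonzero
    have hrQ : Q r = 0 := x.2
    have hne' : (v.repr r).support.Nonempty := by
      rw [Finsupp.support_nonempty_iff]
      intro h0
      exact hr0 (v.repr.map_eq_zero_iff.1 h0)
    set i := g (v.repr r).support with hi
    have hi0 : v.repr r i ≠ 0 := Finsupp.mem_support_iff.1 (hg _ hne')
    have hco : ∀ j, v.repr (σ r) j = c * v.repr r j := by
      intro j
      rw [← hc, map_smul, Finsupp.smul_apply, smul_eq_mul]
    have hcneg : c = -1 := by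
      have h3 := hco i
      rw [ParAux.repr_sg v g h2, if_pos rfl] at h3
      have h4 : (c + 1) * v.repr r i = 0 := by
        linear_combination -h3
      have h5 := (mul_eq_zero.1 h4).resolve_right hi0
      linear_combination h5
    have hzero : ∀ j, j ≠ i → v.repr r j = 0 := by
      intro j hj
      have h3 := hco j
      rw [ParAux.repr_sg v g h2, if_neg hj, hcneg] at h3
      have h4 : (2 : F) * v.repr r j = 0 := by
        linear_combination h3
      exact (mul_eq_zero.1 h4).resolve_left h2
    have hreq : r = v.repr r i • v i := by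
      apply v.repr.injective
      ext j
      rw [map_smul, v.repr_self, Finsupp.smul_apply, smul_eq_mul]
      by_cases hj : j = i
      · subst hj
        simp
      · rw [hzero j hj, Finsupp.single_eq_of_ne (by tauto), mul_zero]
    have hQv : Q (v i) = 0 := by
      rw [hreq, QuadraticMap.map_smul, smul_eq_mul] at hrQ
      exact (mul_eq_zero.1 hrQ).resolve_left (mul_ne_zero hi0 hi0)
    have hrad : ∀ y, polarBilin Q (v i) y = 0 := by
      intro y
      rw [polarBilin_apply_apply, polar_comm, ParAux.polar_basis v hv' y i, polar_self, hQv]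
      simp
    exact v.ne_zero i (hQ.1 _ hrad)
  letI := Fintype.ofFinite (singPts Q)
  let π : Equiv.Perm (singPts Q) := ⟨f, f, hff, hff⟩
  have hπ : π ^ 2 = 1 := by
    ext1 x
    rw [_root_.sq]
    exact hff x
  have hsupp : π.support = Finset.univ := by
    ext x
    simp only [Equiv.Perm.mem_support, Finset.mem_univ, iff_true]
    exact hne x
  have h3 := Equiv.Perm.two_dvd_card_support hπ
  rw [hsupp, Finset.card_univ, ← Nat.card_eq_fintype_card] at h3
  exact even_iff_two_dvd.2 h3

end Cfsg.Agent.Lib.LocalBalM.Par
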