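/-
S2733, module LemO. CLAIM on forum topic S2733 before working; edit only your sorries; extra helper lemmas fine (prefix names to avoid clashes); statements are exact unless announced.
Paper (hn ≥ 5): G = eGroup Q primitive on X = singPts Q (isPreprimitive_pts). N normal, |N| odd. Either N is transitive on X: then |X| divides |N| (orbit-stabilizer), contradiction with Par.even_singPts. Or N acts trivially on X (Mathlib: MulAction.IsPreprimitive.isPretransitive_of_normal or `IsQuasiPreprimitive`, see how IwasawaSolv uses it): every g in N has all singular vectors as eigenvectors: scalar_of_eigen, scalar_sq: g = ±1, g² = 1, |N| odd: g = 1.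
Dim 3 (odd_normal3), no library primitivity: by Chevalley (exists_singular_of_finrank) and exists_partner V = <e,f> ⊥ <w>, Q w ≠ 0. Any two distinct singular points are non-perpendicular (dim 3). Block argument: let Y = N-orbit of a point <a>. If Y contains <c> ≠ <a>, Y = X: for a third point <d>, the Eichler element E(a,b), b ⊥ a, moves <c> to <d> (exists_eAt_move or direct: on the line e + t w - t²Q(w) f: E(e,t w) maps f to f + ... ; transitive on points ≠ <a>), fixes <a> so preserves Y (block_smul_mem). So Y = X or N trivial on X; first case as above; second: g has e, f, z=e-Q(w)f+w, z'=e-Q(w)f-w as eigenvectors: g is scalar (see SemiScal.semi_scalar_on or directly), scalar isometry ±1, odd order: 1.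
-/
import Mathlib
import Cfsg.Agent.Lib.LocalBalM.Par

set_option autoImplicit false
set_option linter.unusedSectionVars false
set_option linter.unusedVariables false
set_option linter.unusedSimpArgs false
set_option linter.style.haveILetI false

namespace Cfsg.Agent.Lib.LocalBalM.LemO

open Module MulAction QuadraticMap Matrix Cfsg.Agent.Lib.Witt.Quadratic Cfsg.Agent.Lib.Orth.Refl
open Cfsg.Agent.Lib.Orth.Gen Cfsg.Agent.Lib.OrthRefl.Eichler Cfsg.Agent.Lib.Classical.QuadEichler
open Cfsg.Agent.Lib.Classical.QuadEichSimple Cfsg.Agent.Lib.Classical.OmegaHP Cfsg.Agent.Lib.Classical.OmegaLocal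
open Cfsg.Agent.Lib.Classical.OmegaRoot Cfsg.Agent.Lib.Classical.OmegaSemi Cfsg.Agent.Lib.Classical.OmegaConj
open Cfsg.Agent.Lib.Classical.OmegaBar Cfsg.Agent.Lib.Classical.OmegaAut Cfsg.Agent.Lib.Classical.OmegaCount
open Cfsg.Agent.Lib.Orth.Forms Cfsg.Agent.Lib.Classical.BinaryForms Cfsg.Agent.Lib.Classical.QuadEichBridge
open Cfsg.Agent.Lib.Classical.OmegaForms Cfsg.Agent.Lib.Classical.OmegaOut Cfsg.Agent.Lib.Orth.Bridge
open Cfsg.Agent.Lib.Classical.MatrixBridge Cfsg.Agent.Lib.Orth.Closure
open Cfsg.Agent.Lib.Classical.OmegaPGO Cfsg.Agent.Lib.Classical.OmegaPGO2 Cfsg.Agent.Lib.Classical.OmegaFrob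
open Cfsg.Agent.Lib.Classical.OmegaOutOdd Cfsg.Agent.Lib.Classical.OmegaDesc Cfsg.Agent.Lib.Classical.OmegaFieldOdd
open Cfsg.Agent.Lib.LocalBal.OmEmb Cfsg.Agent.Lib.LocalBal.OmFix Cfsg.Agent.Lib.LocalBal.Core
open Cfsg.Agent.Lib.LocalBal.OmMain
open scoped commutatorElement

universe u

variable {F : Type u} {V : Type*} [Field F] [Fintype F] [AddCommGroup V] [Module F V] [FiniteDimensional F V]
variable {Q : QuadraticForm F V}


omit [FiniteDimensional F V] [Fintype F] in
/-- Common core: a block-trivial action and scalar-forcing imply no odd normal subgroup. -/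
theorem lemo_core [Nontrivial V] (hQ : (polarBilin Q).Nondegenerate)
    (hev : Even (Nat.card (singPts Q)))
    (hblock : ∀ {Δ : Set (singPts Q)}, IsBlock (eGroup Q) Δ → Δ.Subsingleton ∨ Δ = Set.univ)
    (hscal : ∀ g : V ≃ₗ[F] V, (∀ x, x ≠ 0 → Q x = 0 → ∃ d : F, g x = d • x) → ∃ c : F, ∀ x, g x = c • x)
    (N : Subgroup (eGroup Q)) (hN : N.Normal) (hodd : ¬ 2 ∣ Nat.card N) : N = ⊥ := by
  classical
  haveI := hN
  rw [Subgroup.eq_bot_iff_forall]
  intro g hg
  have htriv : ∀ a : singPts Q, ∀ n ∈ N, n • a = a := by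
    intro a n hn
    have hb : IsBlock (eGroup Q) (orbit N a) := IsBlock.orbit_of_normal a
    rcases hblock hb with hs | hu
    · exact hs (show n • a ∈ orbit N a from ⟨⟨n, hn⟩, rfl⟩) (mem_orbit_self a)
    · exfalso
      apply hodd
      have h1 : Nat.card (orbit N a) ∣ Nat.card N := by
        rw [Nat.card_coe_set_eq, ← MulAction.index_stabilizer]
        exact Subgroup.index_dvd_card _
      have h2 : Nat.card (orbit N a) = Nat.card (singPts Q) := by
        rw [hu]
        exact Nat.card_congr (Equiv.Set.univ _)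
      rw [h2] at h1
      exact (even_iff_two_dvd.1 hev).trans h1
  have heig : ∀ x, x ≠ 0 → Q x = 0 → ∃ d : F, g.1 x = d • x := by
    intro x hx hxQ
    have h1 := htriv (pt x hx hxQ) g hg
    rw [e_smul_pt] at h1
    obtain ⟨c, hc0, hc⟩ := pt_eq_iff.1 h1
    exact ⟨c, hc.symm⟩
  obtain ⟨c, hc⟩ := hscal g.1 heig
  obtain ⟨v, hv⟩ := Cfsg.Agent.Lib.Orth.Closure.exists_nonsingular Q hQ
  have hcc : c * c = 1 := by
    have h1 := Q_e g v
    rw [hc v, QuadraticMap.map_smul, smul_eq_mul] at h1
    have h3 : (c * c - 1) * Q v = 0 := by linear_combination h1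
    have h4 := (mul_eq_zero.mp h3).resolve_right hv
    linear_combination h4
  have hgg : g * g = 1 := by
    apply Subtype.ext
    ext x
    show g.1 (g.1 x) = x
    rw [hc x, map_smul, hc x, smul_smul, hcc, one_smul]
  by_contra hg1
  have h2 : orderOf g = 2 := orderOf_eq_prime (by rw [pow_two]; exact hgg) hg1
  apply hodd
  rw [← h2]
  exact Subgroup.orderOf_dvd_natCard N hg

/-- No non-trivial normal subgroup of odd order in the Eichler group, dimension `≥ 5`. -/
theorem odd_normal (hQ : (polarBilin Q).Nondegenerate) (h2 : (2 : F) ≠ 0) (hn : 5 ≤ finrank F V)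
    (N : Subgroup (eGroup Q)) (hN : N.Normal) (hodd : ¬ 2 ∣ Nat.card N) : N = ⊥ := by
  haveI : Nontrivial V := Module.nontrivial_of_finrank_pos (R := F) (by omega)
  have hprim := isPreprimitive_pts hQ hn
  exact lemo_core hQ (Par.even_singPts hQ h2) (fun hb => hprim.isTrivialBlock_of_isBlock hb)
    (fun g hg => scalar_of_eigen hQ hn g hg) N hN hodd

theorem lemo_polar_self {a : V} (ha : Q a = 0) : polar Q a a = 0 := by
  rw [polar_self_eq, ha, mul_zero]

/-- Two non-proportional singular vectors of a nondegenerate space of dimension `3` are not perpendicular. -/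
theorem lemo_not_perp (hQ : (polarBilin Q).Nondegenerate) (hn : finrank F V = 3) {a c : V} (ha0 : a ≠ 0)
    (ha : Q a = 0) (hc : Q c = 0) (hac : ∀ s : F, s • a ≠ c) : polar Q c a ≠ 0 := by
  intro hp
  have hli : LinearIndependent F ![a, c] := (LinearIndependent.pair_iff' ha0).2 hac
  set W : Submodule F V := Submodule.span F (Set.range ![a, c]) with hW
  have h1 : finrank F W = 2 := by
    have := finrank_span_eq_card hli
    simpa using this
  have h3 := LinearMap.BilinForm.finrank_orthogonal hQ W
  rw [hn, h1] at h3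
  have hle : W ≤ LinearMap.BilinForm.orthogonal (polarBilin Q) W := by
    rw [hW, Submodule.span_le]
    rintro _ ⟨i, rfl⟩
    rw [SetLike.mem_coe, LinearMap.BilinForm.mem_orthogonal_iff, ← hW]
    intro y hy
    have hW' : W ≤ (LinearMap.ker ((polarBilin Q).flip (![a, c] i))) := by
      rw [hW, Submodule.span_le]
      rintro _ ⟨j, rfl⟩
      show polar Q (![a, c] j) (![a, c] i) = 0
      fin_cases i <;> fin_cases j
      · exact lemo_polar_self ha
      · exact hp
      · show polar Q a c = 0
        rw [polar_comm]; exact hp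
      · exact lemo_polar_self hc
    exact hW' hy
  have h4 := Submodule.finrank_mono hle
  omega

/-- Scalar-forcing in dimension `3`. -/
theorem lemo_scalar3 (hQ : (polarBilin Q).Nondegenerate) (h2 : (2 : F) ≠ 0) (hn : finrank F V = 3)
    (g : V ≃ₗ[F] V) (hev : ∀ x, x ≠ 0 → Q x = 0 → ∃ d : F, g x = d • x) : ∃ c : F, ∀ x, g x = c • x := by
  obtain ⟨e, -, he0, he⟩ := exists_singular_of_finrank (Q := Q) (⊤ : Submodule F V)
    (by rw [finrank_top, hn])
  obtain ⟨f0, hf0⟩ := exists_polar_single hQ he0 (1 : F)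
  set f := f0 - Q f0 • e with hfdef
  have hfe : polar Q f e = 1 := by
    rw [hfdef, polar_sub_left, polar_smul_left, hf0, lemo_polar_self he]
    simp
  have hef : polar Q e f = 1 := by rw [polar_comm]; exact hfe
  have hf : Q f = 0 := by
    rw [hfdef, Q_sub, QuadraticMap.map_smul, he, polar_smul_right, hf0]
    simp
  have hf00 : f ≠ 0 := by
    rintro h
    rw [h, polar_zero_left] at hfe
    exact zero_ne_one hfe
  have hli : LinearIndependent F ![e, f] := (LinearIndependent.pair_iff' he0).2 (fun s hs => by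
    have := hfe
    rw [← hs, polar_smul_left, lemo_polar_self he, smul_zero] at this
    exact zero_ne_one this)
  set W : Submodule F V := Submodule.span F (Set.range ![e, f]) with hW
  have h1 : finrank F W = 2 := by simpa using finrank_span_eq_card hli
  have h3 := LinearMap.BilinForm.finrank_orthogonal hQ W
  rw [hn, h1] at h3
  have hmem : ∀ y, polar Q e y = 0 → polar Q f y = 0 → y ∈ LinearMap.BilinForm.orthogonal (polarBilin Q) W := by
    intro y h1 h2
    rw [LinearMap.BilinForm.mem_orthogonal_iff]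
    intro n hn
    have hW' : W ≤ LinearMap.ker ((polarBilin Q).flip y) := by
      rw [hW, Submodule.span_le]
      rintro _ ⟨j, rfl⟩
      show polar Q (![e, f] j) y = 0
      fin_cases j
      · exact h1
      · exact h2
    exact hW' hn
  have he_mem : e ∈ W := Submodule.subset_span ⟨0, rfl⟩
  have hf_mem : f ∈ W := Submodule.subset_span ⟨1, rfl⟩
  obtain ⟨⟨w, hwW⟩, hw0, hw⟩ := finrank_eq_one_iff'.1
    (show finrank F (LinearMap.BilinForm.orthogonal (polarBilin Q) W) = 1 from by omega)
  have hw0' : w ≠ 0 := fun h => hw0 (Subtype.ext h)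
  have hwW' := hwW
  rw [LinearMap.BilinForm.mem_orthogonal_iff] at hwW'
  have hew : polar Q e w = 0 := hwW' e he_mem
  have hfw : polar Q f w = 0 := hwW' f hf_mem
  have hwe : polar Q w e = 0 := by rw [polar_comm]; exact hew
  have hwf : polar Q w f = 0 := by rw [polar_comm]; exact hfw
  have hee := lemo_polar_self he
  have hff := lemo_polar_self hf
  have hdec : ∀ x, ∃ t : F, x = polar Q x f • e + polar Q x e • f + t • w := by
    intro x
    have hx' := hmem (x - polar Q x f • e - polar Q x e • f)
      (by simp [polar_sub_right, polar_smul_right, hee, hef, polar_comm Q e x])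
      (by simp [polar_sub_right, polar_smul_right, hff, hfe, polar_comm Q f x])
    obtain ⟨t, ht⟩ := hw ⟨_, hx'⟩
    refine ⟨t, ?_⟩
    have ht' : t • w = x - polar Q x f • e - polar Q x e • f := congrArg Subtype.val ht
    rw [ht']; abel
  have hwQ : Q w ≠ 0 := by
    intro h
    apply hw0'
    apply hQ.1 w
    intro y
    show polar Q w y = 0
    obtain ⟨t, ht⟩ := hdec y
    rw [ht, polar_add_right, polar_add_right, polar_smul_right, polar_smul_right, polar_smul_right,
      lemo_polar_self h, hwe, hwf]
    simp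
  set r := Q w with hr
  have hu : Q (e - r • f) = - r := by
    rw [Q_sub, QuadraticMap.map_smul, he, hf, polar_smul_right, hef]
    simp
  have hup : polar Q (e - r • f) w = 0 := by
    rw [polar_sub_left, polar_smul_left, hew, hfw]; simp
  have hz : Q (e - r • f + w) = 0 := by
    rw [QuadraticMap.map_add Q, hu, hup, ← hr]; ring
  have hz' : Q (e - r • f - w) = 0 := by
    rw [Q_sub, hu, hup, ← hr]; ring
  have hz0 : e - r • f + w ≠ 0 := by
    intro h
    have h5 := congrArg (fun v => polar Q v f) h
    simp only [polar_add_left, polar_sub_left, polar_smul_left, hef, hff, hwf, polar_zero_left, smul_eq_mul] at h5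
    simp at h5
  have hz'0 : e - r • f - w ≠ 0 := by
    intro h
    have h5 := congrArg (fun v => polar Q v f) h
    simp only [polar_add_left, polar_sub_left, polar_smul_left, hef, hff, hwf, polar_zero_left, smul_eq_mul] at h5
    simp at h5
  obtain ⟨α, hα⟩ := hev e he0 he
  obtain ⟨β, hβ⟩ := hev f hf00 hf
  obtain ⟨γ, hγ⟩ := hev _ hz0 hz
  obtain ⟨δ, hδ⟩ := hev _ hz'0 hz'
  rw [map_add, map_sub, map_smul, hα, hβ] at hγ
  rw [map_sub, map_sub, map_smul, hα, hβ] at hδ
  have hsum : (α • e - r • β • f) + (α • e - r • β • f)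
      = γ • (e - r • f + w) + δ • (e - r • f - w) := by
    rw [← hγ, ← hδ]; abel
  have h4 := congrArg (fun v => polar Q v f) hsum
  have h5 := congrArg (fun v => polar Q v e) hsum
  have h6 := congrArg (fun v => polar Q v w) hsum
  simp only [polar_add_left, polar_sub_left, polar_smul_left, hef, hff, hwf, hfe, hee, hwe, hew, hfw,
    polar_self_eq, smul_eq_mul, mul_zero, sub_zero, add_zero, zero_add, mul_one, ← hr] at h4 h5 h6
  have hrr : (2 : F) * r ≠ 0 := mul_ne_zero h2 hwQ
  have e1 : γ = δ := by
    have : (γ - δ) * (2 * r) = 0 := by linear_combination -h6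
    have h7 := (mul_eq_zero.mp this).resolve_right hrr
    linear_combination h7
  subst e1
  have e2 : α = γ := by
    have : 2 * (α - γ) = 0 := by linear_combination h4
    have h7 := (mul_eq_zero.mp this).resolve_left h2
    linear_combination h7
  have e3 : β = γ := by
    have : (2 * r) * (β - γ) = 0 := by linear_combination -h5
    have h7 := (mul_eq_zero.mp this).resolve_left hrr
    linear_combination h7
  subst e2
  subst e3
  have hgw : g w = β • w := by
    have : g w = β • (e - r • f + w) - (β • e - r • β • f) := by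
      rw [← hγ]; abel
    rw [this]; module
  refine ⟨β, fun x => ?_⟩
  obtain ⟨t, ht⟩ := hdec x
  set A := polar Q x f
  set B := polar Q x e
  calc g x = g (A • e + B • f + t • w) := by rw [← ht]
    _ = A • β • e + B • β • f + t • β • w := by
        rw [map_add, map_add, map_smul, map_smul, map_smul, hα, hβ, hgw]
    _ = β • (A • e + B • f + t • w) := by module
    _ = β • x := by rw [← ht]

/-- The same in dimension `3`. -/
theorem odd_normal3 (hQ : (polarBilin Q).Nondegenerate) (h2 : (2 : F) ≠ 0) (hn : finrank F V = 3)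
    (N : Subgroup (eGroup Q)) (hN : N.Normal) (hodd : ¬ 2 ∣ Nat.card N) : N = ⊥ := by
  haveI : Nontrivial V := Module.nontrivial_of_finrank_pos (R := F) (by omega)
  refine lemo_core hQ (Par.even_singPts hQ h2) ?_ (fun g hg => lemo_scalar3 hQ h2 hn g hg) N hN hodd
  intro Δ hΔ
  by_cases hs : Δ.Subsingleton
  · exact Or.inl hs
  right
  rw [Set.not_subsingleton_iff] at hs
  obtain ⟨p, hp, q, hq, hpq⟩ := hs
  have key : ∀ (a c : singPts Q), a ∈ Δ → c ∈ Δ → a ≠ c → ∀ d, d ≠ a → d ∈ Δ := by
    intro a c ha hc hac d hda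
    by_cases hdc : d = c
    · rwa [hdc]
    obtain ⟨a', ha0, haQ, rfl⟩ := exists_eq_pt a
    obtain ⟨c', hc0, hcQ, rfl⟩ := exists_eq_pt c
    obtain ⟨d', hd0, hdQ, rfl⟩ := exists_eq_pt d
    have hnp : ∀ {x : V} (hx0 : x ≠ 0) (hxQ : Q x = 0), pt x hx0 hxQ ≠ pt a' ha0 haQ → polar Q x a' ≠ 0 := by
      intro x hx0 hxQ hne
      apply lemo_not_perp hQ hn ha0 haQ hxQ
      intro s hs
      apply hne
      symm
      rw [pt_eq_iff]
      have hs0 : s ≠ 0 := by
        rintro rfl
        rw [zero_smul] at hs
        exact hx0 hs.symm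
      refine ⟨s⁻¹, inv_ne_zero hs0, ?_⟩
      rw [← hs, smul_smul, inv_mul_cancel₀ hs0, one_smul]
    have ht := hnp hc0 hcQ (Ne.symm hac)
    have hs' := hnp hd0 hdQ hda
    set t := polar Q c' a' with htdef
    set s := polar Q d' a' with hsdef
    set d2 : V := (t * s⁻¹) • d' with hd2
    have hd2Q : Q d2 = 0 := by
      rw [hd2, QuadraticMap.map_smul, hdQ, smul_zero]
    have hd2a : polar Q d2 a' = t := by
      rw [hd2, polar_smul_left, smul_eq_mul, ← hsdef, mul_assoc, inv_mul_cancel₀ hs', mul_one]
    obtain ⟨g, hg, hgc⟩ := exists_eAt_move (Q := Q) (a := a') (u := c') (v := d2) haQ (by rw [hcQ, hd2Q]) ht rfl hd2a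
    have hfix : (⟨g, hg.mem_eGroup⟩ : eGroup Q) • pt a' ha0 haQ = pt a' ha0 haQ := by
      rw [e_smul_pt, pt_eq_iff]
      exact ⟨1, one_ne_zero, by rw [one_smul]; exact hg.fix_center.symm⟩
    have h5 := block_smul_mem hΔ (⟨g, hg.mem_eGroup⟩ : eGroup Q) ha hfix hc
    have h6 : (⟨g, hg.mem_eGroup⟩ : eGroup Q) • pt c' hc0 hcQ = pt d' hd0 hdQ := by
      rw [e_smul_pt, pt_eq_iff]
      have htt : t * s⁻¹ ≠ 0 := mul_ne_zero ht (inv_ne_zero hs')
      exact ⟨t * s⁻¹, htt, hgc.symm⟩
    rwa [h6] at h5
  rw [Set.eq_univ_iff_forall]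
  intro d
  by_cases hdp : d = p
  · rwa [hdp]
  · exact key p q hp hq hpq d hdp

end Cfsg.Agent.Lib.LocalBalM.LemO
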