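/-
S2733, module A0. CLAIM on forum topic S2733 before working; edit only your sorries; extra helper lemmas fine (prefix names to avoid clashes); statements are exact unless announced.
Type (a), definitions and elementary facts. T₀ isometric involution. x = (x + T₀x)/2 + (x - T₀x)/2. polar Vp Vm = 0 since polar (T₀x)(T₀y) = polar x y.
-/
import Mathlib
import Cfsg.Agent.Lib.LocalBalM.InvCore
import Cfsg.Agent.Lib.LocalBalM.LemO
import Cfsg.Agent.Lib.LocalBalM.EichPt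
import Cfsg.Agent.Lib.LocalBalM.Inner

set_option autoImplicit false
set_option linter.unusedSectionVars false
set_option linter.unusedVariables false
set_option linter.unusedSimpArgs false
set_option linter.style.haveILetI false

namespace Cfsg.Agent.Lib.LocalBalM.A0

open Module MulAction QuadraticMap Matrix Cfsg.Agent.Lib.Witt.Quadratic Cfsg.Agent.Lib.Orth.Refl
open Cfsg.Agent.Lib.Orth.Gen Cfsg.Agent.Lib.OrthRefl.Eichler Cfsg.Agent.Lib.Classical.QuadEichler
open Cfsg.Agent.Lib.Classical.QuadEichSimple Cfsg.Agent.Lib.Classical.OmegaHP Cfsg.Agent.Lib.Classical.OmegaLocal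
open Cfsg.Agent.Lib.Classical.OmegaRoot Cfsg.Agent.Lib.Classical.OmegaSemi Cfsg.Agent.Lib.Classical.OmegaConj
open Cfsg.Agent.Lib.Classical.OmegaBar Cfsg.Agent.Lib.Classical.OmegaAut Cfsg.Agent.Lib.Classical.OmegaCount
open Cfsg.Agent.Lib.Orth.Forms Cfsg.Agent.Lib.Classical.BinaryForms Cfsg.Agent.Lib.Classical.QuadEichBridge
open Cfsg.Agent.Lib.Classical.OmegaForms Cfsg.Agent.Lib.Classical.OmegaOut Cfsg.Agent.Lib.Orth.Bridge
open Cfsg.Agent.Lib.Classical.MatrixBridge Cfsg.Agent.Lib.Orth.Closure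
open Cfsg.Agent.Lib.Classical.OmegaPGO Cfsg.Agent.Lib.Classical.OmegaPGO2 Cfsg.Agent.Lib.Classical.OmegaFrob
open Cfsg.Agent.Lib.Classical.OmegaOutOdd Cfsg.Agent.Lib.Classical.OmegaDesc Cfsg.Agent.Lib.Classical.OmegaFieldOdd
open Cfsg.Agent.Lib.LocalBal.OmEmb Cfsg.Agent.Lib.LocalBal.OmFix Cfsg.Agent.Lib.LocalBal.Core
open Cfsg.Agent.Lib.LocalBal.OmMain
open scoped commutatorElement

universe u

variable {F : Type u} [Field F] [Fintype F] {ι : Type} [Fintype ι] [DecidableEq ι]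
variable {Q : QuadraticForm F (ι → F)}

/-- The `+1` eigenspace. -/
def Vp (T₀ : (ι → F) ≃ₗ[F] (ι → F)) : Submodule F (ι → F) := LinearMap.ker ((T₀ : (ι → F) →ₗ[F] (ι → F)) - LinearMap.id)
/-- The `-1` eigenspace. -/
def Vm (T₀ : (ι → F) ≃ₗ[F] (ι → F)) : Submodule F (ι → F) := LinearMap.ker ((T₀ : (ι → F) →ₗ[F] (ι → F)) + LinearMap.id)

theorem mem_Vp {T₀ : (ι → F) ≃ₗ[F] (ι → F)} {x : ι → F} : x ∈ Vp T₀ ↔ T₀ x = x := by
  simp [Vp, LinearMap.mem_ker, sub_eq_zero]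

theorem mem_Vm {T₀ : (ι → F) ≃ₗ[F] (ι → F)} {x : ι → F} : x ∈ Vm T₀ ↔ T₀ x = -x := by
  simp [Vm, LinearMap.mem_ker, add_eq_zero_iff_eq_neg]

/-- The subgroup `Ω(V₊) × Ω(V₋)` as the group generated by the Eichler transformations inside the eigenspaces. -/
def LtA (Q : QuadraticForm F (ι → F)) (T₀ : (ι → F) ≃ₗ[F] (ι → F)) : Subgroup (eGroup Q) :=
  Subgroup.closure {g | ∃ a b, EAt Q a b g.1 ∧ ((a ∈ Vp T₀ ∧ b ∈ Vp T₀) ∨ (a ∈ Vm T₀ ∧ b ∈ Vm T₀))}

/-- The hypotheses of type (a). -/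
structure HypA (Q : QuadraticForm F (ι → F)) (T₀ : (ι → F) ≃ₗ[F] (ι → F)) : Prop where
  hQ : (polarBilin Q).Nondegenerate
  h2 : (2 : F) ≠ 0
  iso : ∀ x, Q (T₀ x) = Q x
  inv : ∀ x, T₀ (T₀ x) = x
  odd₁ : Odd (finrank F (Vp T₀))
  odd₂ : Odd (finrank F (Vm T₀))
  big : 8 ≤ Fintype.card ι

variable {T₀ : (ι → F) ≃ₗ[F] (ι → F)} (H : HypA Q T₀)
include H

theorem polar_Vp_Vm {x y : ι → F} (hx : x ∈ Vp T₀) (hy : y ∈ Vm T₀) : polar Q x y = 0 := by
  have hx' := mem_Vp.1 hx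
  have hy' := mem_Vm.1 hy
  have h1 : polar Q (T₀ x) (T₀ y) = polar Q x y := by
    simp only [QuadraticMap.polar, ← map_add, H.iso]
  rw [hx', hy', QuadraticMap.polar_neg_right] at h1
  have h3 : (2 : F) * polar Q x y = 0 := by
    have : polar Q x y = - polar Q x y := h1.symm
    linear_combination this
  exact (mul_eq_zero.1 h3).resolve_left H.h2

theorem exists_decomp (x : ι → F) : ∃ y ∈ Vp T₀, ∃ z ∈ Vm T₀, x = y + z := by
  have h2 := H.h2
  refine ⟨(2 : F)⁻¹ • (x + T₀ x), ?_, (2 : F)⁻¹ • (x - T₀ x), ?_, ?_⟩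
  · rw [mem_Vp, map_smul, map_add, H.inv, add_comm]
  · rw [mem_Vm, map_smul, map_sub, H.inv, ← smul_neg, neg_sub]
  · rw [← smul_add]
    have : x + T₀ x + (x - T₀ x) = (2 : F) • x := by
      rw [two_smul]; abel
    rw [this, smul_smul, inv_mul_cancel₀ h2, one_smul]

theorem disjoint_Vp_Vm {x : ι → F} (hx : x ∈ Vp T₀) (hy : x ∈ Vm T₀) : x = 0 := by
  have hx' := mem_Vp.1 hx
  have hy' := mem_Vm.1 hy
  have h3 : (2 : F) • x = 0 := by
    rw [two_smul]
    nth_rewrite 1 [← hx']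
    rw [hy']
    simp
  exact (smul_eq_zero.1 h3).resolve_left H.h2

theorem finrank_add : finrank F (Vp T₀) + finrank F (Vm T₀) = Fintype.card ι := by
  have hc : IsCompl (Vp T₀) (Vm T₀) := by
    constructor
    · rw [Submodule.disjoint_def]
      intro x hx hy
      exact disjoint_Vp_Vm H hx hy
    · rw [codisjoint_iff, eq_top_iff]
      intro x _
      obtain ⟨y, hy, z, hz, rfl⟩ := exists_decomp H x
      exact Submodule.add_mem_sup hy hz
  rw [Submodule.finrank_add_eq_of_isCompl hc, Module.finrank_fintype_fun_eq_card]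

theorem nd_Vp : ∀ x ∈ Vp T₀, (∀ y ∈ Vp T₀, polar Q x y = 0) → x = 0 := by
  intro x hx hy
  apply H.hQ.1 x
  intro z
  obtain ⟨y, hy', w, hw, rfl⟩ := exists_decomp H z
  show polar Q x (y + w) = 0
  rw [QuadraticMap.polar_add_right, hy y hy', polar_Vp_Vm H hx hw, add_zero]

theorem nd_Vm : ∀ x ∈ Vm T₀, (∀ y ∈ Vm T₀, polar Q x y = 0) → x = 0 := by
  intro x hx hy
  apply H.hQ.1 x
  intro z
  obtain ⟨y, hy', w, hw, rfl⟩ := exists_decomp H z
  show polar Q x (y + w) = 0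
  rw [QuadraticMap.polar_add_right, hy w hw, QuadraticMap.polar_comm, polar_Vp_Vm H hy' hx, add_zero]

/-- `Q` restricted to a nondegenerate subspace. -/
theorem nondeg_restrict (W : Submodule F (ι → F)) (hW : ∀ x ∈ W, (∀ y ∈ W, polar Q x y = 0) → x = 0) :
    (polarBilin (Q.comp W.subtype)).Nondegenerate := by
  have key : ∀ x y : W, polarBilin (Q.comp W.subtype) x y = polar Q (x : ι → F) (y : ι → F) := by
    intro x y
    simp [QuadraticMap.polarBilin_apply_apply, QuadraticMap.polar]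
  constructor
  · intro x hx
    apply Subtype.ext
    apply hW x.1 x.2
    intro y hy
    have := hx ⟨y, hy⟩
    rwa [key] at this
  · intro y hy
    apply Subtype.ext
    apply hW y.1 y.2
    intro x hx
    have := hy ⟨x, hx⟩
    rwa [key, QuadraticMap.polar_comm] at this

end Cfsg.Agent.Lib.LocalBalM.A0
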