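/-
S2733, module A1. CLAIM on forum topic S2733 before working; edit only your sorries; extra helper lemmas fine (prefix names to avoid clashes); statements are exact unless announced.
hD: generators: phi_apply S₀ H, conjG, Semi.eAt: conjE H E is EAt (T₀ a) (T₀ b) = EAt (±a)(±b) = EAt a b (formula, EAt.unique); so conjG H g = g on LtA (Subgroup.closure_induction).
hE: phi S₀ (pi u) = pi u means u⁻¹ conjG u central: scalar_of_mem_center, scalar_sq: T₀ u T₀⁻¹ = c u, c = ±1. So u maps Vp∪Vm into Vp∪Vm respecting blocks: (c=1) u Vp ≤ Vp, u Vm ≤ Vm; (c=-1) u Vp ≤ Vm, u Vm ≤ Vp. EAt.conj: u E(a,b) u⁻¹ = E(ua,ub) is again a generator; closure_induction.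
-/
import Mathlib
import Cfsg.Agent.Lib.LocalBalM.A0

set_option autoImplicit false
set_option linter.unusedSectionVars false
set_option linter.unusedVariables false
set_option linter.unusedSimpArgs false
set_option linter.style.haveILetI false

namespace Cfsg.Agent.Lib.LocalBalM.A1

open Module MulAction QuadraticMap Matrix Cfsg.Agent.Lib.Witt.Quadratic Cfsg.Agent.Lib.Orth.Refl
open Cfsg.Agent.Lib.Orth.Gen Cfsg.Agent.Lib.OrthRefl.Eichler Cfsg.Agent.Lib.Classical.QuadEichler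
open Cfsg.Agent.Lib.Classical.QuadEichSimple Cfsg.Agent.Lib.Classical.OmegaHP Cfsg.Agent.Lib.Classical.OmegaLocal
open Cfsg.Agent.Lib.Classical.OmegaRoot Cfsg.Agent.Lib.Classical.OmegaSemi Cfsg.Agent.Lib.Classical.OmegaConj
open Cfsg.Agent.Lib.Classical.OmegaBar Cfsg.Agent.Lib.Classical.OmegaAut Cfsg.Agent.Lib.Classical.OmegaCount
open Cfsg.Agent.Lib.Orth.Forms Cfsg.Agent.Lib.Classical.BinaryForms Cfsg.Agent.Lib.Classical.QuadEichBridge
open Cfsg.Agent.Lib.Classical.OmegaForms Cfsg.Agent.Lib.Classical.OmegaOut Cfsg.Agent.Lib.Orth.Bridge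
open Cfsg.Agent.Lib.Classical.MatrixBridge Cfsg.Agent.Lib.Orth.Closure
open Cfsg.Agent.Lib.Classical.OmegaPGO Cfsg.Agent.Lib.Classical.OmegaPGO2 Cfsg.Agent.Lib.Classical.OmegaFrob
open Cfsg.Agent.Lib.Classical.OmegaOutOdd Cfsg.Agent.Lib.Classical.OmegaDesc Cfsg.Agent.Lib.Classical.OmegaFieldOdd
open Cfsg.Agent.Lib.LocalBal.OmEmb Cfsg.Agent.Lib.LocalBal.OmFix Cfsg.Agent.Lib.LocalBal.Core
open Cfsg.Agent.Lib.LocalBal.OmMain
open scoped commutatorElement

universe u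

variable {F : Type u} [Field F] [Fintype F] {ι : Type} [Fintype ι] [DecidableEq ι]
variable {Q : QuadraticForm F (ι → F)}
variable {T₀ : (ι → F) ≃ₗ[F] (ι → F)} (H : Cfsg.Agent.Lib.LocalBalM.A0.HypA Q T₀)
open Cfsg.Agent.Lib.LocalBalM.A0

variable (S₀ : SemiEl Q) (hS₀ : ∀ x, S₀.1 x = T₀ x)

omit [Fintype F] [DecidableEq ι] in
/-- `θ = id` and `l = 1` for a semisimilarity which is a linear isometry. -/
theorem A1Aux.semi_data (hQ : (polarBilin Q).Nondegenerate) (hn : 5 ≤ Fintype.card ι)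
    (iso : ∀ x, Q (T₀ x) = Q x) {θ : F ≃+* F} {l : F}
    {g : (ι → F) ≃+ (ι → F)} (Hs : Semi Q g θ l) (hg : ∀ x, g x = T₀ x) : l = 1 := by
  have hfin : Module.finrank F (ι → F) = Fintype.card ι := Module.finrank_fintype_fun_eq_card F
  obtain ⟨x, hx, _⟩ := exists_nonsingular_perp (Q := Q) (k := 0) hQ (by omega) ![]
  have hx0 : x ≠ 0 := by
    rintro rfl
    simp at hx
  have hT0 : T₀ x ≠ 0 := by
    intro h
    exact hx0 (T₀.map_eq_zero_iff.1 h)
  have hθ : ∀ c, θ c = c := by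
    intro c
    have h1 := Hs.smul c x
    rw [hg, hg, map_smul] at h1
    have h2 : (c - θ c) • T₀ x = 0 := by rw [sub_smul, h1, sub_self]
    have h3 := (smul_eq_zero.1 h2).resolve_right hT0
    linear_combination -h3
  have h1 := Hs.Q_eq x
  rw [hg, iso, hθ] at h1
  have h2 : (l - 1) * Q x = 0 := by linear_combination -h1
  have h3 := (mul_eq_zero.1 h2).resolve_right hx
  linear_combination h3

include H hS₀

theorem hD_A : ∀ g ∈ LtA Q T₀, phi Q S₀ (pi Q g) = pi Q g := by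
  obtain ⟨θ, l, Hs⟩ := S₀.2
  have hl : l = 1 := A1Aux.semi_data H.hQ (by have := H.big; omega) H.iso Hs hS₀
  subst hl
  have key : ∀ g ∈ LtA Q T₀, conjG Hs g = g := by
    intro g hg
    induction hg using Subgroup.closure_induction with
    | mem x hx =>
      obtain ⟨a, b, Hx, hab⟩ := hx
      have h1 := Hs.eAt Hx
      rw [inv_one, one_smul, hS₀, hS₀] at h1
      apply Subtype.ext
      rcases hab with ⟨ha, hb⟩ | ⟨ha, hb⟩
      · rw [mem_Vp.1 ha, mem_Vp.1 hb] at h1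
        exact h1.unique Hx
      · rw [mem_Vm.1 ha, mem_Vm.1 hb] at h1
        have h2 : EAt Q ((-1 : F) • a) (-b) (conjE Hs x.1) := by
          rw [neg_one_smul]; exact h1
        have h3 := EAt.smul_center (by simp) h2
        rw [neg_one_smul, neg_neg] at h3
        exact h3.unique Hx
    | one => exact map_one _
    | mul x y _ _ h1 h2 => rw [map_mul, h1, h2]
    | inv x _ h1 => rw [map_inv, h1]
  intro g hg
  rw [phi_apply S₀ Hs, conjBar_pi, key g hg]

theorem hE_A : ∀ u : eGroup Q, phi Q S₀ (pi Q u) = pi Q u → ∀ g ∈ LtA Q T₀, u * g * u⁻¹ ∈ LtA Q T₀ := by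
  intro u hu
  obtain ⟨θ, l, Hs⟩ := S₀.2
  have hn5 : 5 ≤ Module.finrank F (ι → F) := by
    rw [Module.finrank_fintype_fun_eq_card]
    have := H.big
    omega
  rw [phi_apply S₀ Hs, conjBar_pi] at hu
  have hc : u⁻¹ * conjG Hs u ∈ Subgroup.center (eGroup Q) := by
    have := QuotientGroup.eq.1 hu
    have h2 : (conjG Hs u)⁻¹ * u ∈ Subgroup.center (eGroup Q) := this
    have h3 := Subgroup.inv_mem _ h2
    rwa [_root_.mul_inv_rev, inv_inv] at h3
  obtain ⟨c, hc'⟩ := scalar_of_mem_center H.hQ hn5 hc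
  have hiso : ∀ t : eGroup Q, t.1 ∈ isoGroup Q := by
    intro t
    exact eGroup_le_iso t.2
  have hc1 := scalar_sq H.hQ hn5 (hiso _) hc'
  -- `T₀ (u y) = c • u (T₀ y)`
  have hsymm : ∀ y, S₀.1.symm y = T₀ y := by
    intro y
    apply S₀.1.injective
    rw [S₀.1.apply_symm_apply, hS₀, H.inv]
  have hcomm : ∀ y, T₀ (u.1 y) = c • u.1 (T₀ y) := by
    intro y
    have h1 := hc' (T₀ y)
    have h2 : (u⁻¹ * conjG Hs u).1 (T₀ y) = u.1.symm ((conjG Hs u).1 (T₀ y)) := rfl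
    rw [h2, conjG_apply] at h1
    have h3 : (S₀.1.symm : (ι → F) ≃+ (ι → F)) (T₀ y) = y := by rw [hsymm, H.inv]
    rw [show (AddEquiv.symm _ : (ι → F) ≃+ (ι → F)) (T₀ y) = y from h3, hS₀] at h1
    have h5 := congrArg u.1 h1
    rw [map_smul, LinearEquiv.apply_symm_apply] at h5
    exact h5
  have hmem : ∀ a, (a ∈ Vp T₀ → (c = 1 → u.1 a ∈ Vp T₀) ∧ (c = -1 → u.1 a ∈ Vm T₀)) ∧
      (a ∈ Vm T₀ → (c = 1 → u.1 a ∈ Vm T₀) ∧ (c = -1 → u.1 a ∈ Vp T₀)) := by
    intro a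
    refine ⟨fun ha => ⟨fun h => ?_, fun h => ?_⟩, fun ha => ⟨fun h => ?_, fun h => ?_⟩⟩
    · rw [mem_Vp, hcomm, mem_Vp.1 ha, h, one_smul]
    · rw [mem_Vm, hcomm, mem_Vp.1 ha, h, neg_one_smul]
    · rw [mem_Vm, hcomm, mem_Vm.1 ha, h, one_smul, map_neg]
    · rw [mem_Vp, hcomm, mem_Vm.1 ha, h, map_neg, neg_one_smul, neg_neg]
  intro g hg
  induction hg using Subgroup.closure_induction with
  | mem x hx =>
    obtain ⟨a, b, Hx, hab⟩ := hx
    apply Subgroup.subset_closure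
    refine ⟨u.1 a, u.1 b, Hx.conj (hiso u), ?_⟩
    rcases hab with ⟨ha, hb⟩ | ⟨ha, hb⟩
    · rcases hc1 with h | h
      · exact Or.inl ⟨((hmem a).1 ha).1 h, ((hmem b).1 hb).1 h⟩
      · exact Or.inr ⟨((hmem a).1 ha).2 h, ((hmem b).1 hb).2 h⟩
    · rcases hc1 with h | h
      · exact Or.inr ⟨((hmem a).2 ha).1 h, ((hmem b).2 hb).1 h⟩
      · exact Or.inl ⟨((hmem a).2 ha).2 h, ((hmem b).2 hb).2 h⟩
  | one => rw [mul_one, mul_inv_cancel]; exact Subgroup.one_mem _
  | mul x y _ _ h1 h2 =>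
    have := Subgroup.mul_mem _ h1 h2
    convert this using 1
    group
  | inv x _ h1 =>
    have := Subgroup.inv_mem _ h1
    convert this using 1
    group

end Cfsg.Agent.Lib.LocalBalM.A1
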