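/-
S2733, module A2. CLAIM on forum topic S2733 before working; edit only your sorries; extra helper lemmas fine (prefix names to avoid clashes); statements are exact unless announced.
hodd: every g ∈ LtA preserves W = Vp and W = Vm (generators act trivially on the other eigenspace: polar_Vp_Vm; in W by the formula). Restriction ρ_W : LtA → (W ≃ₗ W), image = eGroup (Q.comp W.subtype) (generators restrict to EAt; conversely exists_eAt in W lifts by exists_eAt in V). M normal in LtA of odd order: ρ_W(M) normal in eGroup Q_W, odd: trivial by LemO.odd_normal (dim ≥ 5), odd_normal3 (dim 3); dim 1: no non-zero singular vector in W so all generators restrict to 1 (EAt.eq_one_of_center_zero). Odd dims: finrank ∈ {1, 3} or ≥ 5. So y ∈ M is trivial on Vp, Vm so y = 1 (exists_decomp).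
hZ: g ∈ LtA, pi g = 1: g central: g = c·1, c = ±1 (scalar_of_mem_center, scalar_sq). W = the eigenspace of dim ≥ 5 (odd dims, sum ≥ 8: one is ≥ 5). ρ_W(g) ∈ eGroup Q_W = ⁅iso,iso⁆ (eGroup_eq_commutator) so det = 1; det (c·1) = c^dim W = c (odd dim). So c = 1.
-/
import Mathlib
import Cfsg.Agent.Lib.LocalBalM.A0

set_option autoImplicit false
set_option linter.unusedSectionVars false
set_option linter.unusedVariables false
set_option linter.unusedSimpArgs false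
set_option linter.style.haveILetI false

namespace Cfsg.Agent.Lib.LocalBalM.A2

open Module MulAction QuadraticMap Matrix Cfsg.Agent.Lib.Witt.Quadratic Cfsg.Agent.Lib.Orth.Refl
open Cfsg.Agent.Lib.Orth.Gen Cfsg.Agent.Lib.OrthRefl.Eichler Cfsg.Agent.Lib.Classical.QuadEichler
open Cfsg.Agent.Lib.Classical.QuadEichSimple Cfsg.Agent.Lib.Classical.OmegaHP Cfsg.Agent.Lib.Classical.OmegaLocal
open Cfsg.Agent.Lib.Classical.OmegaRoot Cfsg.Agent.Lib.Classical.OmegaSemi Cfsg.Agent.Lib.Classical.OmegaConj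
open Cfsg.Agent.Lib.Classical.OmegaBar Cfsg.Agent.Lib.Classical.OmegaAut Cfsg.Agent.Lib.Classical.OmegaCount
open Cfsg.Agent.Lib.Orth.Forms Cfsg.Agent.Lib.Classical.BinaryForms Cfsg.Agent.Lib.Classical.QuadEichBridge
open Cfsg.Agent.Lib.Classical.OmegaForms Cfsg.Agent.Lib.Classical.OmegaOut Cfsg.Agent.Lib.Orth.Bridge
open Cfsg.Agent.Lib.Classical.MatrixBridge Cfsg.Agent.Lib.Orth.Closure
open Cfsg.Agent.Lib.Classical.OmegaPGO Cfsg.Agent.Lib.Classical.OmegaPGO2 Cfsg.Agent.Lib.Classical.OmegaFrob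
open Cfsg.Agent.Lib.Classical.OmegaOutOdd Cfsg.Agent.Lib.Classical.OmegaDesc Cfsg.Agent.Lib.Classical.OmegaFieldOdd
open Cfsg.Agent.Lib.LocalBal.OmEmb Cfsg.Agent.Lib.LocalBal.OmFix Cfsg.Agent.Lib.LocalBal.Core
open Cfsg.Agent.Lib.LocalBal.OmMain
open scoped commutatorElement

universe u

variable {F : Type u} [Field F] [Fintype F] {ι : Type} [Fintype ι] [DecidableEq ι]
variable {Q : QuadraticForm F (ι → F)}
variable {T₀ : (ι → F) ≃ₗ[F] (ι → F)} (H : Cfsg.Agent.Lib.LocalBalM.A0.HypA Q T₀)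
open Cfsg.Agent.Lib.LocalBalM.A0

section Aux

/-- `g` restricts to `k` on `W`. -/
def Rst (W : Submodule F (ι → F)) (g : (ι → F) ≃ₗ[F] (ι → F)) (k : W ≃ₗ[F] W) : Prop :=
  ∀ x : W, g (x : ι → F) = (k x : ι → F)

theorem polar_QW (W : Submodule F (ι → F)) (x y : W) :
    polar (Q.comp W.subtype) x y = polar Q (x : ι → F) (y : ι → F) := by
  simp [polar, QuadraticMap.comp_apply]

theorem Rst.one (W : Submodule F (ι → F)) : Rst W 1 (1 : W ≃ₗ[F] W) := fun _ => rfl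

theorem Rst.mul {W : Submodule F (ι → F)} {g g' : (ι → F) ≃ₗ[F] (ι → F)} {k k' : W ≃ₗ[F] W}
    (h : Rst W g k) (h' : Rst W g' k') : Rst W (g * g') (k * k') := by
  intro x
  show g (g' (x : ι → F)) = ((k (k' x) : W) : ι → F)
  rw [h' x, h (k' x)]

theorem Rst.inv {W : Submodule F (ι → F)} {g : (ι → F) ≃ₗ[F] (ι → F)} {k : W ≃ₗ[F] W}
    (h : Rst W g k) : Rst W g⁻¹ k⁻¹ := by
  intro x
  have h1 : g ((k⁻¹ x : W) : ι → F) = (x : ι → F) := by
    rw [h (k⁻¹ x)]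
    have : k (k⁻¹ x) = x := by
      show (k * k⁻¹) x = x
      rw [mul_inv_cancel]; rfl
    rw [this]
  have h2 : g⁻¹ (g ((k⁻¹ x : W) : ι → F)) = ((k⁻¹ x : W) : ι → F) := by
    show (g⁻¹ * g) _ = _
    rw [inv_mul_cancel]; rfl
  rw [h1] at h2
  exact h2

theorem Rst.unique {W : Submodule F (ι → F)} {g : (ι → F) ≃ₗ[F] (ι → F)} {k k' : W ≃ₗ[F] W}
    (h : Rst W g k) (h' : Rst W g k') : k = k' := by
  ext x
  have := (h x).symm.trans (h' x)
  exact congrFun this _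

theorem rst_eat {W : Submodule F (ι → F)} {a b : W} {g : (ι → F) ≃ₗ[F] (ι → F)} {k : W ≃ₗ[F] W}
    (hg : EAt Q (a : ι → F) (b : ι → F) g) (hk : EAt (Q.comp W.subtype) a b k) : Rst W g k := by
  intro x
  rw [hg.apply', hk.apply']
  simp only [polar_QW, QuadraticMap.comp_apply, Submodule.subtype_apply, Submodule.coe_sub, Submodule.coe_add,
    Submodule.coe_smul]

theorem rst_triv {W W' : Submodule F (ι → F)} (hperp : ∀ x ∈ W, ∀ y ∈ W', polar Q x y = 0)
    {a b : ι → F} (ha : a ∈ W') (hb : b ∈ W') {g : (ι → F) ≃ₗ[F] (ι → F)} (hg : EAt Q a b g) :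
    Rst W g 1 := by
  intro x
  exact hg.fix (hperp _ x.2 _ ha) (hperp _ x.2 _ hb)

theorem exists_rst {W W' : Submodule F (ι → F)} (hperp : ∀ x ∈ W, ∀ y ∈ W', polar Q x y = 0)
    (hWW : ∀ a b, ((a ∈ Vp T₀ ∧ b ∈ Vp T₀) ∨ (a ∈ Vm T₀ ∧ b ∈ Vm T₀)) →
      (a ∈ W ∧ b ∈ W) ∨ (a ∈ W' ∧ b ∈ W')) :
    ∀ g ∈ LtA Q T₀, ∃ k : eGroup (Q.comp W.subtype), Rst W g.1 k.1 := by
  intro g hg
  induction hg using Subgroup.closure_induction with
  | mem g hg =>
    obtain ⟨a, b, hE, hab⟩ := hg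
    rcases hWW a b hab with ⟨ha, hb⟩ | ⟨ha, hb⟩
    · have h0 : (Q.comp W.subtype) (⟨a, ha⟩ : W) = 0 := by
        simpa using hE.Qa
      have h1 : polar (Q.comp W.subtype) (⟨a, ha⟩ : W) (⟨b, hb⟩ : W) = 0 := by
        rw [polar_QW]
        exact hE.ab
      obtain ⟨k, hk⟩ := exists_eAt h0 h1
      exact ⟨⟨k, hk.mem_eGroup⟩, rst_eat (a := ⟨a, ha⟩) (b := ⟨b, hb⟩) hE hk⟩
    · exact ⟨1, rst_triv hperp ha hb hE⟩
  | one => exact ⟨1, Rst.one W⟩
  | mul x y _ _ hx hy =>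
    obtain ⟨k, hk⟩ := hx
    obtain ⟨k', hk'⟩ := hy
    exact ⟨k * k', hk.mul hk'⟩
  | inv x _ hx =>
    obtain ⟨k, hk⟩ := hx
    exact ⟨k⁻¹, hk.inv⟩

theorem exists_lift {W : Submodule F (ι → F)}
    (hW : ∀ a b, a ∈ W → b ∈ W → ((a ∈ Vp T₀ ∧ b ∈ Vp T₀) ∨ (a ∈ Vm T₀ ∧ b ∈ Vm T₀))) :
    ∀ k ∈ eGroup (Q.comp W.subtype), ∃ l ∈ LtA Q T₀, Rst W l.1 k := by
  intro k hk
  induction hk using Subgroup.closure_induction with
  | mem k hk =>
    obtain ⟨a, b, hE⟩ := hk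
    have h0 : Q (a : ι → F) = 0 := by simpa using hE.Qa
    have h1 : polar Q (a : ι → F) (b : ι → F) = 0 := by
      rw [← polar_QW]
      exact hE.ab
    obtain ⟨g, hg⟩ := exists_eAt h0 h1
    exact ⟨⟨g, hg.mem_eGroup⟩, Subgroup.subset_closure ⟨a, b, hg, hW _ _ a.2 b.2⟩, rst_eat hg hE⟩
  | one => exact ⟨1, Subgroup.one_mem _, Rst.one W⟩
  | mul x y _ _ hx hy =>
    obtain ⟨l, hl, hk⟩ := hx
    obtain ⟨l', hl', hk'⟩ := hy
    exact ⟨l * l', Subgroup.mul_mem _ hl hl', hk.mul hk'⟩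
  | inv x _ hx =>
    obtain ⟨l, hl, hk⟩ := hx
    exact ⟨l⁻¹, Subgroup.inv_mem _ hl, hk.inv⟩

/-- Dimension one: the Eichler group of `W` is trivial. -/
theorem eGroup_dim_one {W : Submodule F (ι → F)} (hd : finrank F W = 1)
    (nd : ∀ x ∈ W, (∀ y ∈ W, polar Q x y = 0) → x = 0) (h2 : (2 : F) ≠ 0) :
    ∀ k ∈ eGroup (Q.comp W.subtype), k = 1 := by
  obtain ⟨w, hw0, hw⟩ := finrank_eq_one_iff'.1 hd
  have hQw : Q (w : ι → F) ≠ 0 := by
    intro h0
    apply hw0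
    have : (w : ι → F) = 0 := by
      apply nd _ w.2
      intro y hy
      obtain ⟨d, hd⟩ := hw ⟨y, hy⟩
      have hy' : y = d • (w : ι → F) := by
        have := congrArg (Subtype.val) hd
        simpa using this.symm
      rw [hy', polar_smul_right, polar_self, h0]
      simp
    exact Subtype.ext this
  intro k hk
  induction hk using Subgroup.closure_induction with
  | mem k hk =>
    obtain ⟨a, b, hE⟩ := hk
    obtain ⟨c, hc⟩ := hw a
    have h0 : Q (a : ι → F) = 0 := by simpa using hE.Qa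
    have hc0 : c = 0 := by
      have h3 : (a : ι → F) = c • (w : ι → F) := by
        have := congrArg (Subtype.val) hc
        simpa using this.symm
      rw [h3, QuadraticMap.map_smul, smul_eq_mul] at h0
      have := (mul_eq_zero.1 h0).resolve_right hQw
      simpa using this
    have ha : a = 0 := by
      rw [← hc, hc0, zero_smul]
    rw [ha] at hE
    exact hE.eq_one_of_center_zero
  | one => rfl
  | mul x y _ _ hx hy => rw [hx, hy, one_mul]
  | inv x _ hx => rw [hx, inv_one]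

/-- The key step: every element of `M` acts trivially on the eigenspace `W`. -/
theorem trivial_on (h2 : (2 : F) ≠ 0) {W W' : Submodule F (ι → F)} (hperp : ∀ x ∈ W, ∀ y ∈ W', polar Q x y = 0)
    (hWW : ∀ a b, ((a ∈ Vp T₀ ∧ b ∈ Vp T₀) ∨ (a ∈ Vm T₀ ∧ b ∈ Vm T₀)) →
      (a ∈ W ∧ b ∈ W) ∨ (a ∈ W' ∧ b ∈ W'))
    (hW : ∀ a b, a ∈ W → b ∈ W → ((a ∈ Vp T₀ ∧ b ∈ Vp T₀) ∨ (a ∈ Vm T₀ ∧ b ∈ Vm T₀)))
    (hnd : (polarBilin (Q.comp W.subtype)).Nondegenerate)
    (nd : ∀ x ∈ W, (∀ y ∈ W, polar Q x y = 0) → x = 0)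
    (hdim : Odd (finrank F W))
    (M : Subgroup (eGroup Q)) (hM : M ≤ LtA Q T₀) (hn : ∀ l ∈ LtA Q T₀, ∀ y ∈ M, l * y * l⁻¹ ∈ M)
    (hodd : ¬ 2 ∣ Nat.card M) : ∀ y ∈ M, ∀ x ∈ W, y.1 x = x := by
  classical
  -- the image of `M`
  let N : Subgroup (eGroup (Q.comp W.subtype)) :=
    { carrier := {k | ∃ y ∈ M, Rst W y.1 k.1}
      mul_mem' := by
        rintro a b ⟨y, hy, hya⟩ ⟨y', hy', hyb⟩
        exact ⟨y * y', M.mul_mem hy hy', hya.mul hyb⟩
      one_mem' := ⟨1, M.one_mem, Rst.one W⟩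
      inv_mem' := by
        rintro a ⟨y, hy, hya⟩
        exact ⟨y⁻¹, M.inv_mem hy, hya.inv⟩ }
  have hNn : N.Normal := by
    constructor
    rintro n ⟨y, hy, hyn⟩ k
    obtain ⟨l, hl, hlk⟩ := exists_lift hW k.1 k.2
    exact ⟨l * y * l⁻¹, hn l hl y hy, (hlk.mul hyn).mul hlk.inv⟩
  -- the surjection `M → N`
  have hex : ∀ y : M, ∃ k : eGroup (Q.comp W.subtype), Rst W y.1.1 k.1 := fun y =>
    exists_rst hperp hWW y.1 (hM y.2)
  choose f hf using hex
  let φ : M →* N :=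
    { toFun := fun y => ⟨f y, y.1, y.2, hf y⟩
      map_one' := by
        apply Subtype.ext
        apply Subtype.ext
        exact (hf 1).unique (Rst.one W)
      map_mul' := by
        intro a b
        apply Subtype.ext
        apply Subtype.ext
        exact (hf (a * b)).unique ((hf a).mul (hf b)) }
  have hφ : Function.Surjective φ := by
    rintro ⟨k, y, hy, hyk⟩
    refine ⟨⟨y, hy⟩, ?_⟩
    apply Subtype.ext
    apply Subtype.ext
    exact (hf ⟨y, hy⟩).unique hyk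
  have hNodd : ¬ 2 ∣ Nat.card N := fun h => hodd (h.trans (Subgroup.card_dvd_of_surjective φ hφ))
  have hN : N = ⊥ := by
    have hcases : finrank F W = 1 ∨ finrank F W = 3 ∨ 5 ≤ finrank F W := by
      obtain ⟨m, hm⟩ := hdim
      omega
    rcases hcases with h1 | h3 | h5
    · rw [eq_bot_iff]
      rintro k -
      rw [Subgroup.mem_bot]
      exact Subtype.ext (eGroup_dim_one h1 nd h2 k.1 k.2)
    · exact LemO.odd_normal3 hnd h2 h3 N hNn hNodd
    · exact LemO.odd_normal hnd h2 h5 N hNn hNodd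
  intro y hy x hx
  have hk : f ⟨y, hy⟩ ∈ N := ⟨y, hy, hf ⟨y, hy⟩⟩
  rw [hN, Subgroup.mem_bot] at hk
  have := hf ⟨y, hy⟩ ⟨x, hx⟩
  rw [hk] at this
  exact this

end Aux

include H

theorem hodd_A : ∀ M : Subgroup (eGroup Q), M ≤ LtA Q T₀ → (∀ l ∈ LtA Q T₀, ∀ y ∈ M, l * y * l⁻¹ ∈ M) →
    ¬ 2 ∣ Nat.card M → M = ⊥ := by
  intro M hM hn hodd
  have hp : ∀ y ∈ M, ∀ x ∈ Vp T₀, y.1 x = x := by
    refine trivial_on (W := Vp T₀) (W' := Vm T₀) H.h2 (fun x hx y hy => polar_Vp_Vm H hx hy) (fun a b h => h)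
      (fun a b ha hb => Or.inl ⟨ha, hb⟩) (nondeg_restrict H _ (nd_Vp H)) (nd_Vp H) H.odd₁ M hM hn hodd
  have hm : ∀ y ∈ M, ∀ x ∈ Vm T₀, y.1 x = x := by
    refine trivial_on (W := Vm T₀) (W' := Vp T₀) H.h2
      (fun x hx y hy => by rw [polar_comm]; exact polar_Vp_Vm H hy hx) (fun a b h => h.symm)
      (fun a b ha hb => Or.inr ⟨ha, hb⟩) (nondeg_restrict H _ (nd_Vm H)) (nd_Vm H) H.odd₂ M hM hn hodd
  rw [eq_bot_iff]
  intro y hy
  rw [Subgroup.mem_bot]
  apply Subtype.ext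
  ext1 x
  obtain ⟨u, hu, v, hv, rfl⟩ := exists_decomp H x
  show y.1 (u + v) = u + v
  rw [map_add, hp y hy u hu, hm y hy v hv]

/-- An element of `LtA` is not `-1`, using an eigenspace of dimension at least 5. -/
theorem no_neg_aux {W W' : Submodule F (ι → F)} (hperp : ∀ x ∈ W, ∀ y ∈ W', polar Q x y = 0)
    (hWW : ∀ a b, ((a ∈ Vp T₀ ∧ b ∈ Vp T₀) ∨ (a ∈ Vm T₀ ∧ b ∈ Vm T₀)) →
      (a ∈ W ∧ b ∈ W) ∨ (a ∈ W' ∧ b ∈ W'))
    (hnd : (polarBilin (Q.comp W.subtype)).Nondegenerate)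
    (hdim : Odd (finrank F W)) (h5 : 5 ≤ finrank F W) {g : eGroup Q} (hg : g ∈ LtA Q T₀)
    (hneg : ∀ x, g.1 x = (-1 : F) • x) : False := by
  obtain ⟨k, hk⟩ := exists_rst hperp hWW g hg
  have hkx : ∀ x : W, k.1 x = (-1 : F) • x := by
    intro x
    apply Subtype.ext
    rw [← hk x, hneg]
    rfl
  have hdet1 : LinearEquiv.det k.1 = 1 := by
    have hk2 : k.1 ∈ ⁅isoGroup (Q.comp W.subtype), isoGroup (Q.comp W.subtype)⁆ :=
      (le_of_eq (eGroup_eq_commutator hnd h5)) k.2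
    have : ⁅isoGroup (Q.comp W.subtype), isoGroup (Q.comp W.subtype)⁆ ≤
        (LinearEquiv.det (R := F) (M := W)).ker := by
      rw [Subgroup.commutator_le]
      intro a _ b _
      rw [MonoidHom.mem_ker, map_commutatorElement, commutatorElement_eq_one_iff_commute]
      exact Commute.all _ _
    exact this hk2
  have hlin : ((k.1 : W ≃ₗ[F] W) : W →ₗ[F] W) = (-1 : F) • LinearMap.id := by
    ext1 x
    exact hkx x
  have hdet2 : ((LinearEquiv.det k.1 : Fˣ) : F) = (-1 : F) ^ finrank F W := by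
    rw [LinearEquiv.coe_det, hlin, LinearMap.det_smul, LinearMap.det_id, mul_one]
  rw [hdet1, hdim.neg_one_pow] at hdet2
  apply H.h2
  have h3 : (1 : F) = -1 := by simpa using hdet2
  have : (2 : F) = 1 + 1 := by norm_num
  rw [this]
  nth_rewrite 1 [h3]
  simp

theorem hZ_A : ∀ g ∈ LtA Q T₀, pi Q g = 1 → g = 1 := by
  intro g hg hpi
  have hcard : finrank F (ι → F) = Fintype.card ι := by simp
  have hn : 5 ≤ finrank F (ι → F) := by
    have := H.big
    omega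
  have hz : g ∈ Subgroup.center (eGroup Q) := (QuotientGroup.eq_one_iff g).1 hpi
  obtain ⟨c, hc⟩ := scalar_of_mem_center H.hQ hn hz
  rcases scalar_sq H.hQ hn (eGroup_le_iso g.2) hc with rfl | rfl
  · apply Subtype.ext
    ext1 x
    rw [hc, one_smul]
    rfl
  · exfalso
    have hsum := finrank_add H
    have hbig := H.big
    obtain ⟨m₁, hm₁⟩ := H.odd₁
    obtain ⟨m₂, hm₂⟩ := H.odd₂
    have hcases : 5 ≤ finrank F (Vp T₀) ∨ 5 ≤ finrank F (Vm T₀) := by omega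
    rcases hcases with h5 | h5
    · exact no_neg_aux H (W := Vp T₀) (W' := Vm T₀) (fun x hx y hy => polar_Vp_Vm H hx hy) (fun a b h => h)
        (nondeg_restrict H _ (nd_Vp H)) H.odd₁ h5 hg hc
    · exact no_neg_aux H (W := Vm T₀) (W' := Vp T₀)
        (fun x hx y hy => by rw [polar_comm]; exact polar_Vp_Vm H hy hx) (fun a b h => h.symm)
        (nondeg_restrict H _ (nd_Vm H)) H.odd₂ h5 hg hc

end Cfsg.Agent.Lib.LocalBalM.A2
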