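/-
S2733, module A3. CLAIM on forum topic S2733 before working; edit only your sorries; extra helper lemmas fine (prefix names to avoid clashes); statements are exact unless announced.
T θ-semilinear, phi T fixes pi of LtA. For W = Vp or Vm with finrank ≥ 3, a ∈ W non-zero singular: a non-singular b ∈ W ⊥ a exists (exists_nonsingular_perp in the space W with Q.comp W.subtype, nondeg_restrict; note dim W ≥ 3), E = generator at (a,b), EichPt.eichler_point: T a = c a. EichPt.semi_scalar_on: θ = 1, T = c_W on W. One of the dims is ≥ 3 (sum ≥ 8), so θ = 1. If the other eigenspace W' has dim 1: W' = W^⊥ (finrank count) and T preserves W^⊥ (polar(Tx,Ty) = l polar(x,y)) so T = c' on W'. So T = c₊ on Vp, c₋ on Vm; non-singular vectors give c₊² = l = c₋² so c₋ = ±c₊. T = c₊·1 or T = c₊·T₀ so conjS T = 1 or conjS T = conjS S₀ (conjS_eq_one_iff for S₀⁻¹ * T).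
-/
import Mathlib
import Cfsg.Agent.Lib.LocalBalM.A0

set_option autoImplicit false
set_option linter.unusedSectionVars false
set_option linter.unusedVariables false
set_option linter.unusedSimpArgs false
set_option linter.style.haveILetI false

namespace Cfsg.Agent.Lib.LocalBalM.A3

open Module MulAction QuadraticMap Matrix Cfsg.Agent.Lib.Witt.Quadratic Cfsg.Agent.Lib.Orth.Refl
open Cfsg.Agent.Lib.Orth.Gen Cfsg.Agent.Lib.OrthRefl.Eichler Cfsg.Agent.Lib.Classical.QuadEichler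
open Cfsg.Agent.Lib.Classical.QuadEichSimple Cfsg.Agent.Lib.Classical.OmegaHP Cfsg.Agent.Lib.Classical.OmegaLocal
open Cfsg.Agent.Lib.Classical.OmegaRoot Cfsg.Agent.Lib.Classical.OmegaSemi Cfsg.Agent.Lib.Classical.OmegaConj
open Cfsg.Agent.Lib.Classical.OmegaBar Cfsg.Agent.Lib.Classical.OmegaAut Cfsg.Agent.Lib.Classical.OmegaCount
open Cfsg.Agent.Lib.Orth.Forms Cfsg.Agent.Lib.Classical.BinaryForms Cfsg.Agent.Lib.Classical.QuadEichBridge
open Cfsg.Agent.Lib.Classical.OmegaForms Cfsg.Agent.Lib.Classical.OmegaOut Cfsg.Agent.Lib.Orth.Bridge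
open Cfsg.Agent.Lib.Classical.MatrixBridge Cfsg.Agent.Lib.Orth.Closure
open Cfsg.Agent.Lib.Classical.OmegaPGO Cfsg.Agent.Lib.Classical.OmegaPGO2 Cfsg.Agent.Lib.Classical.OmegaFrob
open Cfsg.Agent.Lib.Classical.OmegaOutOdd Cfsg.Agent.Lib.Classical.OmegaDesc Cfsg.Agent.Lib.Classical.OmegaFieldOdd
open Cfsg.Agent.Lib.LocalBal.OmEmb Cfsg.Agent.Lib.LocalBal.OmFix Cfsg.Agent.Lib.LocalBal.Core
open Cfsg.Agent.Lib.LocalBal.OmMain
open scoped commutatorElement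

universe u

variable {F : Type u} [Field F] [Fintype F] {ι : Type} [Fintype ι] [DecidableEq ι]
variable {Q : QuadraticForm F (ι → F)}
variable {T₀ : (ι → F) ≃ₗ[F] (ι → F)} (H : Cfsg.Agent.Lib.LocalBalM.A0.HypA Q T₀)
open Cfsg.Agent.Lib.LocalBalM.A0
variable (hQ : (polarBilin Q).Nondegenerate) (hn : 5 ≤ Fintype.card ι) (r : ℕ) [hr : Fact r.Prime] [hc : CharP F r]
variable (S₀ : SemiEl Q) (hS₀ : ∀ x, S₀.1 x = T₀ x)

omit [Fintype F] [DecidableEq ι] in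
/-- A non-singular vector in a nondegenerate nonzero subspace. -/
theorem a3_nonsing (W : Submodule F (ι → F)) (hW0 : 0 < finrank F W)
    (hWnd : ∀ x ∈ W, (∀ y ∈ W, polar Q x y = 0) → x = 0) : ∃ x ∈ W, Q x ≠ 0 := by
  obtain ⟨⟨x₀, hx₀⟩, hx₀0⟩ := (Module.finrank_pos_iff_exists_ne_zero).1 hW0
  by_contra hall
  push Not at hall
  apply hx₀0
  apply Subtype.ext
  apply hWnd x₀ hx₀
  intro y hy
  rw [QuadraticMap.polar, hall _ (W.add_mem hx₀ hy), hall _ hx₀, hall _ hy]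
  simp

omit [Fintype F] [DecidableEq ι] in
/-- A scalar on `W` forces a scalar on the one-dimensional complement. -/
theorem a3_other {T : (ι → F) ≃+ (ι → F)} {l : F} (HT : Semi Q T (RingEquiv.refl F) l)
    (W W' : Submodule F (ι → F))
    (hdec : ∀ x, ∃ u ∈ W, ∃ v ∈ W', x = u + v)
    (hort : ∀ u ∈ W, ∀ v ∈ W', polar Q u v = 0)
    (hWnd : ∀ x ∈ W, (∀ y ∈ W, polar Q x y = 0) → x = 0)
    {c : F} (hc0 : c ≠ 0) (hc : ∀ x ∈ W, T x = c • x) (h1 : finrank F W' = 1) :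
    ∃ c' : F, ∀ y ∈ W', T y = c' • y := by
  obtain ⟨y₀, hy₀, hgen⟩ := finrank_eq_one_iff'.1 h1
  obtain ⟨u, hu, v, hv, huv⟩ := hdec (T y₀.1)
  have hu0 : u = 0 := by
    apply hWnd u hu
    intro x hx
    have h3 : polar Q v x = 0 := by
      rw [QuadraticMap.polar_comm]
      exact hort x hx v hv
    have h4 : polar Q (T y₀.1) x = 0 := by
      have h5 : T (c⁻¹ • x) = x := by
        rw [hc _ (W.smul_mem _ hx), smul_smul, mul_inv_cancel₀ hc0, one_smul]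
      rw [← h5, HT.polar_eq, QuadraticMap.polar_comm, hort _ (W.smul_mem _ hx) _ y₀.2]
      simp
    rw [huv, QuadraticMap.polar_add_left, h3, add_zero] at h4
    exact h4
  rw [hu0, zero_add] at huv
  obtain ⟨c', hc'⟩ := hgen ⟨v, hv⟩
  have hc'' : c' • y₀.1 = v := congrArg Subtype.val hc'
  refine ⟨c', fun y hy => ?_⟩
  obtain ⟨s, hs⟩ := hgen ⟨y, hy⟩
  have hs' : s • y₀.1 = y := congrArg Subtype.val hs
  rw [← hs', HT.smul, huv, ← hc'', smul_smul, smul_smul]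
  simp [mul_comm]

include H hS₀

include hQ hn r in
theorem a3_sing (T : SemiEl Q) {θ : F ≃+* F} {l : F} (HT : Semi Q T.1 θ l)
    (h : ∀ g ∈ LtA Q T₀, phi Q T (pi Q g) = pi Q g)
    (W : Submodule F (ι → F)) (hW : W = Vp T₀ ∨ W = Vm T₀) (hW3 : 3 ≤ finrank F W)
    (hWnd : ∀ x ∈ W, (∀ y ∈ W, polar Q x y = 0) → x = 0)
    (a : ι → F) (ha : a ∈ W) (hQa : Q a = 0) : ∃ c : F, T.1 a = c • a := by
  by_cases ha0 : a = 0
  · exact ⟨0, by rw [ha0]; simp⟩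
  obtain ⟨w, hw, hperp⟩ := exists_nonsingular_perp (Q := Q.comp W.subtype) (k := 1)
    (nondeg_restrict H W hWnd) (by omega) ![⟨a, ha⟩]
  have hab : polar Q a w.1 = 0 := by
    have h3 := hperp 0
    simpa [QuadraticMap.polar] using h3
  have hw' : Q w.1 ≠ 0 := by simpa using hw
  obtain ⟨g, hg⟩ := exists_eAt hQa hab
  let E : eGroup Q := ⟨g, hg.mem_eGroup⟩
  have hE : E ∈ LtA Q T₀ := by
    apply Subgroup.subset_closure
    refine ⟨a, w.1, hg, ?_⟩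
    rcases hW with rfl | rfl
    · exact Or.inl ⟨ha, w.2⟩
    · exact Or.inr ⟨ha, w.2⟩
  exact Cfsg.Agent.Lib.LocalBalM.EichPt.eichler_point hQ hn r HT hg ha0 hw' (h E hE)

include r in
theorem hB_A (T : SemiEl Q) (h : ∀ g ∈ LtA Q T₀, phi Q T (pi Q g) = pi Q g) :
    conjS hQ hn T = 1 ∨ conjS hQ hn T = conjS hQ hn S₀ := by
  obtain ⟨θ, l, HT⟩ := T.2
  have hsum := finrank_add H
  have hbig := H.big
  have hodd1 := H.odd₁
  have hodd2 := H.odd₂
  have hnp := nd_Vp H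
  have hnm := nd_Vm H
  have hscal : ∀ W : Submodule F (ι → F), (W = Vp T₀ ∨ W = Vm T₀) → 3 ≤ finrank F W →
      (∀ x ∈ W, (∀ y ∈ W, polar Q x y = 0) → x = 0) →
      θ = RingEquiv.refl F ∧ ∃ c : F, c ≠ 0 ∧ ∀ x ∈ W, T.1 x = c • x := by
    intro W hW hW3 hWnd
    exact Cfsg.Agent.Lib.LocalBalM.EichPt.semi_scalar_on H.h2 HT W hW3 hWnd
      (fun a ha hQa => a3_sing H hQ hn r S₀ hS₀ T HT h W hW hW3 hWnd a ha hQa)
  have hdec1 : ∀ x, ∃ u ∈ Vp T₀, ∃ v ∈ Vm T₀, x = u + v := exists_decomp H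
  have hdec2 : ∀ x, ∃ u ∈ Vm T₀, ∃ v ∈ Vp T₀, x = u + v := by
    intro x
    obtain ⟨u, hu, v, hv, e⟩ := exists_decomp H x
    exact ⟨v, hv, u, hu, by rw [e, add_comm]⟩
  have hort1 : ∀ u ∈ Vp T₀, ∀ v ∈ Vm T₀, polar Q u v = 0 := fun u hu v hv => polar_Vp_Vm H hu hv
  have hort2 : ∀ u ∈ Vm T₀, ∀ v ∈ Vp T₀, polar Q u v = 0 := fun u hu v hv => by
    rw [QuadraticMap.polar_comm]
    exact polar_Vp_Vm H hv hu
  have hmain : θ = RingEquiv.refl F ∧ (∃ c : F, ∀ x ∈ Vp T₀, T.1 x = c • x) ∧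
      (∃ c : F, ∀ x ∈ Vm T₀, T.1 x = c • x) := by
    by_cases h1 : 3 ≤ finrank F (Vp T₀)
    · obtain ⟨hθ, c, hc0, hc⟩ := hscal _ (Or.inl rfl) h1 hnp
      refine ⟨hθ, ⟨c, hc⟩, ?_⟩
      by_cases h2 : 3 ≤ finrank F (Vm T₀)
      · obtain ⟨-, c', -, hc'⟩ := hscal _ (Or.inr rfl) h2 hnm
        exact ⟨c', hc'⟩
      · have h3 : finrank F (Vm T₀) = 1 := by
          obtain ⟨k, hk⟩ := hodd2
          omega
        subst hθ
        exact a3_other HT _ _ hdec1 hort1 hnp hc0 hc h3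
    · have h3 : finrank F (Vp T₀) = 1 := by
        obtain ⟨k, hk⟩ := hodd1
        omega
      have h2 : 3 ≤ finrank F (Vm T₀) := by omega
      obtain ⟨hθ, c, hc0, hc⟩ := hscal _ (Or.inr rfl) h2 hnm
      refine ⟨hθ, ?_, ⟨c, hc⟩⟩
      subst hθ
      exact a3_other HT _ _ hdec2 hort2 hnm hc0 hc h3
  obtain ⟨hθ, ⟨c₁, hc₁⟩, ⟨c₂, hc₂⟩⟩ := hmain
  subst hθ
  have hpos1 : 0 < finrank F (Vp T₀) := hodd1.pos
  have hpos2 : 0 < finrank F (Vm T₀) := hodd2.pos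
  obtain ⟨x₁, hx₁, hQ₁⟩ := a3_nonsing _ hpos1 hnp
  obtain ⟨x₂, hx₂, hQ₂⟩ := a3_nonsing _ hpos2 hnm
  have hl1 : c₁ * c₁ = l := by
    have h3 := HT.Q_eq x₁
    rw [hc₁ _ hx₁, QuadraticMap.map_smul] at h3
    simp only [RingEquiv.refl_apply, smul_eq_mul] at h3
    exact mul_right_cancel₀ hQ₁ h3
  have hl2 : c₂ * c₂ = l := by
    have h3 := HT.Q_eq x₂
    rw [hc₂ _ hx₂, QuadraticMap.map_smul] at h3
    simp only [RingEquiv.refl_apply, smul_eq_mul] at h3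
    exact mul_right_cancel₀ hQ₂ h3
  have hc0 : c₁ ≠ 0 := by
    intro h0
    apply HT.ne
    rw [← hl1, h0, mul_zero]
  have hdich : c₂ = c₁ ∨ c₂ = -c₁ := by
    apply mul_self_eq_mul_self_iff.1
    rw [hl1, hl2]
  rcases hdich with e | e
  · left
    refine (conjS_eq_one_iff hQ hn r).2 ⟨c₁, hc0, fun x => ?_⟩
    obtain ⟨u, hu, v, hv, rfl⟩ := exists_decomp H x
    rw [map_add, hc₁ _ hu, hc₂ _ hv, e, smul_add]
  · right
    have hkey : ∀ x, T.1 x = c₁ • T₀ x := by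
      intro x
      obtain ⟨u, hu, v, hv, rfl⟩ := exists_decomp H x
      rw [map_add, hc₁ _ hu, hc₂ _ hv, e, map_add, mem_Vp.1 hu, mem_Vm.1 hv, smul_add, neg_smul, smul_neg]
    have h1 : conjS hQ hn (S₀⁻¹ * T) = 1 := by
      refine (conjS_eq_one_iff hQ hn r).2 ⟨c₁, hc0, fun x => ?_⟩
      apply S₀.1.injective
      have h3 : S₀.1 ((S₀⁻¹ * T).1 x) = T.1 x := by
        rw [← SemiEl.mul_apply, mul_inv_cancel_left]
      rw [h3, hkey, hS₀, map_smul]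
    rw [map_mul, map_inv, inv_mul_eq_one] at h1
    exact h1.symm

end Cfsg.Agent.Lib.LocalBalM.A3
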