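/-
S2733, module EichPt. CLAIM on forum topic S2733 before working; edit only your sorries; extra helper lemmas fine (prefix names to avoid clashes); statements are exact unless announced.
eichler_point: copy the middle of LocalBal.OmFix.rat_point (from `have h2 : pi Q (conjG H E) = pi Q E` on: mem_tSub_of_pi, EAt.inter). semi_scalar_on: paper. T additive θ-semilinear, all singular vectors of W are eigenvectors. W nondegenerate of dim ≥ 3: take singular e ∈ W (exists_singular_of_finrank), f ∈ W with polar e f = 1 (nondegeneracy on W), normalise f singular: f - Q f • e. W₀ = W ∩ <e,f>^⊥. For w ∈ W₀ with Q w ≠ 0: z = e - Q w • f + w, z' = e - Q w • f - w singular in W. T e = c_e e, T f = c_f f, T z = c_z z, T z' = c' z'. Write T w from T z - T e + θ(Q w) T f. Adding the formulas for w and -w and using independence of e,f,w: c_z = c', c_z = c_e, Q w · c_e = θ(Q w) c_f, T w = c_e w. Replace w by t w: (t² Q w) c_e = θ(t²) θ(Q w) c_f so θ fixes squares so θ = 1 (x = ((x+1)/2)² - ((x-1)/2)²), c_f = c_e. W₀ is spanned by its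 non-singular vectors plus singular ones (singular w: T w eigen; w + w' ...) simplest: any w ∈ W₀: if Q w = 0 then T w = d w; if w ≠ 0 pick w' ∈ W₀ with Q w' ≠ 0 non-orthogonal or orthogonal... (W₀ nondegenerate of dim ≥ 1 so spanned by non-singular vectors: exists_nonsingular_of_large-like) so T = c on W₀, e, f, so on W = <e,f> + W₀.
-/
import Mathlib
import Cfsg.Agent.Lib.LocalBal.OmOdd

set_option autoImplicit false
set_option linter.unusedSectionVars false
set_option linter.unusedVariables false
set_option linter.unusedSimpArgs false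
set_option linter.style.haveILetI false

namespace Cfsg.Agent.Lib.LocalBalM.EichPt

open Module MulAction QuadraticMap Matrix Cfsg.Agent.Lib.Witt.Quadratic Cfsg.Agent.Lib.Orth.Refl
open Cfsg.Agent.Lib.Orth.Gen Cfsg.Agent.Lib.OrthRefl.Eichler Cfsg.Agent.Lib.Classical.QuadEichler
open Cfsg.Agent.Lib.Classical.QuadEichSimple Cfsg.Agent.Lib.Classical.OmegaHP Cfsg.Agent.Lib.Classical.OmegaLocal
open Cfsg.Agent.Lib.Classical.OmegaRoot Cfsg.Agent.Lib.Classical.OmegaSemi Cfsg.Agent.Lib.Classical.OmegaConj
open Cfsg.Agent.Lib.Classical.OmegaBar Cfsg.Agent.Lib.Classical.OmegaAut Cfsg.Agent.Lib.Classical.OmegaCount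
open Cfsg.Agent.Lib.Orth.Forms Cfsg.Agent.Lib.Classical.BinaryForms Cfsg.Agent.Lib.Classical.QuadEichBridge
open Cfsg.Agent.Lib.Classical.OmegaForms Cfsg.Agent.Lib.Classical.OmegaOut Cfsg.Agent.Lib.Orth.Bridge
open Cfsg.Agent.Lib.Classical.MatrixBridge Cfsg.Agent.Lib.Orth.Closure
open Cfsg.Agent.Lib.Classical.OmegaPGO Cfsg.Agent.Lib.Classical.OmegaPGO2 Cfsg.Agent.Lib.Classical.OmegaFrob
open Cfsg.Agent.Lib.Classical.OmegaOutOdd Cfsg.Agent.Lib.Classical.OmegaDesc Cfsg.Agent.Lib.Classical.OmegaFieldOdd
open Cfsg.Agent.Lib.LocalBal.OmEmb Cfsg.Agent.Lib.LocalBal.OmFix Cfsg.Agent.Lib.LocalBal.Core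
open Cfsg.Agent.Lib.LocalBal.OmMain
open scoped commutatorElement

universe u

variable {F : Type u} [Field F] [Fintype F] {ι : Type} [Fintype ι] [DecidableEq ι]
variable {Q : QuadraticForm F (ι → F)}
variable (hQ : (polarBilin Q).Nondegenerate) (hn : 5 ≤ Fintype.card ι) (r : ℕ) [hr : Fact r.Prime] [hc : CharP F r]

include hQ hn r in
/-- A semisimilarity fixing the class of an Eichler transformation with non-singular `b` fixes the point `a`. -/
theorem eichler_point {T : SemiEl Q} {θ : F ≃+* F} {l : F} (H : Semi Q T.1 θ l) {a b : ι → F} {E : eGroup Q}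
    (hE : EAt Q a b E.1) (ha0 : a ≠ 0) (hb : Q b ≠ 0) (h : phi Q T (pi Q E) = pi Q E) : ∃ c : F, T.1 a = c • a := by
  classical
  have hn' := finrank_ge hQ hn
  have h2 : pi Q (conjG H E) = pi Q E := by
    have h3 := h
    rw [phi_apply T H] at h3
    exact h3
  by_contra hcon
  push Not at hcon
  have hind : ∀ s : F, s • a ≠ T.1 a := fun s hs => hcon s hs.symm
  have hQa : Q a = 0 := hE.Qa
  have hQga : Q (T.1 a) = 0 := by rw [H.Q_eq, hQa, map_zero, mul_zero]
  have hmem : pi Q E ∈ Tb hQga := by
    rw [← h2]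
    exact Subgroup.mem_map_of_mem _ ⟨_, H.eAt hE⟩
  have h3 : E ^ (r ^ 1) = 1 := by
    rw [pow_one]
    exact Subtype.ext (hE.pow_char r)
  obtain ⟨b', hb'⟩ := mem_tSub_of_pi hQ r hn' hQga h3 hmem
  have hE1 : E.1 ≠ 1 := by
    intro h3
    obtain ⟨x, hx⟩ := exists_polar_single hQ ha0 1
    have h4 := hE.apply' x
    rw [h3, hx] at h4
    have h5 : b = (polar Q x b - Q b * 1) • a := by
      have h6 : x = x + polar Q x b • a - (1 : F) • b - (Q b * 1) • a := h4
      linear_combination (norm := module) h6
    apply hb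
    rw [h5, QuadraticMap.map_smul, hQa, smul_zero]
  obtain ⟨h4, c, d, -, h5⟩ := hE.inter hQ hb' ha0 hind hE1
  apply hb
  rw [h5, Q_add, QuadraticMap.map_smul, QuadraticMap.map_smul, hQa, hQga, polar_smul_left, polar_smul_right, h4]
  simp

/-- A semisimilarity with all singular vectors of a nondegenerate subspace of dimension `≥ 3` as eigenvectors is
linear and scalar there. -/
theorem semi_scalar_on (h2 : (2 : F) ≠ 0) {T : (ι → F) ≃+ (ι → F)} {θ : F ≃+* F} {l : F} (H : Semi Q T θ l)
    (W : Submodule F (ι → F)) (hW3 : 3 ≤ finrank F W) (hWnd : ∀ x ∈ W, (∀ y ∈ W, polar Q x y = 0) → x = 0)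
    (hsing : ∀ a ∈ W, Q a = 0 → ∃ c : F, T a = c • a) :
    θ = RingEquiv.refl F ∧ ∃ c : F, c ≠ 0 ∧ ∀ x ∈ W, T x = c • x := by
  classical
  -- polar of a singular vector with itself
  have hself : ∀ {x : ι → F}, Q x = 0 → polar Q x x = 0 := by
    intro x hx
    rw [QuadraticMap.polar_self, hx]
    simp
  -- the key computation
  have key : ∀ {e f w : ι → F} {ce cf : F}, e ∈ W → f ∈ W → w ∈ W → Q e = 0 → Q f = 0 → polar Q e f = 1 →
      T e = ce • e → T f = cf • f → polar Q e w = 0 → polar Q f w = 0 → T w = ce • w := by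
    intro e f w ce cf he hf hw hQe hQf hef hTe hTf hew hfw
    by_cases hw0 : w = 0
    · subst hw0
      simp
    -- independence
    have hfe : polar Q f e = 1 := by rw [QuadraticMap.polar_comm, hef]
    have hwe : polar Q w e = 0 := by rw [QuadraticMap.polar_comm, hew]
    have hwf : polar Q w f = 0 := by rw [QuadraticMap.polar_comm, hfw]
    have hee := hself hQe
    have hff := hself hQf
    have indep : ∀ α β γ : F, α • e + β • f + γ • w = 0 → α = 0 ∧ β = 0 ∧ γ = 0 := by
      intro α β γ h
      have h1 := congrArg (fun x => polar Q x f) h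
      have h2 := congrArg (fun x => polar Q x e) h
      simp only [polar_add_left, polar_smul_left, polar_zero_left,
        hef, hff, hwf, hfe, hee, hwe, smul_eq_mul, mul_one, mul_zero, add_zero, zero_add] at h1 h2
      subst h1
      subst h2
      simp only [zero_smul, zero_add, smul_eq_zero, hw0, or_false] at h
      exact ⟨rfl, rfl, h⟩
    -- the two singular vectors
    set s := Q w with hs
    have hz1 : Q (e - s • f + w) = 0 := by
      have e1 : Q (e - s • f + w) = Q (e - s • f) + Q w + polar Q (e - s • f) w := Q_add _ _ _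
      have e2 : Q (e - s • f) = Q e + Q (-(s • f)) + polar Q e (-(s • f)) := by
        rw [sub_eq_add_neg]
        exact Q_add _ _ _
      have e3 : polar Q (e - s • f) w = 0 := by
        rw [sub_eq_add_neg, polar_add_left, polar_neg_left, polar_smul_left, hew, hfw]
        simp
      have e4 : polar Q e (-(s • f)) = -s := by
        rw [polar_neg_right, polar_smul_right, hef]
        simp
      have e5 : Q (-(s • f)) = 0 := by
        rw [QuadraticMap.map_neg, QuadraticMap.map_smul, hQf]
        simp
      rw [e1, e2, e3, e4, e5, hQe]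
      ring
    have hz2 : Q (e - s • f - w) = 0 := by
      have e1 : Q (e - s • f + -w) = Q (e - s • f) + Q (-w) + polar Q (e - s • f) (-w) := Q_add _ _ _
      have e2 : Q (e - s • f) = Q e + Q (-(s • f)) + polar Q e (-(s • f)) := by
        rw [sub_eq_add_neg]
        exact Q_add _ _ _
      have e3 : polar Q (e - s • f) (-w) = 0 := by
        rw [polar_neg_right, sub_eq_add_neg, polar_add_left, polar_neg_left, polar_smul_left, hew, hfw]
        simp
      have e4 : polar Q e (-(s • f)) = -s := by
        rw [polar_neg_right, polar_smul_right, hef]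
        simp
      have e5 : Q (-(s • f)) = 0 := by
        rw [QuadraticMap.map_neg, QuadraticMap.map_smul, hQf]
        simp
      have e6 : Q (-w) = s := by rw [QuadraticMap.map_neg]
      rw [sub_eq_add_neg (e - s • f) w, e1, e2, e3, e4, e5, e6, hQe]
      ring
    obtain ⟨c1, hc1⟩ := hsing _ (W.add_mem (W.sub_mem he (W.smul_mem s hf)) hw) hz1
    obtain ⟨c2, hc2⟩ := hsing _ (W.sub_mem (W.sub_mem he (W.smul_mem s hf)) hw) hz2
    rw [map_add, map_sub, H.smul, hTe, hTf] at hc1
    rw [map_sub, map_sub, H.smul, hTe, hTf] at hc2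
    obtain ⟨hα, hβ, hγ⟩ := indep (2 * ce - c1 - c2) (-(2 * θ s * cf) + (c1 + c2) * s) (c2 - c1) (by
      have e : (2 * ce - c1 - c2) • e + (-(2 * θ s * cf) + (c1 + c2) * s) • f + (c2 - c1) • w =
          (ce • e - θ s • cf • f + T w) + (ce • e - θ s • cf • f - T w)
            - (c1 • (e - s • f + w)) - (c2 • (e - s • f - w)) := by
        module
      rw [e, hc1, hc2]
      abel)
    have h2F : (2 : F) * (ce - c1) = 0 := by
      have : c2 = c1 := by linear_combination hγ
      rw [this] at hα
      linear_combination hα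
    have hc : c1 = ce := by
      have := (mul_eq_zero.1 h2F).resolve_left h2
      linear_combination -this
    have hc21 : c2 = c1 := by linear_combination hγ
    have hf2 : (2 : F) * (c1 * s - θ s * cf) = 0 := by
      rw [hc21] at hβ
      linear_combination hβ
    have hf3 : θ s * cf = c1 * s := by
      have := (mul_eq_zero.1 hf2).resolve_left h2
      linear_combination -this
    have e : T w = c1 • (e - s • f + w) - ce • e + θ s • cf • f := by
      rw [← hc1]
      abel
    rw [e, hc, smul_smul (θ s) cf f, hf3, hc]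
    module
  obtain ⟨e, he, he0, hQe⟩ := exists_singular_of_finrank (Q := Q) W (by omega)
  obtain ⟨y, hy, hey⟩ : ∃ y ∈ W, polar Q e y ≠ 0 := by
    by_contra hcon
    push Not at hcon
    exact he0 (hWnd e he hcon)
  obtain ⟨y', hy'W, hey'⟩ : ∃ y' ∈ W, polar Q e y' = 1 := by
    refine ⟨(polar Q e y)⁻¹ • y, W.smul_mem _ hy, ?_⟩
    rw [polar_smul_right]
    simp [hey]
  have hee := hself hQe
  obtain ⟨f, hfW, hef, hQf⟩ : ∃ f ∈ W, polar Q e f = 1 ∧ Q f = 0 := by
    refine ⟨y' + -(Q y' • e), W.add_mem hy'W (W.neg_mem (W.smul_mem _ he)), ?_, ?_⟩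
    · rw [polar_add_right, polar_neg_right, polar_smul_right, hee, hey']
      simp
    · have e2 : Q (y' + -(Q y' • e)) = Q y' + Q (-(Q y' • e)) + polar Q y' (-(Q y' • e)) := Q_add _ _ _
      have e3 : Q (-(Q y' • e)) = 0 := by
        rw [QuadraticMap.map_neg, QuadraticMap.map_smul, hQe]
        simp
      have e4 : polar Q y' (-(Q y' • e)) = - Q y' := by
        rw [polar_neg_right, polar_smul_right, QuadraticMap.polar_comm, hey']
        simp
      rw [e2, e3, e4]
      ring
  have hfe : polar Q f e = 1 := by rw [QuadraticMap.polar_comm, hef]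
  obtain ⟨ce, hce⟩ := hsing e he hQe
  obtain ⟨cf, hcf⟩ := hsing f hfW hQf
  have hce0 : ce ≠ 0 := by
    rintro rfl
    rw [zero_smul] at hce
    exact he0 (T.injective (by rw [hce, map_zero]))
  have hff := hself hQf
  -- the complement is nonzero
  obtain ⟨x₀, hx₀, hx₀n⟩ : ∃ x ∈ W, x ∉ Submodule.span F {e, f} := by
    by_contra hcon
    push Not at hcon
    have h1 : W ≤ Submodule.span F {e, f} := hcon
    have h2 := Submodule.finrank_mono h1
    have h3 : finrank F (Submodule.span F ({e, f} : Set (ι → F))) ≤ 2 := by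
      have := finrank_span_finset_le_card (R := F) ({e, f} : Finset (ι → F))
      have h4 : (({e, f} : Finset (ι → F)) : Set (ι → F)) = {e, f} := by simp
      rw [h4] at this
      exact this.trans (Finset.card_le_two)
    omega
  -- decomposition
  have hdec : ∀ x ∈ W, polar Q e (x - polar Q x f • e - polar Q x e • f) = 0 ∧
      polar Q f (x - polar Q x f • e - polar Q x e • f) = 0 := by
    intro x hx
    constructor
    · simp only [sub_eq_add_neg, polar_add_right, polar_neg_right, polar_smul_right, hee, hef, smul_eq_mul]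
      rw [QuadraticMap.polar_comm Q e x]
      ring
    · simp only [sub_eq_add_neg, polar_add_right, polar_neg_right, polar_smul_right, hff, hfe, smul_eq_mul]
      rw [QuadraticMap.polar_comm Q f x]
      ring
  set w₀ := x₀ - polar Q x₀ f • e - polar Q x₀ e • f with hw₀
  have hw₀W : w₀ ∈ W := W.sub_mem (W.sub_mem hx₀ (W.smul_mem _ he)) (W.smul_mem _ hfW)
  have hw₀0 : w₀ ≠ 0 := by
    intro h0
    apply hx₀n
    have : x₀ = polar Q x₀ f • e + polar Q x₀ e • f := by
      have h1 : x₀ - polar Q x₀ f • e - polar Q x₀ e • f = 0 := h0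
      linear_combination (norm := module) h1
    rw [this]
    exact Submodule.add_mem _ (Submodule.smul_mem _ _ (Submodule.subset_span (by simp)))
      (Submodule.smul_mem _ _ (Submodule.subset_span (by simp)))
  obtain ⟨h1, h2⟩ := hdec x₀ hx₀
  have hTw₀ := key he hfW hw₀W hQe hQf hef hce hcf h1 h2
  have hTw₀' := key hfW he hw₀W hQf hQe hfe hcf hce h2 h1
  have hcc : cf = ce := by
    have h3 : (cf - ce) • w₀ = 0 := by
      rw [sub_smul, ← hTw₀, ← hTw₀', sub_self]
    have := (smul_eq_zero.1 h3).resolve_right hw₀0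
    linear_combination this
  have hθ : θ = RingEquiv.refl F := by
    ext t
    have h3 := key he hfW (W.smul_mem t hw₀W) hQe hQf hef hce hcf
      (by rw [polar_smul_right, h1, smul_zero]) (by rw [polar_smul_right, h2, smul_zero])
    rw [H.smul, hTw₀, smul_smul, smul_smul] at h3
    have h4 : (θ t * ce - ce * t) • w₀ = 0 := by
      rw [sub_smul, h3, sub_self]
    have h5 := (smul_eq_zero.1 h4).resolve_right hw₀0
    have h6 : ce * (θ t - t) = 0 := by linear_combination h5
    have h7 := (mul_eq_zero.1 h6).resolve_left hce0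
    simpa using sub_eq_zero.1 h7
  refine ⟨hθ, ce, hce0, fun x hx => ?_⟩
  obtain ⟨h3, h4⟩ := hdec x hx
  have h5 := key he hfW (W.sub_mem (W.sub_mem hx (W.smul_mem _ he)) (W.smul_mem _ hfW)) hQe hQf hef hce hcf h3 h4
  rw [map_sub, map_sub, H.smul, H.smul, hce, hcf, hcc, hθ] at h5
  simp only [RingEquiv.refl_apply, smul_smul] at h5
  have e : T x = (T x - (polar Q x f * ce) • e - (polar Q x e * ce) • f) + (polar Q x f * ce) • e + (polar Q x e * ce) • f := by
    abel
  rw [e, h5]
  module

end Cfsg.Agent.Lib.LocalBalM.EichPt
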