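/-
S2733, module B0. CLAIM on forum topic S2733 before working; edit only your sorries; extra helper lemmas fine (prefix names to avoid clashes); statements are exact unless announced.
Type (b): T₀² = l, l non-square, Q(T₀ x) = l Q x. E = F(ρ), ρ² = l. (Fin n → E) ≅ V with ρ acting as T₀, E-form Qe with Q = Re Qe.
exists_KD, paper: E := AdjoinRoot (X^2 - C l), irreducible since l non-square (`Polynomial.irreducible...`, X²-l no root, degree 2). φ : E →ₐ[F] End_F V by AdjoinRoot.liftAlgHom root ↦ T₀, Module E V := Module.compHom. finrank_F V = 2 n gives finrank_E V = n (finrank_mul_finrank), Module.finBasisOfFinrankEq gives (Fin n → E) ≃ₗ[E] V, restrictScalars F gives Φ. polar Q (T₀ u) v = polar Q u (T₀ v) [T₀ self adjoint: polar(T₀u,T₀v) = l polar(u,v), replace u by T₀u and use T₀² = l]. Bₑ(u,v) := alg(polar Q (Φu)(Φv)) + alg(polar Q (T₀Φu)(Φv)/l)·ρ is E-bilinear symmetric, Qe := 2⁻¹ • Bₑ.toQuadraticMap: Qe(w) = formula hQe. Nondegenerate: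 if Bₑ(u,·)=0 then real part polar Q (Φu) (·) = 0.
-/
import Mathlib
import Cfsg.Agent.Lib.LocalBalM.InvCore
import Cfsg.Agent.Lib.LocalBalM.LemO
import Cfsg.Agent.Lib.LocalBalM.EichPt
import Cfsg.Agent.Lib.LocalBalM.Inner

set_option autoImplicit false
set_option linter.unusedSectionVars false
set_option linter.unusedVariables false
set_option linter.unusedSimpArgs false
set_option linter.style.haveILetI false

namespace Cfsg.Agent.Lib.LocalBalM.B0

open Module MulAction QuadraticMap Matrix Cfsg.Agent.Lib.Witt.Quadratic Cfsg.Agent.Lib.Orth.Refl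
open Cfsg.Agent.Lib.Orth.Gen Cfsg.Agent.Lib.OrthRefl.Eichler Cfsg.Agent.Lib.Classical.QuadEichler
open Cfsg.Agent.Lib.Classical.QuadEichSimple Cfsg.Agent.Lib.Classical.OmegaHP Cfsg.Agent.Lib.Classical.OmegaLocal
open Cfsg.Agent.Lib.Classical.OmegaRoot Cfsg.Agent.Lib.Classical.OmegaSemi Cfsg.Agent.Lib.Classical.OmegaConj
open Cfsg.Agent.Lib.Classical.OmegaBar Cfsg.Agent.Lib.Classical.OmegaAut Cfsg.Agent.Lib.Classical.OmegaCount
open Cfsg.Agent.Lib.Orth.Forms Cfsg.Agent.Lib.Classical.BinaryForms Cfsg.Agent.Lib.Classical.QuadEichBridge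
open Cfsg.Agent.Lib.Classical.OmegaForms Cfsg.Agent.Lib.Classical.OmegaOut Cfsg.Agent.Lib.Orth.Bridge
open Cfsg.Agent.Lib.Classical.MatrixBridge Cfsg.Agent.Lib.Orth.Closure
open Cfsg.Agent.Lib.Classical.OmegaPGO Cfsg.Agent.Lib.Classical.OmegaPGO2 Cfsg.Agent.Lib.Classical.OmegaFrob
open Cfsg.Agent.Lib.Classical.OmegaOutOdd Cfsg.Agent.Lib.Classical.OmegaDesc Cfsg.Agent.Lib.Classical.OmegaFieldOdd
open Cfsg.Agent.Lib.LocalBal.OmEmb Cfsg.Agent.Lib.LocalBal.OmFix Cfsg.Agent.Lib.LocalBal.Core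
open Cfsg.Agent.Lib.LocalBal.OmMain
open scoped commutatorElement

universe u

variable {F : Type u} [Field F] [Fintype F] {ι : Type} [Fintype ι] [DecidableEq ι]
variable {Q : QuadraticForm F (ι → F)}
variable {E : Type u} [Field E] [Fintype E] [Algebra F E]

/-- The `E`-structure on `V` given by `T₀`. -/
structure KD (Q : QuadraticForm F (ι → F)) (T₀ : (ι → F) ≃ₗ[F] (ι → F)) (l : F) (n : ℕ) (E : Type u) [Field E] [Fintype E]
    [Algebra F E] (ρ : E) where
  Φ : (Fin n → E) ≃ₗ[F] (ι → F)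
  Qe : QuadraticForm E (Fin n → E)
  hρ2 : ρ ^ 2 = algebraMap F E l
  hdec : ∀ z : E, ∃ x y : F, z = algebraMap F E x + algebraMap F E y * ρ
  hind : ∀ x y : F, algebraMap F E x + algebraMap F E y * ρ = 0 → x = 0 ∧ y = 0
  hΦ : ∀ w : Fin n → E, Φ (ρ • w) = T₀ (Φ w)
  hQe : ∀ w, Qe w = algebraMap F E (Q (Φ w)) + algebraMap F E (polar Q (T₀ (Φ w)) (Φ w) / (2 * l)) * ρ
  hnd : (polarBilin Qe).Nondegenerate

/-- The hypotheses of type (b). -/
structure HypB (Q : QuadraticForm F (ι → F)) (T₀ : (ι → F) ≃ₗ[F] (ι → F)) (l : F) (n : ℕ) : Prop where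
  hQ : (polarBilin Q).Nondegenerate
  h2 : (2 : F) ≠ 0
  hl : ¬ IsSquare l
  hT2 : ∀ x, T₀ (T₀ x) = l • x
  hQT : ∀ x, Q (T₀ x) = l * Q x
  hcard : Fintype.card ι = 2 * n
  hodd : Odd n
  hn5 : 5 ≤ n

theorem HypB.hl0 {T₀ : (ι → F) ≃ₗ[F] (ι → F)} {l : F} {n : ℕ} (H : HypB Q T₀ l n) : l ≠ 0 := by
  rintro rfl
  exact H.hl ⟨0, by simp⟩

theorem polar_T₀_T₀ {T₀ : (ι → F) ≃ₗ[F] (ι → F)} {l : F} {n : ℕ} (H : HypB Q T₀ l n) (u v : ι → F) :
    polar Q (T₀ u) (T₀ v) = l * polar Q u v := by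
  simp only [polar, ← map_add, H.hQT]
  ring

/-- `T₀` is self-adjoint. -/
theorem polar_T₀ {T₀ : (ι → F) ≃ₗ[F] (ι → F)} {l : F} {n : ℕ} (H : HypB Q T₀ l n) (u v : ι → F) :
    polar Q (T₀ u) v = polar Q u (T₀ v) := by
  have h := polar_T₀_T₀ H u (T₀ v)
  rw [H.hT2, polar_smul_right, smul_eq_mul] at h
  exact mul_left_cancel₀ H.hl0 h

/-- The polar form of `Qe`. -/
theorem polar_Qe {T₀ : (ι → F) ≃ₗ[F] (ι → F)} {l : F} {n : ℕ} (H : HypB Q T₀ l n) {ρ : E} (D : KD Q T₀ l n E ρ)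
    (u v : Fin n → E) :
    polar D.Qe u v = algebraMap F E (polar Q (D.Φ u) (D.Φ v)) + algebraMap F E (polar Q (T₀ (D.Φ u)) (D.Φ v) / l) * ρ := by
  have h2 : (2 : F) ≠ 0 := H.h2
  have hl := H.hl0
  have h1 : polar Q (T₀ (D.Φ v)) (D.Φ u) = polar Q (T₀ (D.Φ u)) (D.Φ v) := by
    rw [polar_T₀ H, polar_comm]
  have key : polar Q (T₀ (D.Φ (u + v))) (D.Φ (u + v)) / (2 * l) -
      polar Q (T₀ (D.Φ u)) (D.Φ u) / (2 * l) - polar Q (T₀ (D.Φ v)) (D.Φ v) / (2 * l)
      = polar Q (T₀ (D.Φ u)) (D.Φ v) / l := by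
    simp only [map_add, polar_add_left, polar_add_right, h1]
    field_simp
    ring
  have key2 : Q (D.Φ (u + v)) - Q (D.Φ u) - Q (D.Φ v) = polar Q (D.Φ u) (D.Φ v) := by
    simp [polar]
  rw [← key, ← key2]
  simp only [polar, D.hQe, map_sub]
  ring

/-- An `E`-isometry of `Qe` gives an isometry of `Q`. -/
theorem Q_of_iso {T₀ : (ι → F) ≃ₗ[F] (ι → F)} {l : F} {n : ℕ} (H : HypB Q T₀ l n) {ρ : E} (D : KD Q T₀ l n E ρ)
    (g : (Fin n → E) ≃ₗ[E] (Fin n → E)) (hg : g ∈ isoGroup D.Qe) (w : Fin n → E) : Q (D.Φ (g w)) = Q (D.Φ w) := by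
  have h : D.Qe (g w) = D.Qe w := hg w
  rw [D.hQe, D.hQe] at h
  have := D.hind (Q (D.Φ (g w)) - Q (D.Φ w))
    (polar Q (T₀ (D.Φ (g w))) (D.Φ (g w)) / (2 * l) - polar Q (T₀ (D.Φ w)) (D.Φ w) / (2 * l)) (by
      simp only [map_sub]
      linear_combination h)
  exact sub_eq_zero.mp this.1

/-- Build the `E`-form from the `F`-linear identification. -/
theorem mk_KD {T₀ : (ι → F) ≃ₗ[F] (ι → F)} {l : F} {n : ℕ} (H : HypB Q T₀ l n) {ρ : E}
    (hρ2 : ρ ^ 2 = algebraMap F E l)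
    (hdec : ∀ z : E, ∃ x y : F, z = algebraMap F E x + algebraMap F E y * ρ)
    (hind : ∀ x y : F, algebraMap F E x + algebraMap F E y * ρ = 0 → x = 0 ∧ y = 0)
    (Φ : (Fin n → E) ≃ₗ[F] (ι → F)) (hΦ : ∀ w : Fin n → E, Φ (ρ • w) = T₀ (Φ w)) :
    Nonempty (KD Q T₀ l n E ρ) := by
  classical
  have hl := H.hl0
  have h2F : (2 : F) ≠ 0 := H.h2
  have h2E : (2 : E) ≠ 0 := by
    intro h
    apply h2F
    have : algebraMap F E 2 = 0 := by rw [map_ofNat]; exact h
    exact (map_eq_zero _).mp this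
  have hΦz : ∀ (x y : F) (u : Fin n → E),
      Φ ((algebraMap F E x + algebraMap F E y * ρ) • u) = x • Φ u + y • T₀ (Φ u) := by
    intro x y u
    rw [add_smul, mul_smul, algebraMap_smul, algebraMap_smul, map_add, map_smul, map_smul, hΦ]
  let f : (Fin n → E) → (Fin n → E) → E := fun u v =>
    algebraMap F E (polar Q (Φ u) (Φ v)) + algebraMap F E (polar Q (T₀ (Φ u)) (Φ v) / l) * ρ
  have hsymm : ∀ u v, f u v = f v u := by
    intro u v
    simp only [f]
    rw [polar_comm Q (Φ u) (Φ v), polar_T₀ H (Φ u) (Φ v), polar_comm Q (Φ u)]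
  have hadd : ∀ u u' v, f (u + u') v = f u v + f u' v := by
    intro u u' v
    simp only [f, map_add, polar_add_left, add_div]
    ring
  have hsmul : ∀ (z : E) (u v : Fin n → E), f (z • u) v = z * f u v := by
    intro z u v
    obtain ⟨x, y, rfl⟩ := hdec z
    simp only [f, hΦz, map_add, polar_add_left, polar_smul_left, H.hT2, smul_eq_mul, map_smul, add_div, map_mul]
    have e1 : algebraMap F E (x * polar Q (T₀ (Φ u)) (Φ v) / l) =
      algebraMap F E x * algebraMap F E (polar Q (T₀ (Φ u)) (Φ v) / l) := by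
      rw [← map_mul]; congr 1; ring
    have e2 : algebraMap F E (y * (l * polar Q (Φ u) (Φ v)) / l) = algebraMap F E y * algebraMap F E (polar Q (Φ u) (Φ v)) := by
      rw [← map_mul]; congr 1; field_simp
    have e3 : algebraMap F E (polar Q (T₀ (Φ u)) (Φ v)) = algebraMap F E l * algebraMap F E (polar Q (T₀ (Φ u)) (Φ v) / l) := by
      rw [← map_mul]; congr 1; field_simp
    rw [e1, e2, e3]
    linear_combination (- algebraMap F E y * algebraMap F E (polar Q (T₀ (Φ u)) (Φ v) / l)) * hρ2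
  let Be : (Fin n → E) →ₗ[E] (Fin n → E) →ₗ[E] E := LinearMap.mk₂ E f hadd (fun z u v => hsmul z u v)
    (fun u v v' => by rw [hsymm, hadd, hsymm v, hsymm v'])
    (fun z u v => by rw [hsymm, hsmul, hsymm v, smul_eq_mul])
  have hBe : ∀ u v, Be u v = f u v := fun u v => rfl
  let Qe : QuadraticForm E (Fin n → E) := (2⁻¹ : E) • (LinearMap.BilinMap.toQuadraticMap Be)
  have hQe0 : ∀ w, Qe w = 2⁻¹ * f w w := by
    intro w
    simp [Qe, LinearMap.BilinMap.toQuadraticMap_apply, hBe]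
  have hpol : ∀ u v, polar Qe u v = f u v := by
    intro u v
    simp only [polar, hQe0]
    have h1 : f (u + v) (u + v) = f u u + f u v + f v u + f v v := by
      rw [hadd, hsymm u, hsymm v, hadd, hadd]
      rw [hsymm (u) u, hsymm u v]
      ring
    rw [h1, hsymm v u]
    field_simp
    ring
  have hnd : (polarBilin Qe).Nondegenerate := by
    have hsep : ∀ u, (∀ v, polar Qe u v = 0) → u = 0 := by
      intro u hu
      have h0 : ∀ y, polar Q (Φ u) y = 0 := by
        intro y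
        have := hu (Φ.symm y)
        rw [hpol] at this
        have h3 := hind _ _ this
        simpa using h3.1
      have h4 : Φ u = 0 := H.hQ.1 (Φ u) h0
      simpa using h4
    refine ⟨fun u hu => hsep u hu, fun v hv => hsep v (fun u => ?_)⟩
    rw [polar_comm]
    exact hv u
  have hQef : ∀ w, Qe w = algebraMap F E (Q (Φ w)) + algebraMap F E (polar Q (T₀ (Φ w)) (Φ w) / (2 * l)) * ρ := by
    intro w
    rw [hQe0]
    simp only [f, polar_self]
    have e1 : algebraMap F E (2 • Q (Φ w)) = 2 * algebraMap F E (Q (Φ w)) := by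
      rw [map_nsmul, nsmul_eq_mul]; norm_cast
    have e2 : algebraMap F E (polar Q (T₀ (Φ w)) (Φ w) / l) = 2 * algebraMap F E (polar Q (T₀ (Φ w)) (Φ w) / (2 * l)) := by
      have : (polar Q (T₀ (Φ w)) (Φ w) / l) = 2 * (polar Q (T₀ (Φ w)) (Φ w) / (2 * l)) := by
        field_simp
      rw [this, map_mul, map_ofNat]
    rw [e1, e2]
    field_simp
  exact ⟨KD.mk Φ Qe hρ2 hdec hind hΦ hQef hnd⟩

/-- Existence of the `E`-structure. -/
theorem exists_KD {T₀ : (ι → F) ≃ₗ[F] (ι → F)} {l : F} {n : ℕ} (H : HypB Q T₀ l n) :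
    ∃ (E : Type u) (_ : Field E) (_ : Fintype E) (_ : Algebra F E) (ρ : E), Nonempty (KD Q T₀ l n E ρ) := by
  classical
  let g : Polynomial F := Polynomial.X ^ 2 - Polynomial.C l
  have hirr : Irreducible g := X_pow_sub_C_irreducible_of_prime Nat.prime_two
    (fun b hb => H.hl ⟨b, by rw [← hb]; ring⟩)
  haveI : Fact (Irreducible g) := ⟨hirr⟩
  have hmonic : g.Monic := Polynomial.monic_X_pow_sub_C l (by norm_num)
  have hdeg : g.natDegree = 2 := Polynomial.natDegree_X_pow_sub_C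
  let pb := AdjoinRoot.powerBasis' hmonic
  haveI : Module.Finite F (AdjoinRoot g) := pb.finite
  haveI : Finite (AdjoinRoot g) := Module.finite_of_finite F
  letI : Fintype (AdjoinRoot g) := Fintype.ofFinite _
  let ρ : AdjoinRoot g := AdjoinRoot.root g
  have hfr : finrank F (AdjoinRoot g) = 2 := by
    rw [pb.finrank]
    simpa [pb] using hdeg
  have hρ2 : ρ ^ 2 = algebraMap F (AdjoinRoot g) l := by
    have h0 : AdjoinRoot.mk g g = 0 := AdjoinRoot.mk_self
    have h1 : AdjoinRoot.mk g g = ρ ^ 2 - algebraMap F (AdjoinRoot g) l := by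
      simp only [g, map_sub, map_pow, AdjoinRoot.mk_X, AdjoinRoot.mk_C, ρ, AdjoinRoot.algebraMap_eq]
    rw [h0] at h1
    exact (sub_eq_zero.mp h1.symm)
  have hdec : ∀ z : AdjoinRoot g, ∃ x y : F, z = algebraMap F _ x + algebraMap F _ y * ρ := by
    intro z
    refine AdjoinRoot.induction_on g z (fun p => ?_)
    have h1 : AdjoinRoot.mk g p = AdjoinRoot.mk g (p %ₘ g) := by
      conv_lhs => rw [← Polynomial.modByMonic_add_div p g]
      simp [AdjoinRoot.mk_self]
    have h2 : (p %ₘ g).natDegree ≤ 1 := by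
      have := Polynomial.natDegree_modByMonic_lt p hmonic (by intro h; rw [h] at hdeg; simp at hdeg)
      omega
    obtain ⟨a, b, hab⟩ := Polynomial.exists_eq_X_add_C_of_natDegree_le_one h2
    refine ⟨b, a, ?_⟩
    rw [h1, hab]
    simp only [map_add, map_mul, AdjoinRoot.mk_X, AdjoinRoot.mk_C, ρ, AdjoinRoot.algebraMap_eq]
    ring
  have hind : ∀ x y : F, algebraMap F (AdjoinRoot g) x + algebraMap F _ y * ρ = 0 → x = 0 ∧ y = 0 := by
    intro x y h
    have h1 : AdjoinRoot.mk g (Polynomial.C y * Polynomial.X + Polynomial.C x) = 0 := by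
      rw [← h]
      simp only [map_add, map_mul, AdjoinRoot.mk_X, AdjoinRoot.mk_C, ρ, AdjoinRoot.algebraMap_eq]
      ring
    rw [AdjoinRoot.mk_eq_zero] at h1
    have h2 := Polynomial.eq_zero_of_dvd_of_natDegree_lt h1 (by
      rw [hdeg]
      have := Polynomial.natDegree_linear_le (a := y) (b := x)
      omega)
    have h3 := congrArg (fun p => Polynomial.coeff p 0) h2
    have h4 := congrArg (fun p => Polynomial.coeff p 1) h2
    simp at h3 h4
    exact ⟨h3, h4⟩
  let T : Module.End F (ι → F) := (T₀ : (ι → F) →ₗ[F] (ι → F))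
  have hT : Polynomial.aeval T g = 0 := by
    simp only [g, map_sub, map_pow, Polynomial.aeval_X, Polynomial.aeval_C]
    refine LinearMap.ext (fun x => ?_)
    have : (T ^ 2) x = l • x := by
      rw [pow_two]
      exact H.hT2 x
    rw [LinearMap.sub_apply, this]
    simp [Module.algebraMap_end_apply]
  let φ : AdjoinRoot g →+* Module.End F (ι → F) :=
    Ideal.Quotient.lift _ (Polynomial.aeval T).toRingHom (by
      intro a ha
      obtain ⟨c, rfl⟩ := Ideal.mem_span_singleton.mp ha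
      simp [hT])
  have hφmk : ∀ p, φ (AdjoinRoot.mk g p) = Polynomial.aeval T p := fun p => rfl
  have hφalg : ∀ c : F, φ (algebraMap F _ c) = c • 1 := by
    intro c
    rw [AdjoinRoot.algebraMap_eq]
    change φ (AdjoinRoot.mk g (Polynomial.C c)) = _
    rw [hφmk, Polynomial.aeval_C, Module.algebraMap_end_eq_smul_id]
    rfl
  have hφρ : φ ρ = T := by
    change φ (AdjoinRoot.root g) = T
    rw [← AdjoinRoot.mk_X, hφmk, Polynomial.aeval_X]
  letI mE : Module (AdjoinRoot g) (ι → F) := Module.compHom _ φ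
  have hsmul : ∀ (e : AdjoinRoot g) (v : ι → F), e • v = φ e v := fun e v => rfl
  haveI : IsScalarTower F (AdjoinRoot g) (ι → F) := ⟨fun c e v => by
    rw [hsmul, hsmul, Algebra.smul_def, map_mul, hφalg, Module.End.mul_apply]
    rfl⟩
  haveI hfinE : Module.Finite (AdjoinRoot g) (ι → F) := Module.Finite.of_restrictScalars_finite F _ _
  have hrank : finrank (AdjoinRoot g) (ι → F) = n := by
    have h1 := Module.finrank_mul_finrank F (AdjoinRoot g) (ι → F)
    rw [hfr, Module.finrank_fintype_fun_eq_card, H.hcard] at h1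
    omega
  let b := Module.finBasisOfFinrankEq (AdjoinRoot g) (ι → F) hrank
  let Φ : (Fin n → AdjoinRoot g) ≃ₗ[F] (ι → F) := (b.equivFun.symm).restrictScalars F
  have hΦ : ∀ w : Fin n → AdjoinRoot g, Φ (ρ • w) = T₀ (Φ w) := by
    intro w
    have h1 : Φ (ρ • w) = ρ • Φ w := map_smul b.equivFun.symm ρ w
    rw [h1, hsmul, hφρ]
    rfl
  exact ⟨AdjoinRoot g, inferInstance, inferInstance, inferInstance, ρ, mk_KD H hρ2 hdec hind Φ hΦ⟩

end Cfsg.Agent.Lib.LocalBalM.B0
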