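/-
S2733, module B1. CLAIM on forum topic S2733 before working; edit only your sorries; extra helper lemmas fine (prefix names to avoid clashes); statements are exact unless announced.
psi: for g ∈ isoGroup Qe, x ↦ Φ (g (Φ.symm x)) is F-linear (E-linear implies F-linear: IsScalarTower), in isoGroup Q (Q_of_iso). This is a hom isoPsi : isoGroup Qe →* isoGroup Q, hence maps ⁅iso,iso⁆ to ⁅iso,iso⁆: eGroup_eq_commutator (both sides, dim ≥ 5) gives psi : eGroup Qe →* eGroup Q. Injective (Φ bijective). Commutes with T₀: g(ρ•w) = ρ•g(w), hΦ.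
-/
import Mathlib
import Cfsg.Agent.Lib.LocalBalM.B0

set_option autoImplicit false
set_option linter.unusedSectionVars false
set_option linter.unusedVariables false
set_option linter.unusedSimpArgs false
set_option linter.style.haveILetI false

namespace Cfsg.Agent.Lib.LocalBalM.B1

open Module MulAction QuadraticMap Matrix Cfsg.Agent.Lib.Witt.Quadratic Cfsg.Agent.Lib.Orth.Refl
open Cfsg.Agent.Lib.Orth.Gen Cfsg.Agent.Lib.OrthRefl.Eichler Cfsg.Agent.Lib.Classical.QuadEichler
open Cfsg.Agent.Lib.Classical.QuadEichSimple Cfsg.Agent.Lib.Classical.OmegaHP Cfsg.Agent.Lib.Classical.OmegaLocal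
open Cfsg.Agent.Lib.Classical.OmegaRoot Cfsg.Agent.Lib.Classical.OmegaSemi Cfsg.Agent.Lib.Classical.OmegaConj
open Cfsg.Agent.Lib.Classical.OmegaBar Cfsg.Agent.Lib.Classical.OmegaAut Cfsg.Agent.Lib.Classical.OmegaCount
open Cfsg.Agent.Lib.Orth.Forms Cfsg.Agent.Lib.Classical.BinaryForms Cfsg.Agent.Lib.Classical.QuadEichBridge
open Cfsg.Agent.Lib.Classical.OmegaForms Cfsg.Agent.Lib.Classical.OmegaOut Cfsg.Agent.Lib.Orth.Bridge
open Cfsg.Agent.Lib.Classical.MatrixBridge Cfsg.Agent.Lib.Orth.Closure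
open Cfsg.Agent.Lib.Classical.OmegaPGO Cfsg.Agent.Lib.Classical.OmegaPGO2 Cfsg.Agent.Lib.Classical.OmegaFrob
open Cfsg.Agent.Lib.Classical.OmegaOutOdd Cfsg.Agent.Lib.Classical.OmegaDesc Cfsg.Agent.Lib.Classical.OmegaFieldOdd
open Cfsg.Agent.Lib.LocalBal.OmEmb Cfsg.Agent.Lib.LocalBal.OmFix Cfsg.Agent.Lib.LocalBal.Core
open Cfsg.Agent.Lib.LocalBal.OmMain
open scoped commutatorElement

universe u

variable {F : Type u} [Field F] [Fintype F] {ι : Type} [Fintype ι] [DecidableEq ι]
variable {Q : QuadraticForm F (ι → F)}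
variable {E : Type u} [Field E] [Fintype E] [Algebra F E]
open Cfsg.Agent.Lib.LocalBalM.B0
variable {T₀ : (ι → F) ≃ₗ[F] (ι → F)} {l : F} {n : ℕ} {ρ : E}

/-- The embedding of the Eichler group of `Qe` into that of `Q`. -/
theorem exists_psi (H : HypB Q T₀ l n) (D : KD Q T₀ l n E ρ) :
    ∃ psi : eGroup D.Qe →* eGroup Q, Function.Injective psi ∧ ∀ (g : eGroup D.Qe) (w : Fin n → E), (psi g).1 (D.Φ w) = D.Φ (g.1 w) := by
  classical
  -- the conjugation homomorphism on all `E`-linear automorphisms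
  let f : ((Fin n → E) ≃ₗ[E] (Fin n → E)) →* ((ι → F) ≃ₗ[F] (ι → F)) :=
    { toFun := fun g => D.Φ.symm.trans ((g.restrictScalars F).trans D.Φ)
      map_one' := by
        ext x i
        simp
      map_mul' := by
        intro g h
        ext x i
        simp }
  have hf : ∀ (g : (Fin n → E) ≃ₗ[E] (Fin n → E)) (w : Fin n → E), f g (D.Φ w) = D.Φ (g w) := by
    intro g w
    simp [f]
  have hinj : Function.Injective f := by
    intro g h hgh
    ext w i
    have h1 : D.Φ (g w) = D.Φ (h w) := by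
      rw [← hf, ← hf, hgh]
    rw [D.Φ.injective h1]
  have hiso : (isoGroup D.Qe).map f ≤ isoGroup Q := by
    rintro _ ⟨g, hg, rfl⟩
    rw [mem_isoGroup]
    intro x
    obtain ⟨w, rfl⟩ := D.Φ.surjective x
    rw [hf]
    exact Cfsg.Agent.Lib.LocalBalM.B0.Q_of_iso H D g hg w
  have hn5E : 5 ≤ finrank E (Fin n → E) := by
    rw [Module.finrank_fin_fun]
    exact H.hn5
  have hn5F : 5 ≤ finrank F (ι → F) := by
    rw [Module.finrank_fintype_fun_eq_card, H.hcard]
    have := H.hn5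
    omega
  have hmem : ∀ g : eGroup D.Qe, f g.1 ∈ eGroup Q := by
    intro g
    have h1 : g.1 ∈ ⁅isoGroup D.Qe, isoGroup D.Qe⁆ := by
      rw [← eGroup_eq_commutator D.hnd hn5E]
      exact g.2
    have h2 : f g.1 ∈ (⁅isoGroup D.Qe, isoGroup D.Qe⁆).map f := ⟨g.1, h1, rfl⟩
    rw [Subgroup.map_commutator] at h2
    rw [eGroup_eq_commutator H.hQ hn5F]
    exact Subgroup.commutator_mono hiso hiso h2
  refine ⟨((f.comp (eGroup D.Qe).subtype).codRestrict (eGroup Q) hmem), ?_, ?_⟩
  · intro g h hgh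
    apply Subtype.ext
    apply hinj
    exact congrArg Subtype.val hgh
  · intro g w
    exact hf g.1 w

end Cfsg.Agent.Lib.LocalBalM.B1
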