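/-
S2733, module B2. CLAIM on forum topic S2733 before working; edit only your sorries; extra helper lemmas fine (prefix names to avoid clashes); statements are exact unless announced.
Lt = range psi. hD: psi g commutes with T₀ (hΦ, g E-linear) so conjG = id.
hE: phi S₀ (pi u) = pi u: T₀ u T₀⁻¹ = c u, c = ±1 (scalar_of_mem_center, scalar_sq). U := Φ⁻¹ u Φ is additive with U(ρ•w) = c ρ•U(w). With τ : E ≃+* E the identity (c=1) or the conjugation x+yρ ↦ x-yρ (c=-1): U(z•w) = τ z • U w and Qe(U w) = τ(Qe w) (hQe, u isometry of Q, polar(T₀uv,uv) = c polar(u T₀ v, u v) = c polar(T₀v,v)). So OmegaConj.Semi D.Qe U τ 1, conjG : eGroup Qe ≃* eGroup Qe. u (psi g) u⁻¹ = psi (conjG g).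
hodd: M ≤ range psi normal in range: M.comap psi normal in eGroup Qe, card divides card M (psi injective), LemO.odd_normal (finrank E = n ≥ 5) gives ⊥.
hZ: g' ∈ eGroup Qe, pi (psi g') = 1: psi g' = c, c = ±1, so g' = c•1 over E (hΦ, F-scalar); g' ∈ eGroup Qe = ⁅iso,iso⁆: LinearEquiv det over E is 1; det(c•1) = c^n = c (n odd): c = 1.
-/
import Mathlib
import Cfsg.Agent.Lib.LocalBalM.B1

set_option autoImplicit false
set_option linter.unusedSectionVars false
set_option linter.unusedVariables false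
set_option linter.unusedSimpArgs false
set_option linter.style.haveILetI false

namespace Cfsg.Agent.Lib.LocalBalM.B2

open Module MulAction QuadraticMap Matrix Cfsg.Agent.Lib.Witt.Quadratic Cfsg.Agent.Lib.Orth.Refl
open Cfsg.Agent.Lib.Orth.Gen Cfsg.Agent.Lib.OrthRefl.Eichler Cfsg.Agent.Lib.Classical.QuadEichler
open Cfsg.Agent.Lib.Classical.QuadEichSimple Cfsg.Agent.Lib.Classical.OmegaHP Cfsg.Agent.Lib.Classical.OmegaLocal
open Cfsg.Agent.Lib.Classical.OmegaRoot Cfsg.Agent.Lib.Classical.OmegaSemi Cfsg.Agent.Lib.Classical.OmegaConj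
open Cfsg.Agent.Lib.Classical.OmegaBar Cfsg.Agent.Lib.Classical.OmegaAut Cfsg.Agent.Lib.Classical.OmegaCount
open Cfsg.Agent.Lib.Orth.Forms Cfsg.Agent.Lib.Classical.BinaryForms Cfsg.Agent.Lib.Classical.QuadEichBridge
open Cfsg.Agent.Lib.Classical.OmegaForms Cfsg.Agent.Lib.Classical.OmegaOut Cfsg.Agent.Lib.Orth.Bridge
open Cfsg.Agent.Lib.Classical.MatrixBridge Cfsg.Agent.Lib.Orth.Closure
open Cfsg.Agent.Lib.Classical.OmegaPGO Cfsg.Agent.Lib.Classical.OmegaPGO2 Cfsg.Agent.Lib.Classical.OmegaFrob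
open Cfsg.Agent.Lib.Classical.OmegaOutOdd Cfsg.Agent.Lib.Classical.OmegaDesc Cfsg.Agent.Lib.Classical.OmegaFieldOdd
open Cfsg.Agent.Lib.LocalBal.OmEmb Cfsg.Agent.Lib.LocalBal.OmFix Cfsg.Agent.Lib.LocalBal.Core
open Cfsg.Agent.Lib.LocalBal.OmMain
open scoped commutatorElement

universe u

variable {F : Type u} [Field F] [Fintype F] {ι : Type} [Fintype ι] [DecidableEq ι]
variable {Q : QuadraticForm F (ι → F)}
variable {E : Type u} [Field E] [Fintype E] [Algebra F E]
open Cfsg.Agent.Lib.LocalBalM.B0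
variable {T₀ : (ι → F) ≃ₗ[F] (ι → F)} {l : F} {n : ℕ} {ρ : E}
variable (H : HypB Q T₀ l n) (D : KD Q T₀ l n E ρ) (psi : eGroup D.Qe →* eGroup Q) (hpsi : Function.Injective psi)
  (hpsi' : ∀ (g : eGroup D.Qe) (w : Fin n → E), (psi g).1 (D.Φ w) = D.Φ (g.1 w))
variable (S₀ : SemiEl Q) (hS₀ : ∀ x, S₀.1 x = T₀ x)
include H hpsi hpsi'

omit H hpsi hpsi' in
theorem B2a_comm (D : KD Q T₀ l n E ρ) (psi : eGroup D.Qe →* eGroup Q)
    (hpsi' : ∀ (g : eGroup D.Qe) (w : Fin n → E), (psi g).1 (D.Φ w) = D.Φ (g.1 w))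
    (g₀ : eGroup D.Qe) (y : ι → F) : T₀ ((psi g₀).1 y) = (psi g₀).1 (T₀ y) := by
  obtain ⟨w, rfl⟩ := D.Φ.surjective y
  rw [hpsi', ← D.hΦ, ← D.hΦ, hpsi', map_smul g₀.1 ρ w]

omit H hpsi hpsi' in
theorem B2a_uniq (D : KD Q T₀ l n E ρ) {x y x' y' : F}
    (h : algebraMap F E x + algebraMap F E y * ρ = algebraMap F E x' + algebraMap F E y' * ρ) : x = x' ∧ y = y' := by
  have h1 := D.hind (x - x') (y - y') (by
    rw [map_sub, map_sub]
    linear_combination h)
  exact ⟨sub_eq_zero.1 h1.1, sub_eq_zero.1 h1.2⟩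

omit H hpsi hpsi' in
theorem B2a_exists_tau (D : KD Q T₀ l n E ρ) {c : F} (hc : c = 1 ∨ c = -1) :
    ∃ τ : E ≃+* E, ∀ x y : F, τ (algebraMap F E x + algebraMap F E y * ρ) =
      algebraMap F E x + algebraMap F E (c * y) * ρ := by
  rcases hc with rfl | rfl
  · exact ⟨RingEquiv.refl E, fun x y => by simp⟩
  · classical
    let a : E → F := fun z => (D.hdec z).choose
    let b : E → F := fun z => (D.hdec z).choose_spec.choose
    have hs : ∀ z, z = algebraMap F E (a z) + algebraMap F E (b z) * ρ :=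
      fun z => (D.hdec z).choose_spec.choose_spec
    let t : E → E := fun z => algebraMap F E (a z) - algebraMap F E (b z) * ρ
    have ht : ∀ x y : F, t (algebraMap F E x + algebraMap F E y * ρ) = algebraMap F E x - algebraMap F E y * ρ := by
      intro x y
      have h := hs (algebraMap F E x + algebraMap F E y * ρ)
      obtain ⟨h1, h2⟩ := B2a_uniq D h
      show algebraMap F E (a _) - algebraMap F E (b _) * ρ = _
      rw [← h1, ← h2]
    have ht' : ∀ x y : F, t (algebraMap F E x - algebraMap F E y * ρ) = algebraMap F E x + algebraMap F E y * ρ := by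
      intro x y
      have h0 : algebraMap F E x - algebraMap F E y * ρ = algebraMap F E x + algebraMap F E (-y) * ρ := by
        rw [map_neg]; ring
      rw [h0, ht, map_neg]; ring
    have hinv : ∀ z, t (t z) = z := by
      intro z
      conv_rhs => rw [hs z]
      show t (algebraMap F E (a z) - algebraMap F E (b z) * ρ) = _
      rw [ht']
    refine ⟨{ toFun := t, invFun := t, left_inv := hinv, right_inv := hinv, map_mul' := ?_, map_add' := ?_ }, ?_⟩
    · intro z z'
      show t _ = t _ * t _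
      obtain ⟨x, y, rfl⟩ := D.hdec z
      obtain ⟨x', y', rfl⟩ := D.hdec z'
      have h0 : (algebraMap F E x + algebraMap F E y * ρ) * (algebraMap F E x' + algebraMap F E y' * ρ) =
          algebraMap F E (x * x' + y * y' * l) + algebraMap F E (x * y' + y * x') * ρ := by
        simp only [map_add, map_mul]
        linear_combination (algebraMap F E y * algebraMap F E y') * D.hρ2
      rw [h0, ht, ht, ht]
      simp only [map_add, map_mul]
      linear_combination (-algebraMap F E y * algebraMap F E y') * D.hρ2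
    · intro z z'
      show t _ = t _ + t _
      obtain ⟨x, y, rfl⟩ := D.hdec z
      obtain ⟨x', y', rfl⟩ := D.hdec z'
      have h0 : (algebraMap F E x + algebraMap F E y * ρ) + (algebraMap F E x' + algebraMap F E y' * ρ) =
          algebraMap F E (x + x') + algebraMap F E (y + y') * ρ := by
        simp only [map_add]; ring
      rw [h0, ht, ht, ht]
      simp only [map_add]; ring
    · intro x y
      show t _ = _
      rw [ht, neg_one_mul, map_neg]; ring

include hS₀ in
theorem hD_B : ∀ g ∈ psi.range, phi Q S₀ (pi Q g) = pi Q g := by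
  rintro _ ⟨g₀, rfl⟩
  obtain ⟨θ, k, hS⟩ := S₀.2
  rw [phi_apply S₀ hS, conjBar_pi]
  congr 1
  apply Subtype.ext
  ext1 x
  rw [conjG_apply]
  have h1 : S₀.1.symm x = T₀.symm x := by
    apply S₀.1.injective
    rw [AddEquiv.apply_symm_apply, hS₀, LinearEquiv.apply_symm_apply]
  rw [h1, hS₀, B2a_comm D psi hpsi' g₀, LinearEquiv.apply_symm_apply]

include hS₀ in
theorem hE_B : ∀ u : eGroup Q, phi Q S₀ (pi Q u) = pi Q u → ∀ g ∈ psi.range, u * g * u⁻¹ ∈ psi.range := by
  intro u hu
  rintro _ ⟨g₀, rfl⟩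
  obtain ⟨θ, k, hS⟩ := S₀.2
  rw [phi_apply S₀ hS, conjBar_pi] at hu
  have hz : (conjG hS u)⁻¹ * u ∈ Subgroup.center (eGroup Q) := QuotientGroup.eq.1 hu
  have hn : 5 ≤ finrank F (ι → F) := by
    rw [Module.finrank_fintype_fun_eq_card, H.hcard]
    have := H.hn5
    omega
  obtain ⟨c, hc⟩ := scalar_of_mem_center H.hQ hn hz
  have hc2 : c = 1 ∨ c = -1 := scalar_sq H.hQ hn (eGroup_le_iso ((conjG hS u)⁻¹ * u).2) hc
  have hcc : c * c = 1 := by
    rcases hc2 with rfl | rfl <;> ring
  have hS₀s : ∀ y, S₀.1.symm (T₀ y) = y := by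
    intro y
    apply S₀.1.injective
    rw [AddEquiv.apply_symm_apply, hS₀]
  -- the key commutation relation
  have key : ∀ y, u.1 (T₀ y) = c • T₀ (u.1 y) := by
    intro y
    have h1 := hc (T₀ y)
    have h2 : ((conjG hS u)).1 (((conjG hS u)⁻¹ * u).1 (T₀ y)) = u.1 (T₀ y) := by
      show ((conjG hS u) * ((conjG hS u)⁻¹ * u)).1 (T₀ y) = u.1 (T₀ y)
      rw [mul_inv_cancel_left]
    rw [h1, map_smul] at h2
    rw [← h2, conjG_apply, hS₀s, hS₀]
  have key' : ∀ y, T₀ (u.1 y) = c • u.1 (T₀ y) := by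
    intro y
    rw [key, smul_smul, hcc, one_smul]
  have hiso : ∀ v, Q (u.1 v) = Q v := fun v => eGroup_le_iso u.2 v
  have hpol : ∀ a b, polar Q (u.1 a) (u.1 b) = polar Q a b := by
    intro a b
    simp only [QuadraticMap.polar, ← map_add, hiso]
  obtain ⟨τ, hτ⟩ := B2a_exists_tau D hc2
  let U : (Fin n → E) ≃+ (Fin n → E) := D.Φ.toAddEquiv.trans (u.1.toAddEquiv.trans D.Φ.symm.toAddEquiv)
  have hU : ∀ w, D.Φ (U w) = u.1 (D.Φ w) := fun w => by simp [U]
  have hUF : ∀ (f : F) w, U (f • w) = f • U w := by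
    intro f w
    apply D.Φ.injective
    rw [hU, map_smul, map_smul, map_smul, hU]
  have hUρ : ∀ w, U (ρ • w) = c • (ρ • U w) := by
    intro w
    apply D.Φ.injective
    rw [hU, D.hΦ, key, map_smul, D.hΦ, hU]
  have hSemi : Semi D.Qe U τ 1 := by
    refine ⟨?_, ?_, one_ne_zero⟩
    · intro z w
      obtain ⟨x, y, rfl⟩ := D.hdec z
      rw [hτ, add_smul, add_smul, map_add, mul_smul, mul_smul, algebraMap_smul, algebraMap_smul, algebraMap_smul,
        algebraMap_smul, hUF, hUF, hUρ, mul_smul, smul_comm y c]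
    · intro w
      rw [D.hQe (U w), hU, D.hQe w, hτ, one_mul, hiso, key', QuadraticMap.polar_smul_left, smul_eq_mul, hpol]
      congr 3
      ring
  refine ⟨conjG hSemi g₀, ?_⟩
  apply Subtype.ext
  ext1 x
  obtain ⟨w, rfl⟩ := D.Φ.surjective x
  rw [hpsi', conjG_apply, hU]
  show _ = u.1 ((psi g₀).1 ((u⁻¹).1 (D.Φ w)))
  have h3 : (u⁻¹).1 (D.Φ w) = D.Φ (U.symm w) := by
    have h4 : D.Φ w = u.1 (D.Φ (U.symm w)) := by
      rw [← hU, AddEquiv.apply_symm_apply]
    rw [h4]
    show (u⁻¹ * u).1 _ = _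
    rw [inv_mul_cancel]
    rfl
  rw [h3, hpsi']

theorem hodd_B : ∀ M : Subgroup (eGroup Q), M ≤ psi.range → (∀ l ∈ psi.range, ∀ y ∈ M, l * y * l⁻¹ ∈ M) →
    ¬ 2 ∣ Nat.card M → M = ⊥ := by
  intro M hM hnorm hodd
  have h2E : (2 : E) ≠ 0 := by
    intro h
    apply H.h2
    apply (algebraMap F E).injective
    rw [map_ofNat, map_zero]
    exact h
  let M' : Subgroup (eGroup D.Qe) := M.comap psi
  have hn' : (M').Normal := by
    refine ⟨fun y hy g => ?_⟩
    show psi (g * y * g⁻¹) ∈ M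
    rw [map_mul, map_mul, map_inv]
    exact hnorm _ ⟨g, rfl⟩ _ hy
  have hoddM' : ¬ 2 ∣ Nat.card M' := by
    intro hdvd
    apply hodd
    let f : M' →* M :=
      { toFun := fun y => ⟨psi y.1, y.2⟩
        map_one' := by
          apply Subtype.ext
          simp
        map_mul' := by
          intro a b
          apply Subtype.ext
          simp }
    have hf : Function.Injective f := by
      intro a b hab
      apply Subtype.ext
      apply hpsi
      exact congrArg Subtype.val hab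
    exact hdvd.trans (Subgroup.card_dvd_of_injective f hf)
  have hbot : M' = ⊥ := Cfsg.Agent.Lib.LocalBalM.LemO.odd_normal (Q := D.Qe) D.hnd h2E
    (by rw [Module.finrank_fin_fun]; exact H.hn5) M' hn' hoddM'
  rw [Subgroup.eq_bot_iff_forall]
  intro y hy
  obtain ⟨g, rfl⟩ := hM hy
  have h1 : g ∈ M' := hy
  rw [hbot] at h1
  have h3 : g = 1 := h1
  rw [h3, map_one]

theorem hZ_B : ∀ g ∈ psi.range, pi Q g = 1 → g = 1 := by
  rintro _ ⟨g', rfl⟩ hg
  have h2E : (2 : E) ≠ 0 := by
    intro h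
    apply H.h2
    apply (algebraMap F E).injective
    rw [map_ofNat, map_zero]
    exact h
  have hfr : 5 ≤ finrank F (ι → F) := by
    rw [Module.finrank_fintype_fun_eq_card, H.hcard]
    have := H.hn5
    omega
  have hcen : psi g' ∈ Subgroup.center (eGroup Q) := (QuotientGroup.eq_one_iff _).1 hg
  obtain ⟨c, hc⟩ := scalar_of_mem_center H.hQ hfr hcen
  have hiso : (psi g').1 ∈ isoGroup Q := eGroup_le_iso (psi g').2
  rcases scalar_sq H.hQ hfr hiso hc with h1 | h1
  · apply Subtype.ext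
    ext1 x
    rw [hc, h1, one_smul]
    rfl
  · exfalso
    have hneg : ∀ w, g'.1 w = -w := by
      intro w
      apply D.Φ.injective
      rw [← hpsi', hc, h1, neg_one_smul, map_neg]
    have hdet : LinearEquiv.det g'.1 = 1 := by
      have hmem : g'.1 ∈ (LinearEquiv.det (R := E) (M := Fin n → E)).ker := by
        have h5 : eGroup D.Qe ≤ (LinearEquiv.det (R := E) (M := Fin n → E)).ker := by
          rw [eGroup_eq_commutator D.hnd (by rw [Module.finrank_fin_fun]; exact H.hn5)]
          rw [Subgroup.commutator_le]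
          intro a _ b _
          rw [MonoidHom.mem_ker, commutatorElement_def, map_mul, map_mul, map_mul, map_inv, map_inv]
          rw [mul_comm (LinearEquiv.det a) (LinearEquiv.det b)]
          simp
        exact h5 g'.2
      exact hmem
    have hg'eq : (g'.1 : (Fin n → E) →ₗ[E] (Fin n → E)) = (-1 : E) • LinearMap.id := by
      apply LinearMap.ext
      intro w
      simp [hneg]
    have hd1 : LinearMap.det (g'.1 : (Fin n → E) →ₗ[E] (Fin n → E)) = 1 := by
      have := LinearEquiv.coe_det g'.1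
      rw [← this, hdet]
      rfl
    rw [hg'eq, LinearMap.det_smul, LinearMap.det_id, Module.finrank_fin_fun, mul_one, H.hodd.neg_one_pow] at hd1
    apply h2E
    have : (2 : E) = 1 - (-1) := by ring
    rw [this, hd1]
    ring

end Cfsg.Agent.Lib.LocalBalM.B2
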