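/-
S2733, module B3. CLAIM on forum topic S2733 before working; edit only your sorries; extra helper lemmas fine (prefix names to avoid clashes); statements are exact unless announced.
T θ-semilinear over F, phi T fixes pi (range psi). Work on W = Fin n → E with R = Φ⁻¹ T Φ (additive).
(1) For a E-singular, b ⊥ a (E-polar): g = EAt Qe a b, order r odd (EAt.pow_char). T (psi g) T⁻¹ = ±psi g (phi fixes class, centre = ±1) and the sign is + since (−psi g)^r = −1 ≠ 1. So R commutes with g. Hence R preserves Im(g−1) and so (intersect over two b's, E-independent with a) R(E a) = E a: R a = ζ_a • a. [g w − w = polar w a • b − polar w b • a − Qe b polar w a • a; with polar w a = 0, polar w b = -1 get a; choose b₁, b₂: dim ≥ 5.]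
(2) OmegaSemi.semilinear_of_lines (Qe, Qe, ρ := R, hn 5 ≤ finrank E): R is τ-semilinear over E: Semi Qe R τ l'. 
(3) a,a' E-singular orthogonal E-independent: R(a + z a') eigen gives ζ_a = ζ_a', and z = τ z as in LocalBal.OmFix.rat_same: τ = 1. So R is E-linear with all singular vectors eigen: scalar_of_eigen: R = ζ•, ζ ∈ E.
(4) T = Φ ζ Φ⁻¹ is F-linear so θ = 1. ζ = x + yρ. T = x + y T₀ on V. Q(T v) = l'' Q v. polar Q (T u)(T v) = l'' polar Q u v. With Bₑ (polar_Qe): Bₑ(ζu, ζv) = ζ² Bₑ(u,v); real part = l'' Re Bₑ(u,v) for all u,v; Bₑ takes all values (nondegenerate): take value ρ: Re(ζ²ρ) = 0, ζ² = α + βρ gives β l = 0: β = 2xy = 0: x = 0 or y = 0. y = 0: T = x: conjS T = 1. x = 0: T = y T₀: conjS T = conjS S₀ (conjS_eq_one_iff on S₀⁻¹ * T).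
-/
import Mathlib
import Cfsg.Agent.Lib.LocalBalM.B1

set_option autoImplicit false
set_option linter.unusedSectionVars false
set_option linter.unusedVariables false
set_option linter.unusedSimpArgs false
set_option linter.style.haveILetI false

namespace Cfsg.Agent.Lib.LocalBalM.B3

open Module MulAction QuadraticMap Matrix Cfsg.Agent.Lib.Witt.Quadratic Cfsg.Agent.Lib.Orth.Refl
open Cfsg.Agent.Lib.Orth.Gen Cfsg.Agent.Lib.OrthRefl.Eichler Cfsg.Agent.Lib.Classical.QuadEichler
open Cfsg.Agent.Lib.Classical.QuadEichSimple Cfsg.Agent.Lib.Classical.OmegaHP Cfsg.Agent.Lib.Classical.OmegaLocal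
open Cfsg.Agent.Lib.Classical.OmegaRoot Cfsg.Agent.Lib.Classical.OmegaSemi Cfsg.Agent.Lib.Classical.OmegaConj
open Cfsg.Agent.Lib.Classical.OmegaBar Cfsg.Agent.Lib.Classical.OmegaAut Cfsg.Agent.Lib.Classical.OmegaCount
open Cfsg.Agent.Lib.Orth.Forms Cfsg.Agent.Lib.Classical.BinaryForms Cfsg.Agent.Lib.Classical.QuadEichBridge
open Cfsg.Agent.Lib.Classical.OmegaForms Cfsg.Agent.Lib.Classical.OmegaOut Cfsg.Agent.Lib.Orth.Bridge
open Cfsg.Agent.Lib.Classical.MatrixBridge Cfsg.Agent.Lib.Orth.Closure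
open Cfsg.Agent.Lib.Classical.OmegaPGO Cfsg.Agent.Lib.Classical.OmegaPGO2 Cfsg.Agent.Lib.Classical.OmegaFrob
open Cfsg.Agent.Lib.Classical.OmegaOutOdd Cfsg.Agent.Lib.Classical.OmegaDesc Cfsg.Agent.Lib.Classical.OmegaFieldOdd
open Cfsg.Agent.Lib.LocalBal.OmEmb Cfsg.Agent.Lib.LocalBal.OmFix Cfsg.Agent.Lib.LocalBal.Core
open Cfsg.Agent.Lib.LocalBal.OmMain
open scoped commutatorElement

universe u

variable {F : Type u} [Field F] [Fintype F] {ι : Type} [Fintype ι] [DecidableEq ι]
variable {Q : QuadraticForm F (ι → F)}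
variable {E : Type u} [Field E] [Fintype E] [Algebra F E]
open Cfsg.Agent.Lib.LocalBalM.B0
variable {T₀ : (ι → F) ≃ₗ[F] (ι → F)} {l : F} {n : ℕ} {ρ : E}
variable (H : HypB Q T₀ l n) (D : KD Q T₀ l n E ρ) (psi : eGroup D.Qe →* eGroup Q) (hpsi : Function.Injective psi)
  (hpsi' : ∀ (g : eGroup D.Qe) (w : Fin n → E), (psi g).1 (D.Φ w) = D.Φ (g.1 w))
variable (S₀ : SemiEl Q) (hS₀ : ∀ x, S₀.1 x = T₀ x)
variable (hQ : (polarBilin Q).Nondegenerate) (hn : 5 ≤ Fintype.card ι) (r : ℕ) [hr : Fact r.Prime] [hc : CharP F r]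
/-- The conjugate of `T` on `Fin n → E`. -/
noncomputable def hbRR (T : SemiEl Q) : (Fin n → E) ≃+ (Fin n → E) :=
  (D.Φ.toAddEquiv.trans T.1).trans D.Φ.toAddEquiv.symm

theorem hbRR_apply (T : SemiEl Q) (w : Fin n → E) : D.Φ (hbRR D T w) = T.1 (D.Φ w) := by
  show D.Φ (D.Φ.symm (T.1 (D.Φ w))) = _
  exact D.Φ.apply_symm_apply _

include hQ hn hpsi' in
/-- Commutation of `T` with the image of an element of order `r` of the Eichler group of `Qe`. -/
theorem hbRR_comm (T : SemiEl Q) (h : ∀ g ∈ psi.range, phi Q T (pi Q g) = pi Q g)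
    (g : eGroup D.Qe) (hg : g ^ r = 1) (w : Fin n → E) : hbRR D T (g.1 w) = g.1 (hbRR D T w) := by
  obtain ⟨θ, l'', Hs⟩ := T.2
  have hfin : 5 ≤ finrank F (ι → F) := by
    rw [Module.finrank_fintype_fun_eq_card]; exact hn
  have h1 := h (psi g) ⟨g, rfl⟩
  rw [phi_apply T Hs, conjBar_pi] at h1
  have hp : (psi g) ^ (r ^ 1) = 1 := by rw [pow_one, ← map_pow, hg, map_one]
  have hp' : (conjG Hs (psi g)) ^ (r ^ 1) = 1 := by rw [← map_pow, hp, map_one]
  have h2 := lift_eq hQ r hfin hp' hp h1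
  have e1 : T.1 ((psi g).1 (D.Φ w)) = (psi g).1 (T.1 (D.Φ w)) := by
    have h3 := congrArg (fun t : eGroup Q => t.1 (T.1 (D.Φ w))) h2
    simp only [conjG_apply] at h3
    rwa [AddEquiv.symm_apply_apply] at h3
  apply D.Φ.injective
  calc D.Φ (hbRR D T (g.1 w)) = T.1 (D.Φ (g.1 w)) := hbRR_apply D T _
    _ = T.1 ((psi g).1 (D.Φ w)) := by rw [hpsi']
    _ = (psi g).1 (T.1 (D.Φ w)) := e1
    _ = (psi g).1 (D.Φ (hbRR D T w)) := by rw [hbRR_apply]
    _ = D.Φ (g.1 (hbRR D T w)) := hpsi' _ _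

include H hQ hn hpsi' r in
/-- Singular vectors of `Qe` are eigenvectors of the conjugate of `T`. -/
theorem hbRR_eigen (T : SemiEl Q) (h : ∀ g ∈ psi.range, phi Q T (pi Q g) = pi Q g)
    (a : Fin n → E) (ha0 : a ≠ 0) (haQ : D.Qe a = 0) : ∃ d : E, hbRR D T a = d • a := by
  haveI : CharP E r := charP_of_injective_algebraMap (algebraMap F E).injective r
  have hfinE : 5 ≤ finrank E (Fin n → E) := by rw [Module.finrank_fin_fun]; exact H.hn5
  obtain ⟨e, f, he, hf, hef, hae, haf⟩ := exists_hp_perp D.hnd hfinE ha0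
  have A₁ := eEl_eAt a e haQ hae
  have A₂ := eEl_eAt a f haQ haf
  have p₁ : (eEl a e haQ hae) ^ r = 1 := Subtype.ext (A₁.pow_char r)
  have p₂ : (eEl a f haQ haf) ^ r = 1 := Subtype.ext (A₂.pow_char r)
  have pol_fa : polar D.Qe f a = 0 := by rw [polar_comm]; exact haf
  have pol_ea : polar D.Qe e a = 0 := by rw [polar_comm]; exact hae
  have pol_fe : polar D.Qe f e = 1 := by rw [polar_comm]; exact hef
  have g1f : (eEl a e haQ hae).1 f = f + a := by
    rw [A₁.apply', pol_fe, pol_fa]; simp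
  have g2e : (eEl a f haQ haf).1 e = e + a := by
    rw [A₂.apply', hef, pol_ea]; simp
  have c1 := hbRR_comm D psi hpsi' hQ hn r T h _ p₁ f
  have c2 := hbRR_comm D psi hpsi' hQ hn r T h _ p₂ e
  rw [g1f, map_add, A₁.apply', he, zero_mul, zero_smul, sub_zero] at c1
  rw [g2e, map_add, A₂.apply', hf, zero_mul, zero_smul, sub_zero] at c2
  have ra1 : hbRR D T a = polar D.Qe (hbRR D T f) e • a - polar D.Qe (hbRR D T f) a • e := by
    linear_combination (norm := module) c1
  have ra2 : hbRR D T a = polar D.Qe (hbRR D T e) f • a - polar D.Qe (hbRR D T e) a • f := by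
    linear_combination (norm := module) c2
  have h0 : polar D.Qe (hbRR D T e) a = 0 := by
    have h3 : polar D.Qe (hbRR D T a) e = 0 := by
      rw [ra1, polar_sub_left, polar_smul_left, polar_smul_left, hae, polar_self_of_singular he]
      simp
    rw [ra2, polar_sub_left, polar_smul_left, polar_smul_left, hae, pol_fe] at h3
    simpa using h3
  refine ⟨polar D.Qe (hbRR D T e) f, ?_⟩
  rw [ra2, h0, zero_smul, sub_zero]

include H hQ hn in
/-- A linear combination `x + y T₀` that is a semisimilarity has `x = 0` or `y = 0`. -/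
theorem hb_xy_zero (T : SemiEl Q) {x y : F} (hT : ∀ v, T.1 v = x • v + y • T₀ v) : x = 0 ∨ y = 0 := by
  obtain ⟨θ, l'', Hs⟩ := T.2
  have hfin : 5 ≤ finrank F (ι → F) := by
    rw [Module.finrank_fintype_fun_eq_card]; exact hn
  haveI : Nontrivial (ι → F) := Module.nontrivial_of_finrank_pos (R := F) (by omega)
  obtain ⟨v₀, hv₀⟩ := exists_ne (0 : ι → F)
  have hTv₀ : T.1 v₀ ≠ 0 := by simpa using hv₀
  have hθ : ∀ c, θ c = c := by
    intro c
    have h1 := Hs.smul c v₀
    rw [hT (c • v₀), map_smul] at h1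
    have h3 : x • c • v₀ + y • c • T₀ v₀ = c • T.1 v₀ := by
      rw [hT v₀, smul_add, smul_comm x c, smul_comm y c]
    have h2 : (θ c - c) • T.1 v₀ = 0 := by
      rw [sub_smul, ← h1, h3, sub_self]
    exact (sub_eq_zero.1 ((smul_eq_zero.1 h2).resolve_right hTv₀))
  have hself : ∀ u v, polar Q (T₀ u) v = polar Q u (T₀ v) := fun u v => polar_T₀ H u v
  have hpol : ∀ u v, polar Q ((x * x + y * y * l - l'') • u + (2 * x * y) • T₀ u) v = 0 := by
    intro u v
    have h1 := Hs.polar_eq u v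
    rw [hθ, hT, hT] at h1
    have h2 : polar Q (T₀ u) (T₀ v) = l * polar Q u v := by
      rw [hself, H.hT2, polar_smul_right, smul_eq_mul]
    simp only [polar_add_left, polar_add_right, polar_smul_left, polar_smul_right, h2, smul_eq_mul, ← hself u v] at h1
    simp only [polar_add_left, polar_smul_left, smul_eq_mul]
    linear_combination h1
  have hzero : ∀ u, (x * x + y * y * l - l'') • u + (2 * x * y) • T₀ u = 0 := by
    intro u
    by_contra hne
    obtain ⟨c, hc⟩ := exists_polar_single hQ hne 1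
    rw [polar_comm, hpol] at hc
    exact zero_ne_one hc
  by_contra hcon
  push Not at hcon
  have h2 : (2 * x * y : F) ≠ 0 := mul_ne_zero (mul_ne_zero H.h2 hcon.1) hcon.2
  set c : F := -(x * x + y * y * l - l'') / (2 * x * y) with hc
  have hT₀ : ∀ u, T₀ u = c • u := by
    intro u
    have h3 := hzero u
    have h4 : (2 * x * y) • T₀ u = (2 * x * y) • (c • u) := by
      rw [smul_smul, hc, mul_div_cancel₀ _ h2, neg_smul]
      exact eq_neg_of_add_eq_zero_right h3
    exact smul_right_injective _ h2 h4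
  apply H.hl
  have h5 := H.hT2 v₀
  rw [hT₀, hT₀, smul_smul] at h5
  have h6 : (c * c - l) • v₀ = 0 := by
    rw [sub_smul, h5, sub_self]
  exact ⟨c, (sub_eq_zero.1 ((smul_eq_zero.1 h6).resolve_right hv₀)).symm⟩

include H hpsi hpsi' hS₀

include r in
theorem hB_B (T : SemiEl Q) (h : ∀ g ∈ psi.range, phi Q T (pi Q g) = pi Q g) :
    conjS hQ hn T = 1 ∨ conjS hQ hn T = conjS hQ hn S₀ := by
  have hfinE : 5 ≤ finrank E (Fin n → E) := by rw [Module.finrank_fin_fun]; exact H.hn5
  obtain ⟨ζ, hζ⟩ := scalar_of_eigen_add D.hnd hfinE (hbRR D T)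
    (fun a ha0 haQ => hbRR_eigen H D psi hpsi' hQ hn r T h a ha0 haQ)
  obtain ⟨x, y, hxy⟩ := D.hdec ζ
  have hT : ∀ v, T.1 v = x • v + y • T₀ v := by
    intro v
    obtain ⟨w, rfl⟩ := D.Φ.surjective v
    rw [← hbRR_apply, hζ, hxy, add_smul, mul_smul, map_add, algebraMap_smul, algebraMap_smul, map_smul, map_smul,
      D.hΦ]
  have hfin : 5 ≤ finrank F (ι → F) := by
    rw [Module.finrank_fintype_fun_eq_card]; exact hn
  haveI : Nontrivial (ι → F) := Module.nontrivial_of_finrank_pos (R := F) (by omega)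
  obtain ⟨v₀, hv₀⟩ := exists_ne (0 : ι → F)
  have hTv₀ : T.1 v₀ ≠ 0 := by simpa using hv₀
  rcases hb_xy_zero H hQ hn T hT with h0 | h0
  · -- `x = 0`
    right
    subst h0
    have hy0 : y ≠ 0 := by
      rintro rfl
      apply hTv₀
      rw [hT]
      simp
    have h1 : conjS hQ hn (S₀⁻¹ * T) = 1 := by
      refine (conjS_eq_one_iff hQ hn r).2 ⟨y, hy0, fun v => ?_⟩
      show S₀.1.symm (T.1 v) = y • v
      rw [AddEquiv.symm_apply_eq, hS₀, map_smul, hT, zero_smul, zero_add]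
    rw [map_mul, map_inv, inv_mul_eq_one] at h1
    exact h1.symm
  · -- `y = 0`
    left
    subst h0
    have hx0 : x ≠ 0 := by
      rintro rfl
      apply hTv₀
      rw [hT]
      simp
    refine (conjS_eq_one_iff hQ hn r).2 ⟨x, hx0, fun v => ?_⟩
    rw [hT, zero_smul, add_zero]

end Cfsg.Agent.Lib.LocalBalM.B3
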