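/-
S2733, module PortA. CLAIM on forum topic S2733 before working; edit only your sorries; extra helper lemmas fine (prefix names to avoid clashes); statements are exact unless announced.
Copies of LocalBal.OmFix.cent_of_fix, OmMain.cent_LL, OmMain.field_LL with hcoord weakened to hcoord' (only θ fixing Fix σ). In cent_of_fix, rat_scalar gives hθ : ∀ x, σ x = x → θ x = x and then T_eq_coord H (hcoord' θ hθ) ..; the rest identical (θ in the output comes with hθ, use hcoord' θ hθ wherever hcoord θ was used; in cent_LL, refl fixes everything).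
-/
import Mathlib
import Cfsg.Agent.Lib.LocalBal.OmOdd

set_option autoImplicit false
set_option linter.unusedSectionVars false
set_option linter.unusedVariables false
set_option linter.unusedSimpArgs false
set_option linter.style.haveILetI false

namespace Cfsg.Agent.Lib.LocalBalM.PortA

open Module MulAction QuadraticMap Matrix Cfsg.Agent.Lib.Witt.Quadratic Cfsg.Agent.Lib.Orth.Refl
open Cfsg.Agent.Lib.Orth.Gen Cfsg.Agent.Lib.OrthRefl.Eichler Cfsg.Agent.Lib.Classical.QuadEichler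
open Cfsg.Agent.Lib.Classical.QuadEichSimple Cfsg.Agent.Lib.Classical.OmegaHP Cfsg.Agent.Lib.Classical.OmegaLocal
open Cfsg.Agent.Lib.Classical.OmegaRoot Cfsg.Agent.Lib.Classical.OmegaSemi Cfsg.Agent.Lib.Classical.OmegaConj
open Cfsg.Agent.Lib.Classical.OmegaBar Cfsg.Agent.Lib.Classical.OmegaAut Cfsg.Agent.Lib.Classical.OmegaCount
open Cfsg.Agent.Lib.Orth.Forms Cfsg.Agent.Lib.Classical.BinaryForms Cfsg.Agent.Lib.Classical.QuadEichBridge
open Cfsg.Agent.Lib.Classical.OmegaForms Cfsg.Agent.Lib.Classical.OmegaOut Cfsg.Agent.Lib.Orth.Bridge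
open Cfsg.Agent.Lib.Classical.MatrixBridge Cfsg.Agent.Lib.Orth.Closure
open Cfsg.Agent.Lib.Classical.OmegaPGO Cfsg.Agent.Lib.Classical.OmegaPGO2 Cfsg.Agent.Lib.Classical.OmegaFrob
open Cfsg.Agent.Lib.Classical.OmegaOutOdd Cfsg.Agent.Lib.Classical.OmegaDesc Cfsg.Agent.Lib.Classical.OmegaFieldOdd
open Cfsg.Agent.Lib.LocalBal.OmEmb Cfsg.Agent.Lib.LocalBal.OmFix Cfsg.Agent.Lib.LocalBal.Core
open Cfsg.Agent.Lib.LocalBal.OmMain
open scoped commutatorElement

universe u

variable {F : Type u} [Field F] [Fintype F] {ι : Type} [Fintype ι] [DecidableEq ι]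
variable {Q : QuadraticForm F (ι → F)}
variable {σ : F ≃+* F} (hσ : ∀ x : ι → F, Q (fun i => σ (x i)) = σ (Q x))
variable (hQ : (polarBilin Q).Nondegenerate) (hn : 5 ≤ Fintype.card ι)
variable (r : ℕ) [hr : Fact r.Prime] [hc : CharP F r]

/-- Coordinate stability for the automorphisms fixing the fixed field. -/
def Stable (Q : QuadraticForm F (ι → F)) (σ : F ≃+* F) : Prop :=
  ∀ θ : F ≃+* F, (∀ x, σ x = x → θ x = x) → ∀ y : ι → F, Q (fun i => θ (y i)) = θ (Q y)

include hQ hn r in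
theorem cent_of_fix' (hn7 : 7 ≤ Fintype.card ι) (h8 : NoSolid Q) (hcoord : Stable Q σ)
    (α : MulAut (Cfsg.POmega F ⇑Q)) (hα : ∀ k ∈ LL hσ, α k = k) :
    ∃ (θ : F ≃+* F) (hθ : ∀ x, σ x = x → θ x = x), α = conjS hQ hn (coordS θ (hcoord θ hθ)) := by
  obtain ⟨T, rfl⟩ := conjS_surjective hQ hn r hn7 h8 α
  obtain ⟨θ, l, H⟩ := T.2
  obtain ⟨c, hc0, hc, hθ⟩ := rat_scalar hσ hQ hn r H hn7 hα
  have hall := rat_all hσ hQ hn H hθ hc
  have hT := T_eq_coord (σ := σ) H (hcoord θ hθ) hc0 hall hθ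
  refine ⟨θ, hθ, ?_⟩
  rw [hT, map_mul, conjS_scS' hQ hn r, one_mul]

include hQ hn r in
theorem cent_LL' (hn7 : 7 ≤ Fintype.card ι) (h8 : NoSolid Q) (hcoord : Stable Q σ) (k : Cfsg.POmega F ⇑Q)
    (hk : ∀ l ∈ LL hσ, k * l = l * k) : k = 1 := by
  classical
  have hα : ∀ l ∈ LL hσ, MulAut.conj k l = l := by
    intro l hl
    rw [MulAut.conj_apply, hk l hl, mul_inv_cancel_right]
  obtain ⟨θ, hθfix, hθ⟩ := cent_of_fix' hσ hQ hn r hn7 h8 hcoord (MulAut.conj k) hα
  obtain ⟨u, rfl⟩ := QuotientGroup.mk_surjective k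
  rw [← conjS_ofE hQ hn] at hθ
  set t := omegaEquiv Q hQ hn u with ht
  have h1 : conjS hQ hn ((ofE t)⁻¹ * coordS θ (hcoord θ hθfix)) = 1 := by
    rw [map_mul, map_inv, ← hθ, inv_mul_cancel]
  obtain ⟨c, hc0, hc'⟩ := (conjS_eq_one_iff hQ hn r).1 h1
  have h2 : ∀ x : ι → F, (fun i => θ (x i)) = c • t.1 x := by
    intro x
    have h3 := hc' x
    have h4 : (ofE t).1.symm ((coordS θ (hcoord θ hθfix)).1 x) = c • x := h3
    have h5 : (coordS θ (hcoord θ hθfix)).1 x = t.1 (c • x) := by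
      rw [← h4]
      exact ((ofE t).1.apply_symm_apply _).symm
    rw [coordS_apply] at h5
    rw [h5, map_smul]
  have hne : Nonempty ι := by
    apply Fintype.card_pos_iff.1
    omega
  obtain ⟨i⟩ := hne
  have hθ1 : θ = RingEquiv.refl F := by
    ext d
    have h3 := congrFun (h2 (d • fun _ => 1)) i
    have h4 := congrFun (h2 (fun _ => 1)) i
    rw [map_smul, smul_comm] at h3
    have h5 : θ ((d • fun _ : ι => (1 : F)) i) = d • (c • t.1 fun _ => 1) i := h3
    rw [← h4] at h5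
    simpa using h5
  subst hθ1
  have h3 : conjS hQ hn (coordS (RingEquiv.refl F) (hcoord _ hθfix)) = 1 :=
    (conjS_eq_one_iff hQ hn r).2 ⟨1, one_ne_zero, fun x => by
      rw [one_smul]
      rfl⟩
  rw [h3, conjS_ofE hQ hn] at hθ
  exact conj_injective hQ hn7 (by rw [hθ, map_one])

include hQ hn r in
theorem field_LL' (hn7 : 7 ≤ Fintype.card ι) (h8 : NoSolid Q) (hcoord : Stable Q σ) {f : ℕ}
    (hF : Fintype.card F = r ^ f) (hf : 1 ≤ f) {p : ℕ} (hord : orderOf σ = p) (α : MulAut (Cfsg.POmega F ⇑Q))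
    (hα : ∀ l ∈ LL hσ, α l = l) (hcop : (orderOf α).Coprime p) : α = 1 := by
  obtain ⟨θ, hθ, rfl⟩ := cent_of_fix' hσ hQ hn r hn7 h8 hcoord α hα
  rw [orderOf_conjS_coord hQ hn r θ (hcoord θ hθ)] at hcop
  have h1 := Cfsg.Agent.Lib.LocalBal.SpCent.eq_one_of_fix hF hf σ θ hord hcop hθ
  subst h1
  exact (conjS_eq_one_iff hQ hn r).2 ⟨1, one_ne_zero, fun x => by
    rw [one_smul]
    rfl⟩

end Cfsg.Agent.Lib.LocalBalM.PortA
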