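/-
S2733, module FC. CLAIM on forum topic S2733 before working; edit only your sorries; extra helper lemmas fine (prefix names to avoid clashes); statements are exact unless announced.
exists_aniso_fix: Fx σ finite field: ElusT.QModel.exists_aniso gives a₀ b₀ in Fx σ anisotropic there. Over F: a non-trivial zero gives a root ρ ∈ F of X² + a₀X + b₀ (z₂ ≠ 0, since z₁² = 0 if z₂ = 0), not in Fx σ. σ permutes the roots (two at most): σ ρ = ρ or the other one; σ² ρ = ρ; with orderOf σ odd: σ ρ = ρ: ρ ∈ Fx σ, contradiction.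
field_conj: Θ from OmegaMinusConj.exists_Θ with Q' = minusForm a' b' (Q'(Θ y) = Q y). T' := Θ T Θ⁻¹: Semi Q' T' σ l, crossBack T' = T. OmegaCross.conjS_cross: crossP (x z) = conjS T' (crossP z). thetaHom Q' T' = σ (thetaHom_eq); T' (coordS σ)⁻¹ ∈ ker thetaHom so = toSemi g (OmegaOutOdd.exists_toSemi_of_ker), see OmOdd.exists_field_conj. OmegaMinusConj.conj_no_lagr (isClassSub_Pm, no_lagr_minus hab', semiOfCoord, hσo, coordS_pow_order, v = Pi.single (Sum.inr 0) 1 fixed by coordS, Q' v = 1 ≠ 0) gives h ∈ Pm: conjS T' = h conjS(coordS) h⁻¹. ψ := crossP.trans (conj h)⁻¹.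
-/
import Mathlib
import Cfsg.Agent.Lib.LocalBal.OmOdd
import Cfsg.Agent.Lib.Classical.OmegaMinusConj
import Cfsg.Agent.Lib.LocalBalM.PortA
import Cfsg.Agent.Lib.ElusT.QModel

set_option autoImplicit false
set_option linter.unusedSectionVars false
set_option linter.unusedVariables false
set_option linter.unusedSimpArgs false
set_option linter.style.haveILetI false

namespace Cfsg.Agent.Lib.LocalBalM.FC

open Module MulAction QuadraticMap Matrix Cfsg.Agent.Lib.Witt.Quadratic Cfsg.Agent.Lib.Orth.Refl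
open Cfsg.Agent.Lib.Orth.Gen Cfsg.Agent.Lib.OrthRefl.Eichler Cfsg.Agent.Lib.Classical.QuadEichler
open Cfsg.Agent.Lib.Classical.QuadEichSimple Cfsg.Agent.Lib.Classical.OmegaHP Cfsg.Agent.Lib.Classical.OmegaLocal
open Cfsg.Agent.Lib.Classical.OmegaRoot Cfsg.Agent.Lib.Classical.OmegaSemi Cfsg.Agent.Lib.Classical.OmegaConj
open Cfsg.Agent.Lib.Classical.OmegaBar Cfsg.Agent.Lib.Classical.OmegaAut Cfsg.Agent.Lib.Classical.OmegaCount
open Cfsg.Agent.Lib.Orth.Forms Cfsg.Agent.Lib.Classical.BinaryForms Cfsg.Agent.Lib.Classical.QuadEichBridge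
open Cfsg.Agent.Lib.Classical.OmegaForms Cfsg.Agent.Lib.Classical.OmegaOut Cfsg.Agent.Lib.Orth.Bridge
open Cfsg.Agent.Lib.Classical.MatrixBridge Cfsg.Agent.Lib.Orth.Closure
open Cfsg.Agent.Lib.Classical.OmegaPGO Cfsg.Agent.Lib.Classical.OmegaPGO2 Cfsg.Agent.Lib.Classical.OmegaFrob
open Cfsg.Agent.Lib.Classical.OmegaOutOdd Cfsg.Agent.Lib.Classical.OmegaDesc Cfsg.Agent.Lib.Classical.OmegaFieldOdd
open Cfsg.Agent.Lib.LocalBal.OmEmb Cfsg.Agent.Lib.LocalBal.OmFix Cfsg.Agent.Lib.LocalBal.Core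
open Cfsg.Agent.Lib.LocalBal.OmMain
open scoped commutatorElement

universe u

variable {F : Type u} [Field F] [Fintype F] {k : ℕ} {a b : F}
open Cfsg.Agent.Lib.Classical.OmegaMinusConj Cfsg.Agent.Lib.Classical.OmegaCross Cfsg.Agent.Lib.Classical.OmegaMinusP Cfsg.Agent.Lib.Classical.OmegaPlusConj

/-- Anisotropic binary forms with fixed coefficients. -/
theorem exists_aniso_fix (σ : F ≃+* F) (hodd : Odd (orderOf σ)) :
    ∃ a' b' : F, σ a' = a' ∧ σ b' = b' ∧ ∀ z₁ z₂ : F, z₁ ^ 2 + a' * z₁ * z₂ + b' * z₂ ^ 2 = 0 → z₁ = 0 ∧ z₂ = 0 := by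
  classical
  let K : Subfield F := RingHom.eqLocusField (σ : F →+* F) (RingHom.id F)
  haveI : Fintype K := Fintype.ofFinite _
  obtain ⟨a₀, b₀, hab⟩ := Cfsg.Agent.Lib.ElusT.QModel.exists_aniso (F := K)
  have hfix : ∀ y : K, σ (y : F) = y := fun y => y.2
  refine ⟨a₀, b₀, hfix a₀, hfix b₀, ?_⟩
  intro z₁ z₂ hz
  by_cases hz2 : z₂ = 0
  · subst hz2
    have : z₁ ^ 2 = 0 := by simpa using hz
    exact ⟨pow_eq_zero_iff (two_ne_zero) |>.mp this, rfl⟩
  exfalso
  -- the root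
  set ρ : F := z₁ / z₂ with hρ
  have hroot : ρ ^ 2 + (a₀ : F) * ρ + (b₀ : F) = 0 := by
    rw [hρ]
    field_simp
    linear_combination hz
  have hroot' : (σ ρ) ^ 2 + (a₀ : F) * σ ρ + (b₀ : F) = 0 := by
    have := congrArg σ hroot
    simpa [map_add, map_mul, map_pow, hfix] using this
  have hcases : σ ρ = ρ ∨ σ ρ = -(a₀ : F) - ρ := by
    have h0 : (σ ρ - ρ) * (σ ρ + ρ + (a₀ : F)) = 0 := by linear_combination hroot' - hroot
    rcases mul_eq_zero.mp h0 with h | h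
    · exact Or.inl (sub_eq_zero.mp h)
    · right
      linear_combination h
  have hσρ : σ ρ = ρ := by
    rcases hcases with h | h
    · exact h
    have h2 : σ (σ ρ) = ρ := by
      rw [h]
      simp only [map_sub, map_neg, hfix, h]
      ring
    have hpow : ∀ m : ℕ, (σ ^ (2 * m + 1)) ρ = σ ρ := by
      intro m
      induction m with
      | zero => simp
      | succ m ih =>
        have e : 2 * (m + 1) + 1 = (2 * m + 1) + 2 := by ring
        rw [e, pow_add, pow_two]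
        change (σ ^ (2 * m + 1)) (σ (σ ρ)) = σ ρ
        rw [h2, ih]
    obtain ⟨m, hm⟩ := hodd
    have h3 := hpow m
    rw [← hm, pow_orderOf_eq_one] at h3
    exact h3.symm
  let ρ' : K := ⟨ρ, hσρ⟩
  have h5 := hab ρ' 1 (by
    apply Subtype.ext
    simpa [ρ'] using hroot)
  exact one_ne_zero h5.2

set_option maxHeartbeats 2000000 in
/-- An automorphism of prime order `p` with field part `σ` of order `p` is a standard field automorphism. -/
theorem field_conj (hk : 3 ≤ k) (hab : ∀ z₁ z₂ : F, z₁ ^ 2 + a * z₁ * z₂ + b * z₂ ^ 2 = 0 → z₁ = 0 ∧ z₂ = 0)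
    (hn : 5 ≤ Fintype.card ((Fin k ⊕ Fin k) ⊕ Fin 2)) (r : ℕ) [Fact r.Prime] [CharP F r] {p : ℕ} [Fact p.Prime]
    (x : MulAut (Cfsg.POmega F ⇑(minusForm k F a b))) (hord : orderOf x = p) (T : SemiEl (minusForm k F a b))
    {σ : F ≃+* F} {l : F} (H : Semi (minusForm k F a b) T.1 σ l) (hTx : conjS (minusForm_nondeg (F := F) k hab) hn T = x)
    (hσo : orderOf σ = p) (a' b' : F) (hσa : σ a' = a') (hσb : σ b' = b')
    (hab' : ∀ z₁ z₂ : F, z₁ ^ 2 + a' * z₁ * z₂ + b' * z₂ ^ 2 = 0 → z₁ = 0 ∧ z₂ = 0) :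
    ∃ ψ : Cfsg.POmega F ⇑(minusForm k F a b) ≃* Cfsg.POmega F ⇑(minusForm k F a' b'),
      (ψ.symm.trans x).trans ψ = conjS (minusForm_nondeg (F := F) k hab') hn (coordS σ (coord_minus a' b' σ hσa hσb)) := by
  classical
  have hQ := minusForm_nondeg (F := F) k hab
  have hQ' := minusForm_nondeg (F := F) k hab'
  have hσ' : ∀ y : (Fin k ⊕ Fin k) ⊕ Fin 2 → F, minusForm k F a' b' (fun i => σ (y i)) = σ (minusForm k F a' b' y) :=
    coord_minus a' b' σ hσa hσb
  obtain ⟨Θ, hΘ⟩ := exists_Θ (k := k) hab hab'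
  have hΘs : ∀ y, minusForm k F a b (Θ.symm y) = minusForm k F a' b' y := fun y => by
    rw [← hΘ, Θ.apply_symm_apply]
  let T' : SemiEl (minusForm k F a' b') := crossBack Θ.symm hΘs T
  have HT' : Semi (minusForm k F a' b') T'.1 σ l := back_semi Θ.symm hΘs H
  have hback : crossBack Θ hΘ T' = T := by
    apply Subtype.ext
    ext1 y
    rw [crossBack_apply]
    change Θ.symm (Θ (T.1 (Θ.symm (Θ y)))) = T.1 y
    simp
  have hcross : ((crossP Θ hΘ).symm.trans x).trans (crossP Θ hΘ) = conjS hQ' hn T' := by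
    ext z
    have h1 := conjS_cross Θ hΘ hQ hQ' hn T' ((crossP Θ hΘ).symm z)
    rw [hback, MulEquiv.apply_symm_apply] at h1
    rw [← h1, ← hTx]
    rfl
  have hθT : thetaHom _ T' = σ := thetaHom_eq T' HT'
  have hθc : thetaHom _ (coordS σ hσ') = σ := thetaHom_eq _ (semiOfCoord σ hσ')
  have hker : T' * (coordS σ hσ')⁻¹ ∈ (thetaHom (minusForm k F a' b')).ker := by
    rw [MonoidHom.mem_ker, map_mul, map_inv, hθT, hθc, mul_inv_cancel]
  obtain ⟨δ, hδ⟩ := exists_toSemi_of_ker hQ' r hker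
  have hT' : T' = toSemi _ δ * coordS σ hσ' := by
    rw [hδ]
    group
  have hcs : conjS hQ' hn T' = conjHom _ δ * conjS hQ' hn (coordS σ hσ') := by
    rw [hT', map_mul, conjS_toSemi]
  have hordδ : (conjHom _ δ * conjS hQ' hn (coordS σ hσ')) ^ p = 1 := by
    rw [← hcs, ← hcross, ← hord]
    have h1 : orderOf (((crossP Θ hΘ).symm.trans x).trans (crossP Θ hΘ)) = orderOf x :=
      (MulAut.congr (crossP Θ hΘ)).orderOf_eq x
    rw [← h1]
    exact pow_orderOf_eq_one _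
  have hn' : 5 ≤ 2 * k + 2 := by omega
  have hv₁ : ∀ i, σ ((Pi.single (Sum.inr 0) 1 : (Fin k ⊕ Fin k) ⊕ Fin 2 → F) i) = (Pi.single (Sum.inr 0) 1 : (Fin k ⊕ Fin k) ⊕ Fin 2 → F) i := by
    intro i
    by_cases h : i = Sum.inr 0
    · subst h
      simp
    · simp [h]
  have hQv₁ : minusForm k F a' b' (Pi.single (Sum.inr 0) 1) ≠ 0 := by
    rw [coe_minusForm]
    simp [Cfsg.quadFormMinus]
  obtain ⟨h, hh, he⟩ := conj_no_lagr hQ' hn r (card_minus' k) (Pm hn' hab') (isClassSub_Pm hn' hab') (no_lagr_minus hab')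
    (semiOfCoord σ hσ') hσo (coordS_pow_order hσ' hσo) (v := Pi.single (Sum.inr 0) 1) (c := 1) (by
      rw [one_smul]
      funext i
      exact hv₁ i) hQv₁ δ hordδ
  set A : MulAut (Cfsg.POmega F ⇑(minusForm k F a' b')) := conjHom _ h with hA
  set C := conjS hQ' hn (coordS σ hσ') with hC
  refine ⟨(crossP Θ hΘ).trans (A⁻¹ : MulAut _), ?_⟩
  ext z
  have h1 : conjS hQ' hn T' = A * C * A⁻¹ := hcs.trans he
  have h2 := DFunLike.congr_fun hcross (A z)
  rw [h1] at h2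
  have h3 : (A * C * A⁻¹) (A z) = A (C z) := by
    change A (C (A⁻¹ (A z))) = A (C z)
    rw [MulAut.inv_apply_self]
  rw [h3] at h2
  have h4 : ((crossP Θ hΘ).symm.trans x).trans (crossP Θ hΘ) (A z) = crossP Θ hΘ (x ((crossP Θ hΘ).symm (A z))) := rfl
  rw [h4] at h2
  change (A⁻¹ : MulAut _) (crossP Θ hΘ (x ((crossP Θ hΘ).symm ((A⁻¹⁻¹ : MulAut _) z)))) = C z
  rw [inv_inv, h2]
  exact MulAut.inv_apply_self _ _ _

end Cfsg.Agent.Lib.LocalBalM.FC
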