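/-
S2733, module PortB. CLAIM on forum topic S2733 before working; edit only your sorries; extra helper lemmas fine (prefix names to avoid clashes); statements are exact unless announced.
Versions of OmMain.fixed_matrix, norm_LL, mem_LL_of_odd without hZ (the centre of Ω may be ±1), for σ of odd order.
fixed_matrix': as fixed_matrix up to `h3 : u⁻¹ * s' ∈ center (Ω)`. Centre of Ω = scalars (omegaEquiv, scalar_of_mem_center): s' = c u (as matrices), c² = 1 (scalar_sq). So u.map σ = c • u (σ c = c since c = ±1). Iterating: u.map (σ^k) = c^k • u; with k = orderOf σ odd: u = c u, u invertible: c = 1. So u.map σ = u.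
norm_LL' and mem_LL_of_odd': the proofs of norm_LL and mem_LL_of_odd with fixed_matrix'.
-/
import Mathlib
import Cfsg.Agent.Lib.LocalBal.OmOdd

set_option autoImplicit false
set_option linter.unusedSectionVars false
set_option linter.unusedVariables false
set_option linter.unusedSimpArgs false
set_option linter.style.haveILetI false

namespace Cfsg.Agent.Lib.LocalBalM.PortB

open Module MulAction QuadraticMap Matrix Cfsg.Agent.Lib.Witt.Quadratic Cfsg.Agent.Lib.Orth.Refl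
open Cfsg.Agent.Lib.Orth.Gen Cfsg.Agent.Lib.OrthRefl.Eichler Cfsg.Agent.Lib.Classical.QuadEichler
open Cfsg.Agent.Lib.Classical.QuadEichSimple Cfsg.Agent.Lib.Classical.OmegaHP Cfsg.Agent.Lib.Classical.OmegaLocal
open Cfsg.Agent.Lib.Classical.OmegaRoot Cfsg.Agent.Lib.Classical.OmegaSemi Cfsg.Agent.Lib.Classical.OmegaConj
open Cfsg.Agent.Lib.Classical.OmegaBar Cfsg.Agent.Lib.Classical.OmegaAut Cfsg.Agent.Lib.Classical.OmegaCount
open Cfsg.Agent.Lib.Orth.Forms Cfsg.Agent.Lib.Classical.BinaryForms Cfsg.Agent.Lib.Classical.QuadEichBridge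
open Cfsg.Agent.Lib.Classical.OmegaForms Cfsg.Agent.Lib.Classical.OmegaOut Cfsg.Agent.Lib.Orth.Bridge
open Cfsg.Agent.Lib.Classical.MatrixBridge Cfsg.Agent.Lib.Orth.Closure
open Cfsg.Agent.Lib.Classical.OmegaPGO Cfsg.Agent.Lib.Classical.OmegaPGO2 Cfsg.Agent.Lib.Classical.OmegaFrob
open Cfsg.Agent.Lib.Classical.OmegaOutOdd Cfsg.Agent.Lib.Classical.OmegaDesc Cfsg.Agent.Lib.Classical.OmegaFieldOdd
open Cfsg.Agent.Lib.LocalBal.OmEmb Cfsg.Agent.Lib.LocalBal.OmFix Cfsg.Agent.Lib.LocalBal.Core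
open Cfsg.Agent.Lib.LocalBal.OmMain
open scoped commutatorElement

universe u

variable {F : Type u} [Field F] [Fintype F] {ι : Type} [Fintype ι] [DecidableEq ι]
variable {Q : QuadraticForm F (ι → F)}
variable {σ : F ≃+* F} (hσ : ∀ x : ι → F, Q (fun i => σ (x i)) = σ (Q x))
variable (hQ : (polarBilin Q).Nondegenerate) (hn : 5 ≤ Fintype.card ι)

theorem fixed_matrix' (hoddσ : Odd (orderOf σ)) (u : Cfsg.Omega F ⇑Q)
    (h : XX hσ hQ hn (QuotientGroup.mk u) = QuotientGroup.mk u) :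
    (((u.1 : Cfsg.isometryGroup F ⇑Q) : GL ι F).val).map σ = ((u.1 : Cfsg.isometryGroup F ⇑Q) : GL ι F).val := by
  obtain ⟨s', hs'⟩ := exists_conj_mem hQ hn (coordS σ hσ) u
  have h1 : XX hσ hQ hn (QuotientGroup.mk u) = QuotientGroup.mk s' := conjS_mk hQ hn _ u s' hs'
  rw [h] at h1
  have h3 : u⁻¹ * s' ∈ Subgroup.center (Cfsg.Omega F ⇑Q) := QuotientGroup.eq.1 h1
  have hz' : omegaEquiv Q hQ hn (u⁻¹ * s') ∈ Subgroup.center (eGroup Q) := by
    rw [← Cfsg.Agent.Lib.Classical.SympSimple.map_center_mulEquiv (omegaEquiv Q hQ hn)]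
    exact ⟨_, h3, rfl⟩
  obtain ⟨c, hc'⟩ := scalar_of_mem_center hQ (by rw [finrank_eq]; exact hn) hz'
  set M : Matrix ι ι F := ((u.1 : Cfsg.isometryGroup F ⇑Q) : GL ι F).val with hM
  have hmat : ((s'.1 : Cfsg.isometryGroup F ⇑Q) : GL ι F).val = M.map σ := by
    apply Cfsg.Agent.Lib.Orth.Words.mat_eq_of_mulVec
    intro y
    obtain ⟨z, rfl⟩ := (coordEquiv (ι := ι) σ).surjective y
    have h6 := hs' z
    rw [coordS_apply, coordS_apply] at h6
    have e : (coordEquiv (ι := ι) σ z) = fun i => σ (z i) := rfl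
    rw [e, map_mulVec_coord, h6]
  -- `u⁻¹ s'` acts as the scalar `c`
  have hscal : ((u⁻¹ * s').1 : GL ι F).val = c • (1 : Matrix ι ι F) := by
    apply Cfsg.Agent.Lib.Orth.Words.mat_eq_of_mulVec
    intro y
    have h5 := omegaEquiv_apply Q hQ hn (u⁻¹ * s') y
    rw [hc'] at h5
    rw [← h5, Matrix.smul_mulVec, Matrix.one_mulVec]
  have hMs : M.map σ = c • M := by
    rw [← hmat]
    have e : s' = u * (u⁻¹ * s') := by group
    have e2 : ((s'.1 : Cfsg.isometryGroup F ⇑Q) : GL ι F).val = M * ((u⁻¹ * s').1 : GL ι F).val := by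
      conv_lhs => rw [e]
      rfl
    rw [e2, hscal, Matrix.mul_smul, Matrix.mul_one]
  -- `c² = 1`
  have hc1 : c = 1 ∨ c = -1 := Cfsg.Agent.Lib.Classical.QuadEichSimple.scalar_sq hQ (by rw [finrank_eq]; exact hn)
    (g := (omegaEquiv Q hQ hn (u⁻¹ * s')).1) (fun x => Q_e _ x) hc'
  have hcc : c * c = 1 := mul_self_eq_one_iff.2 hc1
  have hcσ : ∀ θ : F ≃+* F, θ c = c := by
    intro θ
    rcases hc1 with h6 | h6
    · rw [h6, map_one]
    · rw [h6, map_neg, map_one]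
  have hit : ∀ k : ℕ, M.map (σ ^ k) = c ^ k • M := by
    intro k
    induction k with
    | zero =>
      ext i j
      simp
    | succ k ih =>
      have e : ∀ x : F, (σ ^ (k + 1)) x = (σ ^ k) (σ x) := by
        intro x
        rw [pow_succ]
        rfl
      ext i j
      have h5 := congrFun (congrFun hMs i) j
      have h6 := congrFun (congrFun ih i) j
      simp only [Matrix.map_apply, Matrix.smul_apply, smul_eq_mul] at h5 h6 ⊢
      rw [e, h5, map_mul, hcσ, h6, pow_succ]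
      ring
  obtain ⟨m, hm⟩ := hoddσ
  have h5 := hit (orderOf σ)
  have h6 : M.map (σ ^ orderOf σ) = M := by
    rw [pow_orderOf_eq_one]
    ext i j
    rfl
  rw [h6, hm, pow_succ, pow_mul, _root_.sq c, hcc, one_pow, one_mul] at h5
  rw [hMs, ← h5]

theorem norm_LL' (hoddσ : Odd (orderOf σ)) (c : Cfsg.POmega F ⇑Q) (hc' : XX hσ hQ hn c = c) :
    ∀ l ∈ LL hσ, c * l * c⁻¹ ∈ LL hσ := by
  obtain ⟨u, rfl⟩ := QuotientGroup.mk_surjective c
  rintro _ ⟨t, rfl⟩
  obtain ⟨u₀, hu₀⟩ := exists_lift_iso hσ u.1 (fixed_matrix' hσ hQ hn hoddσ u hc')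
  let t' : Cfsg.Omega (Fx σ) ⇑(descend Q hσ) :=
    ⟨u₀ * t.1 * u₀⁻¹, (inferInstance : (commutator (Cfsg.isometryGroup (Fx σ) ⇑(descend Q hσ))).Normal).conj_mem t.1 t.2 u₀⟩
  refine ⟨t', ?_⟩
  rw [piO_apply, piO_apply]
  have h1 : jOm hσ t' = u * jOm hσ t * u⁻¹ := by
    apply Subtype.ext
    show jIso hσ (u₀ * t.1 * u₀⁻¹) = u.1 * jIso hσ t.1 * u.1⁻¹
    rw [map_mul, map_mul, map_inv, hu₀]
  rw [h1]
  rfl

theorem mem_LL_of_odd' (hn7 : 7 ≤ Fintype.card ι) (hoddσ : Odd (orderOf σ)) {p : ℕ} (hp2 : Odd p)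
    (y : Cfsg.POmega F ⇑Q) (hy : XX hσ hQ hn y = y) (hord : y ^ p = 1) : y ∈ LL hσ := by
  have hQ₀ := descend_nondeg Q hσ hQ
  obtain ⟨u, rfl⟩ := QuotientGroup.mk_surjective y
  obtain ⟨u₀, hu₀⟩ := exists_lift_iso hσ u.1 (fixed_matrix' hσ hQ hn hoddσ u hy)
  have h1 := sq_mem_omega (descend Q hσ) hQ₀ (Or.inr (by omega)) u₀
  have h2 : piO hσ ⟨u₀ ^ 2, h1⟩ = (QuotientGroup.mk u : Cfsg.POmega F ⇑Q) ^ 2 := by
    rw [piO_apply]
    have h3 : jOm hσ ⟨u₀ ^ 2, h1⟩ = u ^ 2 := by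
      apply Subtype.ext
      show jIso hσ (u₀ ^ 2) = (u ^ 2).1
      rw [map_pow, hu₀]
      rfl
    rw [h3]
    rfl
  obtain ⟨k, hk⟩ := hp2
  have h3 : (QuotientGroup.mk u : Cfsg.POmega F ⇑Q) = ((QuotientGroup.mk u : Cfsg.POmega F ⇑Q) ^ 2) ^ (k + 1) := by
    rw [← pow_mul]
    have e : 2 * (k + 1) = p + 1 := by omega
    rw [e, pow_succ, hord, one_mul]
  rw [h3, ← h2]
  exact (LL hσ).pow_mem ⟨_, rfl⟩ _

end Cfsg.Agent.Lib.LocalBalM.PortB
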