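/-
S2733, module PortC. CLAIM on forum topic S2733 before working; edit only your sorries; extra helper lemmas fine (prefix names to avoid clashes); statements are exact unless announced.
Copy of LocalBal.OmOdd.main_gen for p odd: replace norm_LL by norm_LL', cent_LL by cent_LL', field_LL by field_LL', mem_LL_of_odd by mem_LL_of_odd'. The case p = 2 disappears (hp : Odd p).
-/
import Mathlib
import Cfsg.Agent.Lib.LocalBalM.PortA
import Cfsg.Agent.Lib.LocalBalM.PortB

set_option autoImplicit false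
set_option linter.unusedSectionVars false
set_option linter.unusedVariables false
set_option linter.unusedSimpArgs false
set_option linter.style.haveILetI false

namespace Cfsg.Agent.Lib.LocalBalM.PortC

open Module MulAction QuadraticMap Matrix Cfsg.Agent.Lib.Witt.Quadratic Cfsg.Agent.Lib.Orth.Refl
open Cfsg.Agent.Lib.Orth.Gen Cfsg.Agent.Lib.OrthRefl.Eichler Cfsg.Agent.Lib.Classical.QuadEichler
open Cfsg.Agent.Lib.Classical.QuadEichSimple Cfsg.Agent.Lib.Classical.OmegaHP Cfsg.Agent.Lib.Classical.OmegaLocal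
open Cfsg.Agent.Lib.Classical.OmegaRoot Cfsg.Agent.Lib.Classical.OmegaSemi Cfsg.Agent.Lib.Classical.OmegaConj
open Cfsg.Agent.Lib.Classical.OmegaBar Cfsg.Agent.Lib.Classical.OmegaAut Cfsg.Agent.Lib.Classical.OmegaCount
open Cfsg.Agent.Lib.Orth.Forms Cfsg.Agent.Lib.Classical.BinaryForms Cfsg.Agent.Lib.Classical.QuadEichBridge
open Cfsg.Agent.Lib.Classical.OmegaForms Cfsg.Agent.Lib.Classical.OmegaOut Cfsg.Agent.Lib.Orth.Bridge
open Cfsg.Agent.Lib.Classical.MatrixBridge Cfsg.Agent.Lib.Orth.Closure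
open Cfsg.Agent.Lib.Classical.OmegaPGO Cfsg.Agent.Lib.Classical.OmegaPGO2 Cfsg.Agent.Lib.Classical.OmegaFrob
open Cfsg.Agent.Lib.Classical.OmegaOutOdd Cfsg.Agent.Lib.Classical.OmegaDesc Cfsg.Agent.Lib.Classical.OmegaFieldOdd
open Cfsg.Agent.Lib.LocalBal.OmEmb Cfsg.Agent.Lib.LocalBal.OmFix Cfsg.Agent.Lib.LocalBal.Core
open Cfsg.Agent.Lib.LocalBal.OmMain
open scoped commutatorElement

universe u

variable {F : Type u} [Field F] [Fintype F] {ι : Type} [Fintype ι] [DecidableEq ι]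
variable {Q : QuadraticForm F (ι → F)}
open Cfsg.Agent.Lib.LocalBalM.PortA Cfsg.Agent.Lib.LocalBalM.PortB
variable (hQ : (polarBilin Q).Nondegenerate) (hn : 5 ≤ Fintype.card ι)
variable (r : ℕ) [hr : Fact r.Prime] [hc : CharP F r]

include hQ hn r in
theorem main_gen' (hn7 : 7 ≤ Fintype.card ι) (h8 : NoSolid Q) {σ : F ≃+* F}
    (hσ : ∀ x : ι → F, Q (fun i => σ (x i)) = σ (Q x)) (hcoord : Stable Q σ)
    (A : Subgroup (MulAut (Cfsg.POmega F ⇑Q))) (hinn : ∀ k : Cfsg.POmega F ⇑Q, MulAut.conj k ∈ A)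
    {p : ℕ} [Fact p.Prime] (hp : Odd p) (x h : MulAut (Cfsg.POmega F ⇑Q))
    (hσo : orderOf σ = p) (hx : x = h * conjS hQ hn (coordS σ hσ) * h⁻¹) :
    Cfsg.pPrimeCore p ↥(A ⊓ Subgroup.centralizer {x}) ≠ ⊥ ↔
      Nat.Coprime p (Nat.card ↥(MonoidHom.eqLocus x.toMonoidHom (MonoidHom.id (Cfsg.POmega F ⇑Q)))) := by
  classical
  have hpp : p.Prime := Fact.out
  set X := conjS hQ hn (coordS σ hσ) with hX
  have hcardeq := card_Fixed_conj h X x hx
  have hcj := conj_injective (Q := Q) hQ hn7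
  obtain ⟨f, hr', hF⟩ := FiniteField.card F r
  have hoddσ : Odd (orderOf σ) := by rw [hσo]; exact hp
  constructor
  · intro hcore
    by_contra hcop
    have hdiv : p ∣ Nat.card (Fixed X) := by
      rw [← hcardeq]
      exact (Nat.Prime.dvd_iff_not_coprime hpp).2 hcop
    have hdvdL : p ∣ Nat.card (LL hσ) := by
      obtain ⟨y, hy⟩ := exists_prime_orderOf_dvd_card' p hdiv
      have h3 : y.1 ∈ LL hσ := mem_LL_of_odd' hσ hQ hn hn7 hoddσ hp y.1 y.2 (by
        have : orderOf y.1 = p := by rw [Subgroup.orderOf_coe, hy]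
        rw [← this]
        exact pow_orderOf_eq_one _)
      have h4 : orderOf y.1 = p := by rw [Subgroup.orderOf_coe, hy]
      rw [← h4]
      exact Subgroup.orderOf_dvd_natCard _ h3
    exact hcore (core_eq_bot hcj X (LL hσ) (fix_LL hσ hQ hn) (norm_LL' hσ hQ hn hoddσ)
      (dich_LL hσ hQ hn7 hdvdL) (cent_LL' hσ hQ hn r hn7 h8 hcoord)
      (field_LL' hσ hQ hn r hn7 h8 hcoord hF f.pos hσo) A hinn h x hx)
  · intro hcop
    refine core_ne_bot hcj A hinn x ?_ hcop
    obtain ⟨t, ht⟩ := exists_piO_ne hσ hQ hn r hn7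
    refine ⟨h (piO hσ t), ?_, ?_⟩
    · show x (h (piO hσ t)) = h (piO hσ t)
      rw [hx]
      show h (X (h⁻¹ (h (piO hσ t)))) = h (piO hσ t)
      rw [show h⁻¹ (h (piO hσ t)) = piO hσ t from MulEquiv.symm_apply_apply h _, fix_LL hσ hQ hn _ ⟨t, rfl⟩]
    · intro h1
      apply ht
      have h3 : h (piO hσ t) = h 1 := by rw [h1, map_one]
      exact h.injective h3

end Cfsg.Agent.Lib.LocalBalM.PortC
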