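/-
S2733, module Tr. CLAIM on forum topic S2733 before working; edit only your sorries; extra helper lemmas fine (prefix names to avoid clashes); statements are exact unless announced.
pPrimeCore and fixed points transported along a group isomorphism ψ : K ≃* K'. x' = (ψ.symm.trans x).trans ψ, A' = A.map (MulAut.congr ψ). A ⊓ C(x) ≃* A' ⊓ C(x') by MulAut.congr ψ; pPrimeCore is invariant under isomorphism (sSup over normal p'-subgroups, Subgroup.map); eqLocus by ψ.
-/
import Mathlib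
import Cfsg.Agent.Lib.LocalBal.OmOdd

set_option autoImplicit false
set_option linter.unusedSectionVars false
set_option linter.unusedVariables false
set_option linter.unusedSimpArgs false
set_option linter.style.haveILetI false

namespace Cfsg.Agent.Lib.LocalBalM.Tr

open Module MulAction QuadraticMap Matrix Cfsg.Agent.Lib.Witt.Quadratic Cfsg.Agent.Lib.Orth.Refl
open Cfsg.Agent.Lib.Orth.Gen Cfsg.Agent.Lib.OrthRefl.Eichler Cfsg.Agent.Lib.Classical.QuadEichler
open Cfsg.Agent.Lib.Classical.QuadEichSimple Cfsg.Agent.Lib.Classical.OmegaHP Cfsg.Agent.Lib.Classical.OmegaLocal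
open Cfsg.Agent.Lib.Classical.OmegaRoot Cfsg.Agent.Lib.Classical.OmegaSemi Cfsg.Agent.Lib.Classical.OmegaConj
open Cfsg.Agent.Lib.Classical.OmegaBar Cfsg.Agent.Lib.Classical.OmegaAut Cfsg.Agent.Lib.Classical.OmegaCount
open Cfsg.Agent.Lib.Orth.Forms Cfsg.Agent.Lib.Classical.BinaryForms Cfsg.Agent.Lib.Classical.QuadEichBridge
open Cfsg.Agent.Lib.Classical.OmegaForms Cfsg.Agent.Lib.Classical.OmegaOut Cfsg.Agent.Lib.Orth.Bridge
open Cfsg.Agent.Lib.Classical.MatrixBridge Cfsg.Agent.Lib.Orth.Closure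
open Cfsg.Agent.Lib.Classical.OmegaPGO Cfsg.Agent.Lib.Classical.OmegaPGO2 Cfsg.Agent.Lib.Classical.OmegaFrob
open Cfsg.Agent.Lib.Classical.OmegaOutOdd Cfsg.Agent.Lib.Classical.OmegaDesc Cfsg.Agent.Lib.Classical.OmegaFieldOdd
open Cfsg.Agent.Lib.LocalBal.OmEmb Cfsg.Agent.Lib.LocalBal.OmFix Cfsg.Agent.Lib.LocalBal.Core
open Cfsg.Agent.Lib.LocalBal.OmMain
open scoped commutatorElement

universe u

variable {K K' : Type*} [Group K] [Group K']

theorem core_eq_bot_of_equiv {A B : Type*} [Group A] [Group B] (e : A ≃* B) (p : ℕ)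
    (h : Cfsg.pPrimeCore p A = ⊥) : Cfsg.pPrimeCore p B = ⊥ := by
  rw [Cfsg.pPrimeCore, sSup_eq_bot] at h ⊢
  rintro N ⟨hN, hc⟩
  have hN' : (N.comap e.toMonoidHom).Normal := hN.comap _
  have hcard : Nat.card (N.comap e.toMonoidHom) = Nat.card N := by
    have e2 : (N.comap e.toMonoidHom) ≃* N :=
      (MulEquiv.subgroupMap e (N.comap e.toMonoidHom)).trans
        (MulEquiv.subgroupCongr (by
          exact Subgroup.map_comap_eq_self_of_surjective (f := e.toMonoidHom) e.surjective N))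
    exact Nat.card_congr e2.toEquiv
  have h1 := h _ ⟨hN', by rw [hcard]; exact hc⟩
  rw [eq_bot_iff]
  intro x hx
  have h2 : e.symm x ∈ N.comap e.toMonoidHom := by
    show e (e.symm x) ∈ N
    rw [MulEquiv.apply_symm_apply]; exact hx
  rw [h1, Subgroup.mem_bot] at h2
  have h3 := congrArg e h2
  rw [MulEquiv.apply_symm_apply, map_one] at h3
  rw [h3]; exact Subgroup.one_mem _

theorem core_transfer (ψ : K ≃* K') (p : ℕ) (A : Subgroup (MulAut K)) (x : MulAut K) :
    Cfsg.pPrimeCore p ↥(A ⊓ Subgroup.centralizer {x}) = ⊥ ↔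
      Cfsg.pPrimeCore p ↥(A.map (MulAut.congr ψ).toMonoidHom ⊓ Subgroup.centralizer {(ψ.symm.trans x).trans ψ}) = ⊥ := by
  have hx : (MulAut.congr ψ) x = (ψ.symm.trans x).trans ψ := rfl
  have hEq : (A ⊓ Subgroup.centralizer {x}).map (MulAut.congr ψ).toMonoidHom =
      A.map (MulAut.congr ψ).toMonoidHom ⊓ Subgroup.centralizer {(ψ.symm.trans x).trans ψ} := by
    rw [Subgroup.map_inf _ _ _ ((MulAut.congr ψ).injective)]
    congr 1
    ext y
    simp only [Subgroup.mem_map, Subgroup.mem_centralizer_iff, Set.mem_singleton_iff, forall_eq]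
    constructor
    · rintro ⟨z, hz, rfl⟩
      rw [← hx]
      show (MulAut.congr ψ) x * (MulAut.congr ψ) z = (MulAut.congr ψ) z * (MulAut.congr ψ) x
      rw [← map_mul, ← map_mul, hz]
    · intro hy
      refine ⟨(MulAut.congr ψ).symm y, ?_, (MulAut.congr ψ).apply_symm_apply y⟩
      apply (MulAut.congr ψ).injective
      rw [map_mul, map_mul, MulEquiv.apply_symm_apply, hx]
      exact hy
  let e : ↥(A ⊓ Subgroup.centralizer {x}) ≃* ↥(A.map (MulAut.congr ψ).toMonoidHom ⊓ Subgroup.centralizer {(ψ.symm.trans x).trans ψ}) :=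
    (MulEquiv.subgroupMap (MulAut.congr ψ) _).trans (MulEquiv.subgroupCongr hEq)
  exact ⟨core_eq_bot_of_equiv e p, core_eq_bot_of_equiv e.symm p⟩

theorem card_fixed_transfer (ψ : K ≃* K') (x : MulAut K) :
    Nat.card ↥(MonoidHom.eqLocus x.toMonoidHom (MonoidHom.id K)) =
      Nat.card ↥(MonoidHom.eqLocus ((ψ.symm.trans x).trans ψ : MulAut K').toMonoidHom (MonoidHom.id K')) := by
  refine Nat.card_congr (Equiv.subtypeEquiv ψ.toEquiv ?_)
  intro a
  show x a = a ↔ ψ (x (ψ.symm (ψ a))) = ψ a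
  rw [MulEquiv.symm_apply_apply]
  exact ⟨fun h => by rw [h], fun h => ψ.injective h⟩

end Cfsg.Agent.Lib.LocalBalM.Tr
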