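/-
S2733, assembly of types (a), (b) and the final theorem.
-/
import Mathlib
import Cfsg.Agent.Lib.LocalBalM.A1
import Cfsg.Agent.Lib.LocalBalM.A2
import Cfsg.Agent.Lib.LocalBalM.A3
import Cfsg.Agent.Lib.LocalBalM.B2
import Cfsg.Agent.Lib.LocalBalM.B3
import Cfsg.Agent.Lib.LocalBalM.PortC
import Cfsg.Agent.Lib.LocalBalM.Tr
import Cfsg.Agent.Lib.LocalBalM.FC
import Cfsg.Agent.Lib.LocalBalM.Cl

set_option autoImplicit false
set_option linter.unusedSectionVars false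
set_option linter.unusedVariables false
set_option linter.unusedSimpArgs false
set_option linter.style.haveILetI false

namespace Cfsg.Agent.Lib.LocalBalM.Top

open Module MulAction QuadraticMap Matrix Cfsg.Agent.Lib.Witt.Quadratic Cfsg.Agent.Lib.Orth.Refl
open Cfsg.Agent.Lib.Orth.Gen Cfsg.Agent.Lib.OrthRefl.Eichler Cfsg.Agent.Lib.Classical.QuadEichler
open Cfsg.Agent.Lib.Classical.QuadEichSimple Cfsg.Agent.Lib.Classical.OmegaHP Cfsg.Agent.Lib.Classical.OmegaLocal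
open Cfsg.Agent.Lib.Classical.OmegaRoot Cfsg.Agent.Lib.Classical.OmegaSemi Cfsg.Agent.Lib.Classical.OmegaConj
open Cfsg.Agent.Lib.Classical.OmegaBar Cfsg.Agent.Lib.Classical.OmegaAut Cfsg.Agent.Lib.Classical.OmegaCount
open Cfsg.Agent.Lib.Orth.Forms Cfsg.Agent.Lib.Classical.BinaryForms Cfsg.Agent.Lib.Classical.QuadEichBridge
open Cfsg.Agent.Lib.Classical.OmegaForms Cfsg.Agent.Lib.Classical.OmegaOut Cfsg.Agent.Lib.Orth.Bridge
open Cfsg.Agent.Lib.Classical.MatrixBridge Cfsg.Agent.Lib.Orth.Closure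
open Cfsg.Agent.Lib.Classical.OmegaPGO Cfsg.Agent.Lib.Classical.OmegaPGO2 Cfsg.Agent.Lib.Classical.OmegaFrob
open Cfsg.Agent.Lib.Classical.OmegaOutOdd Cfsg.Agent.Lib.Classical.OmegaDesc Cfsg.Agent.Lib.Classical.OmegaFieldOdd
open Cfsg.Agent.Lib.LocalBal.OmEmb Cfsg.Agent.Lib.LocalBal.OmFix Cfsg.Agent.Lib.LocalBal.Core
open Cfsg.Agent.Lib.LocalBal.OmMain
open scoped commutatorElement
open Cfsg.Agent.Lib.LocalBalM.A0 Cfsg.Agent.Lib.LocalBalM.B0 Cfsg.Agent.Lib.LocalBalM.A1 Cfsg.Agent.Lib.LocalBalM.A2 Cfsg.Agent.Lib.LocalBalM.A3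
open Cfsg.Agent.Lib.LocalBalM.B1 Cfsg.Agent.Lib.LocalBalM.B2 Cfsg.Agent.Lib.LocalBalM.B3 Cfsg.Agent.Lib.LocalBalM.PortA Cfsg.Agent.Lib.LocalBalM.PortC
open Cfsg.Agent.Lib.LocalBalM.Tr Cfsg.Agent.Lib.LocalBalM.FC Cfsg.Agent.Lib.LocalBalM.Cl Cfsg.Agent.Lib.LocalBalM.InvCore
open Cfsg.Agent.Lib.Classical.OmegaMinusConj Cfsg.Agent.Lib.Classical.OmegaMinusP Cfsg.Agent.Lib.Classical.OmegaType

universe u

section types

variable {F : Type u} [Field F] [Fintype F] {ι : Type} [Fintype ι] [DecidableEq ι]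
variable {Q : QuadraticForm F (ι → F)}
variable (hQ : (polarBilin Q).Nondegenerate) (hn : 5 ≤ Fintype.card ι) (r : ℕ) [hr : Fact r.Prime] [hc : CharP F r]

include hQ hn r in
theorem core_typeA (hn7 : 7 ≤ Fintype.card ι) (h8 : NoSolid Q) {T₀ : (ι → F) ≃ₗ[F] (ι → F)} (H : HypA Q T₀)
    (hdet : LinearMap.det (T₀ : (ι → F) →ₗ[F] (ι → F)) ≠ 1) {m : ℕ} (hcard : Fintype.card ι = 2 * m)
    (S₀ : SemiEl Q) (hS₀ : ∀ x, S₀.1 x = T₀ x)
    (A : Subgroup (MulAut (Cfsg.POmega F ⇑Q))) (hinn : ∀ k : Cfsg.POmega F ⇑Q, MulAut.conj k ∈ A)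
    (h x : MulAut (Cfsg.POmega F ⇑Q)) (hx : x = h * conjS hQ hn S₀ * h⁻¹) :
    Cfsg.pPrimeCore 2 ↥(A ⊓ Subgroup.centralizer {x}) = ⊥ := by
  refine core_of_data hQ hn r hn7 h8 S₀ (LtA Q T₀) ?_ ?_ (hD_A H S₀ hS₀) (hE_A H S₀ hS₀) (hZ_A H) (hodd_A H)
    (hB_A H hQ hn r S₀ hS₀) A hinn h x hx
  · rw [← map_pow]
    refine (conjS_eq_one_iff hQ hn r).2 ⟨1, one_ne_zero, fun v => ?_⟩
    rw [pow_two, SemiEl.mul_apply, hS₀, hS₀, H.inv, one_smul]
  · intro k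
    exact Cfsg.Agent.Lib.LocalBalM.Inner.not_inner hQ hn r hcard S₀ T₀ hS₀ 1 (fun v => by rw [H.iso, one_mul])
      (by rwa [one_pow]) k

include hQ hn r in
theorem core_typeB (hn7 : 7 ≤ Fintype.card ι) (h8 : NoSolid Q) {T₀ : (ι → F) ≃ₗ[F] (ι → F)} {l : F} {n' : ℕ}
    (H : HypB Q T₀ l n') (hdet : LinearMap.det (T₀ : (ι → F) →ₗ[F] (ι → F)) ≠ l ^ n')
    (S₀ : SemiEl Q) (hS₀ : ∀ x, S₀.1 x = T₀ x)
    (A : Subgroup (MulAut (Cfsg.POmega F ⇑Q))) (hinn : ∀ k : Cfsg.POmega F ⇑Q, MulAut.conj k ∈ A)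
    (h x : MulAut (Cfsg.POmega F ⇑Q)) (hx : x = h * conjS hQ hn S₀ * h⁻¹) :
    Cfsg.pPrimeCore 2 ↥(A ⊓ Subgroup.centralizer {x}) = ⊥ := by
  obtain ⟨E, _, _, _, ρ, ⟨D⟩⟩ := exists_KD H
  obtain ⟨psi, hpsi, hpsi'⟩ := exists_psi H D
  have hl0 : l ≠ 0 := by
    rintro rfl
    exact H.hl (IsSquare.zero)
  refine core_of_data hQ hn r hn7 h8 S₀ psi.range ?_ ?_ (hD_B H D psi hpsi hpsi' S₀ hS₀) (hE_B H D psi hpsi hpsi' S₀ hS₀)
    (hZ_B H D psi hpsi hpsi') (hodd_B H D psi hpsi hpsi') (hB_B H D psi hpsi hpsi' S₀ hS₀ hQ hn r) A hinn h x hx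
  · rw [← map_pow]
    refine (conjS_eq_one_iff hQ hn r).2 ⟨l, hl0, fun v => ?_⟩
    rw [pow_two, SemiEl.mul_apply, hS₀, hS₀, H.hT2]
  · intro k
    exact Cfsg.Agent.Lib.LocalBalM.Inner.not_inner hQ hn r H.hcard S₀ T₀ hS₀ l H.hQT hdet k

end types

theorem one_conj_aux {G : Type*} [Group G] (y : G) : y = 1 * y * 1⁻¹ := by
  simp

theorem congr_conj_aux {K K' : Type*} [Group K] [Group K'] (ψ : K ≃* K') (k : K') :
    (MulAut.congr ψ).toMonoidHom (MulAut.conj (ψ.symm k)) = MulAut.conj k := by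
  ext y
  show ψ (ψ.symm k * ψ.symm y * (ψ.symm k)⁻¹) = k * y * k⁻¹
  simp [map_mul, map_inv]

section main

variable {F : Type u} [Field F] [Fintype F] {m : ℕ} {a b : F}

/-- A field automorphism of prime order of `PΩ⁻` has odd order. -/
theorem field_odd (r : ℕ) [hr : Fact r.Prime] [hc : CharP F r] (hm : 3 ≤ m)
    (hab : ∀ z₁ z₂ : F, z₁ ^ 2 + a * z₁ * z₂ + b * z₂ ^ 2 = 0 → z₁ = 0 ∧ z₂ = 0)
    (x : MulAut (Cfsg.POmega F (Cfsg.quadFormMinus m F a b))) (hx : Cfsg.IsFieldAutClassPOmegaMinus m x)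
    (hxr : orderOf x = 2) : False := by
  have hn : 5 ≤ Fintype.card ((Fin m ⊕ Fin m) ⊕ Fin 2) := by
    rw [card_minus']
    omega
  obtain ⟨a', b', σ, T₀, l₀, v, c, hab', hσ1, hσa, hσb, hσr, H₀, hconj, hT₀, hv, hQv⟩ := exists_data r hm hab x hx hxr hn
  have ha'' : a' ∈ Fx σ := hσa
  have hb'' : b' ∈ Fx σ := hσb
  obtain ⟨ρ, hρ, -⟩ := exists_root_two (σ := σ) hσr (a₀ := ⟨a', ha''⟩) (b₀ := ⟨b', hb''⟩) (by
    intro z₁ z₂ hz
    have h1 := hab' z₁ z₂ (by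
      have := congrArg (fun t : Fx σ => (t : F)) hz
      simpa using this)
    exact ⟨Subtype.ext h1.1, Subtype.ext h1.2⟩)
  have h2 := hab' ρ 1 (by
    simp only at hρ
    linear_combination hρ)
  exact one_ne_zero h2.2

/-- **S2733.** -/
theorem main (r : ℕ) [hr : Fact r.Prime] [hc : CharP F r] (hm : 3 ≤ m)
    (hab : ∀ z₁ z₂ : F, z₁ ^ 2 + a * z₁ * z₂ + b * z₂ ^ 2 = 0 → z₁ = 0 ∧ z₂ = 0)
    (A : Subgroup (MulAut (Cfsg.POmega F (Cfsg.quadFormMinus m F a b))))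
    (hinn : ∀ k : Cfsg.POmega F (Cfsg.quadFormMinus m F a b), MulAut.conj k ∈ A) {p : ℕ} [hp : Fact p.Prime] (hpr : p ≠ r)
    (x : MulAut (Cfsg.POmega F (Cfsg.quadFormMinus m F a b))) (hord : orderOf x = p)
    (hnot : ¬ Cfsg.IsInnerDiagonalAutPOmegaMinus m a b x) :
    Cfsg.pPrimeCore p ↥(A ⊓ Subgroup.centralizer {x}) ≠ ⊥ ↔
      (Cfsg.IsFieldAutClassPOmegaMinus m x ∧ Nat.Coprime p
        (Nat.card ↥(MonoidHom.eqLocus x.toMonoidHom (MonoidHom.id (Cfsg.POmega F (Cfsg.quadFormMinus m F a b)))))) := by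
  classical
  have hn : 5 ≤ Fintype.card ((Fin m ⊕ Fin m) ⊕ Fin 2) := by
    rw [card_minus']
    omega
  have hn7 : 7 ≤ Fintype.card ((Fin m ⊕ Fin m) ⊕ Fin 2) := by
    rw [card_minus']
    omega
  have hQ := minusForm_nondeg (F := F) m hab
  obtain ⟨T, σ, l, H, hTx, hcase⟩ := classify hm hab hn r hpr x hord hnot
  rcases hcase with ⟨hσ1, hσo, hpodd⟩ | ⟨rfl, h2, g, c, hc0, hTg, hg2, hgQ, hdet⟩
  · -- field automorphisms
    have hoddσ : Odd (orderOf σ) := by rwa [hσo]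
    obtain ⟨a', b', hσa, hσb, hab'⟩ := exists_aniso_fix σ hoddσ
    have hQ' := minusForm_nondeg (F := F) m hab'
    obtain ⟨ψ, hψ⟩ := field_conj hm hab hn r x hord T H hTx hσo a' b' hσa hσb hab'
    have hσ' := coord_minus (k := m) a' b' σ hσa hσb
    have hclass : Cfsg.IsFieldAutClassPOmegaMinus m x := by
      have h5 := isField_conjS_coord hQ' hn σ hσ'
      rw [← hψ] at h5
      exact ⟨a', b', ψ, σ, hab', hσ1, hσa, hσb, h5⟩
    have hinn' : ∀ k : Cfsg.POmega F ⇑(minusForm m F a' b'), MulAut.conj k ∈ A.map (MulAut.congr ψ).toMonoidHom := by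
      intro k
      exact ⟨MulAut.conj (ψ.symm k), hinn _, congr_conj_aux ψ k⟩
    have hcoord : Stable (minusForm m F a' b') σ := by
      intro θ hθ y
      exact coord_minus a' b' θ (hθ _ hσa) (hθ _ hσb) y
    have key := Cfsg.Agent.Lib.LocalBalM.PortC.main_gen' hQ' hn r hn7 (noSolid_minus hab') hσ' hcoord
      (A.map (MulAut.congr ψ).toMonoidHom) hinn' hpodd ((ψ.symm.trans x).trans ψ) 1 hσo (by rw [one_mul, inv_one, mul_one]; exact hψ)
    have h1 : Nat.card ↥(MonoidHom.eqLocus x.toMonoidHom (MonoidHom.id (Cfsg.POmega F (Cfsg.quadFormMinus m F a b)))) = _ :=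
      card_fixed_transfer ψ x
    have h3 : Cfsg.pPrimeCore p ↥(A ⊓ Subgroup.centralizer {x}) = ⊥ ↔ _ := core_transfer ψ p A x
    constructor
    · intro hcore
      refine ⟨hclass, ?_⟩
      rw [h1]
      exact key.1 (fun h0 => hcore (h3.2 h0))
    · rintro ⟨-, hcop⟩ h0
      rw [h1] at hcop
      exact key.2 hcop (h3.1 h0)
  · -- improper involutions
    have hbot : Cfsg.pPrimeCore 2 ↥(A ⊓ Subgroup.centralizer {x}) = ⊥ := by
      rcases split_linear hm hab h2 g c l hc0 H.ne hg2 hgQ hdet with ⟨T₀, d, hd, hgd, HA, hdetA⟩ | HB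
      · let S₀ : SemiEl (minusForm m F a b) := ⟨T₀.toAddEquiv, RingEquiv.refl F, 1, ⟨fun c x => map_smul T₀ c x, fun x => by
          show minusForm m F a b (T₀ x) = _
          rw [HA.iso]
          simp, one_ne_zero⟩⟩
        have hS₀ : ∀ v, S₀.1 v = T₀ v := fun v => rfl
        have hTS : conjS hQ hn T = conjS hQ hn S₀ := by
          have h1 : conjS hQ hn (S₀⁻¹ * T) = 1 := by
            refine (conjS_eq_one_iff hQ hn r).2 ⟨d, hd, fun v => ?_⟩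
            show T₀.symm (T.1 v) = d • v
            rw [hTg, hgd, map_smul, T₀.symm_apply_apply]
          rw [map_mul, map_inv, inv_mul_eq_one] at h1
          exact h1.symm
        exact core_typeA hQ hn r hn7 (noSolid_minus hab) HA hdetA (card_minus' m) S₀ hS₀ A hinn 1 x
          ((hTx.symm.trans hTS).trans (one_conj_aux _))
      · exact core_typeB hQ hn r hn7 (noSolid_minus hab) HB hdet T hTg A hinn 1 x
          (hTx.symm.trans (one_conj_aux _))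
    exact iff_of_false (not_not.2 hbot) (fun h => field_odd r hm hab x h.1 hord)

end main

end Cfsg.Agent.Lib.LocalBalM.Top
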